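import Mathlib
import Cfsg.Agent.Lib.Basic.Glauberman
import Cfsg.Agent.Lib.Basic.CoprimeAction2

set_option autoImplicit false
set_option linter.unusedVariables false
set_option linter.unusedSectionVars false

namespace Cfsg.Agent.Lib.Components
namespace BW

open Subgroup
open scoped Pointwise commutatorElement

universe u

variable {H : Type u} [Group H] [Finite H]

/-- The elements of a subgroup, as a finset. -/
noncomputable def fs (U : Subgroup H) : Finset H := (Set.toFinite (U : Set H)).toFinset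

theorem mem_fs {U : Subgroup H} {x : H} : x ∈ fs U ↔ x ∈ U := by simp [fs]

theorem card_fs (U : Subgroup H) : (fs U).card = Nat.card U := by
  rw [fs, ← Set.ncard_eq_toFinset_card _ _, ← Nat.card_coe_set_eq]
  rfl

/-- The subgroups of order `p` of `A`. -/
noncomputable def Hyp (A : Subgroup H) (p : ℕ) : Finset (Subgroup H) :=
  (Set.toFinite {B : Subgroup H | B ≤ A ∧ Nat.card B = p}).toFinset

theorem mem_Hyp {A B : Subgroup H} {p : ℕ} : B ∈ Hyp A p ↔ B ≤ A ∧ Nat.card B = p := by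
  simp [Hyp]

/-- `A` is elementary abelian of order `p ^ 2`. -/
structure E2 (A : Subgroup H) (p : ℕ) : Prop where
  card : Nat.card A = p ^ 2
  comm : ∀ x ∈ A, ∀ y ∈ A, x * y = y * x
  exp : ∀ x ∈ A, x ^ p = 1

variable {A : Subgroup H} {p : ℕ}

theorem zpowers_mem_Hyp (hp : p.Prime) (hE : E2 A p) {a : H} (ha : a ∈ A) (h1 : a ≠ 1) :
    zpowers a ∈ Hyp A p := by
  rw [mem_Hyp]
  refine ⟨(zpowers_le).mpr ha, ?_⟩
  rw [Nat.card_zpowers]
  haveI : Fact p.Prime := ⟨hp⟩
  exact orderOf_eq_prime (hE.exp a ha) h1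

theorem eq_zpowers_of_mem_Hyp (hp : p.Prime) {B : Subgroup H} (hB : B ∈ Hyp A p) (hE : E2 A p)
    {a : H} (haB : a ∈ B) (h1 : a ≠ 1) : B = zpowers a := by
  have hB' := mem_Hyp.mp hB
  have h2 : Nat.card (zpowers a) = p := mem_Hyp.mp (zpowers_mem_Hyp hp hE (hB'.1 haB) h1) |>.2
  symm
  apply Subgroup.eq_of_le_of_card_ge ((zpowers_le).mpr haB)
  rw [h2, hB'.2]

theorem hyp_disjoint [DecidableEq H] (hp : p.Prime) (hE : E2 A p) :
    ((Hyp A p : Finset (Subgroup H)) : Set (Subgroup H)).PairwiseDisjoint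
      (fun B => (fs B).erase 1) := by
  intro B hB B' hB' hne
  simp only [Function.onFun]
  rw [Finset.disjoint_left]
  intro c hc hc'
  rw [Finset.mem_erase, mem_fs] at hc hc'
  exact hne ((eq_zpowers_of_mem_Hyp hp hB hE hc.2 hc.1).trans
    (eq_zpowers_of_mem_Hyp hp hB' hE hc'.2 hc'.1).symm)

theorem hyp_biUnion [DecidableEq H] (hp : p.Prime) (hE : E2 A p) :
    (Hyp A p).biUnion (fun B => (fs B).erase 1) = (fs A).erase 1 := by
  ext c
  simp only [Finset.mem_biUnion, Finset.mem_erase, mem_fs]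
  constructor
  · rintro ⟨B, hB, h1, hc⟩
    exact ⟨h1, (mem_Hyp.mp hB).1 hc⟩
  · rintro ⟨h1, hc⟩
    exact ⟨zpowers c, zpowers_mem_Hyp hp hE hc h1, h1, mem_zpowers c⟩

theorem card_Hyp (hp : p.Prime) (hE : E2 A p) : (Hyp A p).card = p + 1 := by
  classical
  have h1 := Finset.card_biUnion (hyp_disjoint hp hE)
  rw [hyp_biUnion hp hE] at h1
  have h2 : ((fs A).erase 1).card = p ^ 2 - 1 := by
    rw [Finset.card_erase_of_mem (mem_fs.mpr A.one_mem), card_fs, hE.card]
  have h3 : ∀ B ∈ Hyp A p, ((fs B).erase 1).card = p - 1 := by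
    intro B hB
    rw [Finset.card_erase_of_mem (mem_fs.mpr B.one_mem), card_fs, (mem_Hyp.mp hB).2]
  rw [Finset.sum_congr rfl h3, Finset.sum_const, smul_eq_mul, h2] at h1
  have hp2 := hp.two_le
  obtain ⟨q, rfl⟩ : ∃ q, p = q + 2 := ⟨p - 2, by omega⟩
  have h4 : (q + 2) ^ 2 - 1 = (q + 3) * (q + 1) := by
    have : (q + 2) ^ 2 = (q + 3) * (q + 1) + 1 := by ring
    omega
  rw [h4] at h1
  have h5 : q + 2 - 1 = q + 1 := by omega
  rw [h5] at h1
  exact (Nat.eq_of_mul_eq_mul_right (by omega) h1).symm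

theorem prod_hyp (hp : p.Prime) (hE : E2 A p) {M : Type*} [CommMonoid M] (g : H → M) :
    ∏ B ∈ Hyp A p, ∏ c ∈ fs B, g c = g 1 ^ p * ∏ c ∈ fs A, g c := by
  classical
  have h1 : ∀ B ∈ Hyp A p, ∏ c ∈ fs B, g c = g 1 * ∏ c ∈ (fs B).erase 1, g c := by
    intro B _
    rw [Finset.mul_prod_erase _ _ (mem_fs.mpr B.one_mem)]
  rw [Finset.prod_congr rfl h1, Finset.prod_mul_distrib, Finset.prod_const, card_Hyp hp hE,
    ← Finset.prod_biUnion (hyp_disjoint hp hE), hyp_biUnion hp hE,
    ← Finset.mul_prod_erase (fs A) g (mem_fs.mpr A.one_mem), pow_succ, mul_assoc]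

/-- The product formula for two subgroups. -/
theorem card_setmul (S T : Subgroup H) :
    Nat.card (((S : Set H) * (T : Set H) : Set H)) * Nat.card (S ⊓ T : Subgroup H) =
      Nat.card S * Nat.card T := by
  classical
  haveI := Fintype.ofFinite H
  -- fibres of the multiplication map
  let f : S × T → ((S : Set H) * (T : Set H) : Set H) := fun z =>
    ⟨(z.1 : H) * (z.2 : H), Set.mul_mem_mul z.1.2 z.2.2⟩
  have hfib : ∀ w : ((S : Set H) * (T : Set H) : Set H),
      Nat.card {z : S × T // f z = w} = Nat.card (S ⊓ T : Subgroup H) := by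
    rintro ⟨w, hw⟩
    obtain ⟨s₀, hs₀, t₀, ht₀, rfl⟩ := Set.mem_mul.mp hw
    have hS : ∀ z : {z : S × T // f z = ⟨s₀ * t₀, hw⟩}, s₀⁻¹ * (z.1.1 : H) = t₀ * (z.1.2 : H)⁻¹ := by
      rintro ⟨⟨s, t⟩, hz⟩
      have h := congrArg Subtype.val hz
      simp only [f] at h
      change s₀⁻¹ * (s : H) = t₀ * (t : H)⁻¹
      rw [inv_mul_eq_iff_eq_mul, ← mul_assoc, eq_mul_inv_iff_mul_eq]
      exact h
    refine Nat.card_congr ⟨fun z => ⟨s₀⁻¹ * (z.1.1 : H), ?_, ?_⟩,
      fun u => ⟨(⟨s₀ * (u : H), ?_⟩, ⟨(u : H)⁻¹ * t₀, ?_⟩), ?_⟩, ?_, ?_⟩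
    · exact S.mul_mem (S.inv_mem hs₀) z.1.1.2
    · rw [hS z]
      exact T.mul_mem ht₀ (T.inv_mem z.1.2.2)
    · exact S.mul_mem hs₀ u.2.1
    · exact T.mul_mem (T.inv_mem u.2.2) ht₀
    · apply Subtype.ext
      simp only [f]
      group
    · rintro ⟨⟨s, t⟩, hz⟩
      apply Subtype.ext
      apply Prod.ext
      · apply Subtype.ext
        simp
      · apply Subtype.ext
        have := hS ⟨⟨s, t⟩, hz⟩
        simp only at this ⊢
        rw [this]
        group
    · rintro ⟨u, hu⟩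
      apply Subtype.ext
      simp
  have h1 : Nat.card (S × T) = ∑ w : ((S : Set H) * (T : Set H) : Set H),
      Nat.card {z : S × T // f z = w} := by
    rw [← Nat.card_sigma]
    exact Nat.card_congr (Equiv.sigmaFiberEquiv f).symm
  rw [Finset.sum_congr rfl (fun w _ => hfib w), Finset.sum_const, smul_eq_mul, Finset.card_univ,
    ← Nat.card_eq_fintype_card, Nat.card_prod] at h1
  exact h1.symm

/-- The trace lemma: if every trace of `g` over `A` and its hyperplanes vanishes, then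
`g 1 ^ p = 1`. -/
theorem trace_pow (hp : p.Prime) (hE : E2 A p) {M : Type*} [CommGroup M] (g : H → M)
    (hB : ∀ B ∈ Hyp A p, ∏ c ∈ fs B, g c = 1) (hA : ∏ c ∈ fs A, g c = 1) : g 1 ^ p = 1 := by
  have h := prod_hyp hp hE g
  rw [hA, mul_one, Finset.prod_eq_one hB] at h
  exact h.symm

theorem le_centralizer_of_le (hE : E2 A p) {U : Subgroup H} (hU : U ≤ A) :
    A ≤ centralizer (U : Set H) := by
  intro a ha
  rw [Subgroup.mem_centralizer_iff]
  intro u hu
  exact hE.comm _ (hU hu) _ ha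

theorem le_normalizer_inf_centralizer (hE : E2 A p) {Q U : Subgroup H}
    (hQ : A ≤ normalizer (Q : Set H)) (hU : U ≤ A) :
    A ≤ normalizer ((Q ⊓ centralizer (U : Set H) : Subgroup H) : Set H) := by
  intro a ha
  rw [Subgroup.mem_normalizer_iff]
  intro x
  have h1 := (Subgroup.mem_normalizer_iff.mp (hQ ha) x)
  have h2 : a ∈ centralizer (U : Set H) := le_centralizer_of_le hE hU ha
  have h3 : a * x * a⁻¹ ∈ centralizer (U : Set H) ↔ x ∈ centralizer (U : Set H) := by
    have hn := Subgroup.le_normalizer (H := centralizer (U : Set H)) h2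
    exact ((Subgroup.mem_normalizer_iff.mp hn) x).symm
  rw [Subgroup.mem_inf, Subgroup.mem_inf, ← h1, h3]

theorem coprime_card_of_le (hE : E2 A p) {U Q : Subgroup H} (hU : U ≤ A)
    (hc : p.Coprime (Nat.card Q)) : (Nat.card U).Coprime (Nat.card Q) := by
  have h1 : Nat.card U ∣ p ^ 2 := hE.card ▸ Subgroup.card_dvd_of_le hU
  exact Nat.Coprime.coprime_dvd_left h1 (hc.pow_left 2)

theorem isSolvable_of_E2 (hE : E2 A p) {U : Subgroup H} (hU : U ≤ A) : Group.IsSolvable U := by
  letI : CommGroup U := { (inferInstance : Group U) with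
    mul_comm := fun x y => Subtype.ext (hE.comm _ (hU x.2) _ (hU y.2)) }
  infer_instance

/-- Trace of a fixed element in a commutative quotient. -/
theorem trace_eq_one (hE : E2 A p) {Q N : Subgroup H}
    (hQ : A ≤ normalizer (Q : Set H)) (hc : p.Coprime (Nat.card Q))
    (hN : N ≤ Q) (hNQ : Q ≤ normalizer (N : Set H)) (hNA : A ≤ normalizer (N : Set H))
    {M : Type*} [CommGroup M] (π : ↥Q →* M) (hπ : Function.Surjective π)
    (hker : ∀ y : ↥Q, π y = 1 ↔ (y : H) ∈ N) (x : ↥Q)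
    (g : H → M) (hg : ∀ (c : H) (hc : c ∈ A),
      g c = π ⟨c * x * c⁻¹, (Subgroup.mem_normalizer_iff.mp (hQ hc) x).mp x.2⟩)
    {U : Subgroup H} (hU : U ≤ A) (hfix : Q ⊓ centralizer (U : Set H) ≤ N) :
    ∏ c ∈ fs U, g c = 1 := by
  obtain ⟨y, hy⟩ := hπ (∏ c ∈ fs U, g c)
  rw [← hy, hker]
  -- the conjugation action on `M`
  have hfixd : ∀ d ∈ U, d * (y : H) * d⁻¹ * (y : H)⁻¹ ∈ N := by
    intro d hd
    have hdA := hU hd
    let conj_d : ↥Q →* ↥Q :=
      { toFun := fun z => ⟨d * z * d⁻¹, (Subgroup.mem_normalizer_iff.mp (hQ hdA) z).mp z.2⟩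
        map_one' := by apply Subtype.ext; simp
        map_mul' := by
          intro a b; apply Subtype.ext
          change d * ((a : H) * (b : H)) * d⁻¹ = (d * (a : H) * d⁻¹) * (d * (b : H) * d⁻¹)
          group }
    have hkerle : π.ker ≤ (π.comp conj_d).ker := by
      intro z hz
      rw [MonoidHom.mem_ker] at hz ⊢
      rw [MonoidHom.comp_apply, hker]
      exact (Subgroup.mem_normalizer_iff.mp (hNA hdA) z).mp ((hker z).mp hz)
    let al : M →* M := MonoidHom.liftOfSurjective π hπ ⟨π.comp conj_d, hkerle⟩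
    have hal : ∀ z : ↥Q, al (π z) = π (conj_d z) := fun z =>
      MonoidHom.liftOfRightInverse_comp_apply π (Function.surjInv hπ)
        (Function.rightInverse_surjInv hπ) ⟨π.comp conj_d, hkerle⟩ z
    have h1 : ∀ c ∈ fs U, al (g c) = g (d * c) := by
      intro c hc'
      have hcA := hU (mem_fs.mp hc')
      rw [hg c hcA, hal, hg (d * c) (A.mul_mem hdA hcA)]
      congr 1
      apply Subtype.ext
      simp only [conj_d, MonoidHom.coe_mk, OneHom.coe_mk]
      group
    have h2 : ∏ c ∈ fs U, g (d * c) = ∏ c ∈ fs U, g c := by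
      refine Finset.prod_nbij' (fun c => d * c) (fun c => d⁻¹ * c) ?_ ?_ ?_ ?_ ?_
      · intro c hc'; exact mem_fs.mpr (U.mul_mem hd (mem_fs.mp hc'))
      · intro c hc'; exact mem_fs.mpr (U.mul_mem (U.inv_mem hd) (mem_fs.mp hc'))
      · intro c _; simp
      · intro c _; simp
      · intro c _; rfl
    have h3 : π (conj_d y) = π y := by
      rw [← hal, hy, map_prod, Finset.prod_congr rfl h1, h2]
    have h4 : π (conj_d y * y⁻¹) = 1 := by
      rw [map_mul, map_inv, h3, mul_inv_cancel]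
    have h5 := (hker _).mp h4
    simpa [conj_d] using h5
  have hcopU := coprime_card_of_le hE hU hc
  obtain ⟨c, hc', hyc⟩ := Cfsg.Agent.Lib.Basic.coprime_fixed_coset
    (fun a ha => hQ (hU ha)) hcopU (Or.inl (isSolvable_of_E2 hE hU)) N hN hNQ
    (fun a ha => hNA (hU ha)) (y : H) y.2 hfixd
  have h6 : c ∈ N := hfix hc'
  have h7 : (y : H) = c * ((y : H)⁻¹ * c)⁻¹ := by group
  rw [h7]
  exact N.mul_mem h6 (N.inv_mem hyc)

/-- The Brauer--Wielandt predicate. -/
def BWF (A Q : Subgroup H) (p : ℕ) : Prop :=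
  Nat.card Q * Nat.card (Q ⊓ centralizer (A : Set H) : Subgroup H) ^ p =
    ∏ B ∈ Hyp A p, Nat.card (Q ⊓ centralizer (B : Set H) : Subgroup H)

/-- Two counting alternatives. -/
theorem card_of_sup_eq {Q N C : Subgroup H} {m : ℕ} (hm : Nat.card Q = m * Nat.card N)
    (hN0 : 0 < Nat.card N) (hN : N ≤ Q) (hNQ : Q ≤ normalizer (N : Set H))
    {V : Subgroup H} (hC : C = Q ⊓ V)
    (hs : C ⊔ N = Q) : Nat.card C = m * Nat.card (N ⊓ V : Subgroup H) := by
  have hCQ : C ≤ normalizer (N : Set H) := by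
    rw [hC]; exact inf_le_left.trans hNQ
  have h1 := card_setmul C N
  rw [← Subgroup.coe_mul_of_left_le_normalizer_right C N hCQ, hs] at h1
  have h2 : C ⊓ N = N ⊓ V := by
    rw [hC, inf_assoc, inf_comm V N, ← inf_assoc, inf_eq_right.mpr hN]
  rw [h2] at h1
  have h3 : Nat.card ((Q : Set H)) = Nat.card Q := rfl
  rw [h3, hm] at h1
  have h4 : Nat.card N * (m * Nat.card (N ⊓ V : Subgroup H)) = Nat.card N * Nat.card C := by
    rw [mul_comm (Nat.card C)] at h1
    rw [← h1]; ring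
  exact (Nat.eq_of_mul_eq_mul_left hN0 h4).symm

theorem card_of_le {Q N C V : Subgroup H} (hN : N ≤ Q)
    (hC : C = Q ⊓ V) (hs : C ≤ N) : Nat.card C = Nat.card (N ⊓ V : Subgroup H) := by
  have : C = N ⊓ V := by
    apply le_antisymm
    · exact le_inf hs (hC ▸ inf_le_right)
    · rw [hC]; exact inf_le_inf_right _ hN
  rw [← this]

/-- Two distinct hyperplanes multiply to `A`. -/
theorem mul_eq_of_ne (hp : p.Prime) (hE : E2 A p) {B B' : Subgroup H} (hB : B ∈ Hyp A p)
    (hB' : B' ∈ Hyp A p) (hne : B ≠ B') {a : H} (ha : a ∈ A) :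
    ∃ b ∈ B, ∃ b' ∈ B', a = b * b' := by
  have h1 := card_setmul B B'
  have hbot : B ⊓ B' = ⊥ := by
    rw [eq_bot_iff]
    intro c hc
    by_contra hne1
    exact hne ((eq_zpowers_of_mem_Hyp hp hB hE hc.1 hne1).trans
      (eq_zpowers_of_mem_Hyp hp hB' hE hc.2 hne1).symm)
  rw [hbot, (mem_Hyp.mp hB).2, (mem_Hyp.mp hB').2, Subgroup.card_bot, mul_one] at h1
  have hsub : ((B : Set H) * (B' : Set H)) ⊆ (A : Set H) := by
    rintro _ ⟨b, hb, b', hb', rfl⟩
    exact A.mul_mem ((mem_Hyp.mp hB).1 hb) ((mem_Hyp.mp hB').1 hb')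
  have hle : (A : Set H).ncard ≤ ((B : Set H) * (B' : Set H)).ncard := by
    rw [← Nat.card_coe_set_eq, ← Nat.card_coe_set_eq, h1]
    change Nat.card A ≤ _
    rw [hE.card]; exact le_of_eq (by ring)
  have heq := Set.eq_of_subset_of_ncard_le hsub hle (Set.toFinite _)
  have ha' : a ∈ ((B : Set H) * (B' : Set H)) := by rw [heq]; exact ha
  obtain ⟨b, hb, b', hb', rfl⟩ := Set.mem_mul.mp ha'
  exact ⟨b, hb, b', hb', rfl⟩

omit [Finite H] in
/-- A commutative quotient. -/
theorem exists_comm_quotient {Q N : Subgroup H} (hDN : ⁅Q, Q⁆ ≤ N) (hNQ : Q ≤ normalizer (N : Set H)) (hN : N ≤ Q) :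
    ∃ (M : Type u) (_ : CommGroup M) (π : ↥Q →* M), Function.Surjective π ∧
      ∀ y : ↥Q, π y = 1 ↔ (y : H) ∈ N := by
  haveI hnorm : (N.subgroupOf Q).Normal := (Subgroup.normal_subgroupOf_iff_le_normalizer hN).mpr hNQ
  letI inst : CommGroup (↥Q ⧸ N.subgroupOf Q) :=
    { (inferInstance : Group (↥Q ⧸ N.subgroupOf Q)) with
      mul_comm := by
        intro a b
        induction a using QuotientGroup.induction_on with
        | H a =>
        induction b using QuotientGroup.induction_on with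
        | H b =>
        rw [← QuotientGroup.mk_mul, ← QuotientGroup.mk_mul, QuotientGroup.eq, Subgroup.mem_subgroupOf]
        have h1 : ((a * b)⁻¹ * (b * a) : ↥Q) = (⁅(b : ↥Q)⁻¹, (a : ↥Q)⁻¹⁆ : ↥Q) := by
          rw [commutatorElement_def]; group
        rw [h1]
        apply hDN
        have := Subgroup.commutator_mem_commutator (H₁ := Q) (H₂ := Q) (g₁ := ((b : H))⁻¹) (g₂ := ((a : H))⁻¹) (Q.inv_mem b.2) (Q.inv_mem a.2)
        exact this }
  refine ⟨↥Q ⧸ N.subgroupOf Q, inst, QuotientGroup.mk' _, QuotientGroup.mk'_surjective _, ?_⟩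
  intro y
  change ((y : ↥Q ⧸ N.subgroupOf Q) = 1) ↔ _
  rw [QuotientGroup.eq_one_iff, Subgroup.mem_subgroupOf]

theorem bwf_solv (hp : p.Prime) (hE : E2 A p) : ∀ (n : ℕ) (Q : Subgroup H), Nat.card Q = n →
    A ≤ normalizer (Q : Set H) → p.Coprime (Nat.card Q) → Group.IsSolvable Q → BWF A Q p := by
  intro n
  induction n using Nat.strong_induction_on with
  | _ n IH =>
  intro Q hn hQ hc hsol
  by_cases hbot : Q = ⊥
  · subst hbot
    simp [BWF]
  haveI : Nontrivial Q := (Subgroup.nontrivial_iff_ne_bot Q).mpr hbot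
  have hDQ : ⁅Q, Q⁆ ≤ Q := Subgroup.commutator_le_self Q
  have hDne : ⁅Q, Q⁆ ≠ Q := by
    intro h
    have h1 := Group.IsSolvable.commutator_lt_top_of_nontrivial (G := Q)
    apply h1.ne
    have h2 := Subgroup.map_subtype_commutator Q
    rw [h] at h2
    apply Subgroup.map_injective Q.subtype_injective
    rw [h2, ← MonoidHom.range_eq_map, Subgroup.range_subtype]
  have hDA : A ≤ normalizer ((⁅Q, Q⁆ : Subgroup H) : Set H) := by
    intro a ha
    rw [Subgroup.mem_normalizer_iff_map_conj_eq, Subgroup.map_commutator,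
      Subgroup.mem_normalizer_iff_map_conj_eq.mp (hQ ha)]
  obtain ⟨N, ⟨hDN, hNQ, hNne, hNA⟩, hmax⟩ := (Set.toFinite {N : Subgroup H | ⁅Q, Q⁆ ≤ N ∧ N ≤ Q ∧
    N ≠ Q ∧ A ≤ normalizer (N : Set H)}).exists_maximal ⟨_, le_rfl, hDQ, hDne, hDA⟩
  have hQN : Q ≤ normalizer (N : Set H) := by
    have key : ∀ x ∈ Q, ∀ n ∈ N, x * n * x⁻¹ ∈ N := by
      intro x hx n' hn'
      have h1 : x * n' * x⁻¹ = ⁅x, n'⁆ * n' := by
        rw [commutatorElement_def]; group
      rw [h1]
      exact N.mul_mem (hDN (Subgroup.commutator_mem_commutator hx (hNQ hn'))) hn'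
    intro x hx
    rw [Subgroup.mem_normalizer_iff]
    intro n'
    refine ⟨key x hx n', fun h => ?_⟩
    have h2 := key x⁻¹ (Q.inv_mem hx) _ h
    have h3 : x⁻¹ * (x * n' * x⁻¹) * x⁻¹⁻¹ = n' := by group
    rwa [h3] at h2
  obtain ⟨m, hm⟩ : ∃ m, Nat.card Q = m * Nat.card N := by
    obtain ⟨m, hm⟩ := Subgroup.card_dvd_of_le hNQ
    exact ⟨m, by rw [hm]; ring⟩
  have hNpos : 0 < Nat.card N := Nat.card_pos
  have hQpos : 0 < Nat.card Q := Nat.card_pos
  have hNlt : Nat.card N < Nat.card Q := by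
    refine lt_of_le_of_ne (Nat.le_of_dvd hQpos (Subgroup.card_dvd_of_le hNQ)) ?_
    intro h
    exact hNne (Subgroup.eq_of_le_of_card_ge hNQ h.ge)
  have hcN : p.Coprime (Nat.card N) := Nat.Coprime.coprime_dvd_right (Subgroup.card_dvd_of_le hNQ) hc
  have hsolN : Group.IsSolvable N :=
    solvable_of_solvable_injective (Subgroup.inclusion_injective hNQ)
  have IHN : BWF A N p := IH _ (hn ▸ hNlt) N rfl hNA hcN hsolN
  have dich : ∀ U : Subgroup H, U ≤ A → Q ⊓ centralizer (U : Set H) ≤ N ∨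
      (Q ⊓ centralizer (U : Set H) : Subgroup H) ⊔ N = Q := by
    intro U hU
    by_cases hs : (Q ⊓ centralizer (U : Set H) : Subgroup H) ⊔ N = Q
    · exact Or.inr hs
    left
    have hmem : (Q ⊓ centralizer (U : Set H) : Subgroup H) ⊔ N ∈ {N : Subgroup H | ⁅Q, Q⁆ ≤ N ∧ N ≤ Q ∧
        N ≠ Q ∧ A ≤ normalizer (N : Set H)} :=
      ⟨hDN.trans le_sup_right, sup_le inf_le_left hNQ, hs,
        Cfsg.Agent.Lib.Basic.le_normalizer_sup (le_normalizer_inf_centralizer hE hQ hU) hNA⟩
    have h1 := hmax hmem le_sup_right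
    exact le_sup_left.trans h1
  have hCU : ∀ U : Subgroup H, U ≤ A → Q ⊓ centralizer (U : Set H) ≤ N →
      Nat.card (Q ⊓ centralizer (U : Set H) : Subgroup H) =
        Nat.card (N ⊓ centralizer (U : Set H) : Subgroup H) := fun U _ h => card_of_le hNQ rfl h
  have hCU' : ∀ U : Subgroup H, U ≤ A → (Q ⊓ centralizer (U : Set H) : Subgroup H) ⊔ N = Q →
      Nat.card (Q ⊓ centralizer (U : Set H) : Subgroup H) =
        m * Nat.card (N ⊓ centralizer (U : Set H) : Subgroup H) :=
    fun U _ h => card_of_sup_eq hm hNpos hNQ hQN rfl h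
  have IHN' := IHN
  unfold BWF at IHN'
  unfold BWF
  rcases dich A le_rfl with hA | hA
  · -- `A` acts without fixed points on `Q/N`
    -- there is a unique hyperplane acting trivially on `Q/N`
    have hex : ∃ B₀ ∈ Hyp A p, (Q ⊓ centralizer (B₀ : Set H) : Subgroup H) ⊔ N = Q := by
      by_contra hno
      push Not at hno
      have hle : ∀ B ∈ Hyp A p, Q ⊓ centralizer (B : Set H) ≤ N := by
        intro B hB
        rcases dich B (mem_Hyp.mp hB).1 with h | h
        · exact h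
        · exact absurd h (hno B hB)
      -- all traces vanish
      obtain ⟨M, instM, π, hπ, hker⟩ := exists_comm_quotient hDN hQN hNQ
      have hall : ∀ x : ↥Q, (x : H) ∈ N := by
        intro x
        classical
        let g : H → M := fun c => if hc' : c ∈ A then
          π ⟨c * x * c⁻¹, (Subgroup.mem_normalizer_iff.mp (hQ hc') x).mp x.2⟩ else 1
        have hg : ∀ (c : H) (hc' : c ∈ A),
            g c = π ⟨c * x * c⁻¹, (Subgroup.mem_normalizer_iff.mp (hQ hc') x).mp x.2⟩ := by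
          intro c hc'
          simp only [g, dif_pos hc']
        have h1 := trace_pow hp hE g
          (fun B hB => trace_eq_one hE hQ hc hNQ hQN hNA π hπ hker x g hg (mem_Hyp.mp hB).1 (hle B hB))
          (trace_eq_one hE hQ hc hNQ hQN hNA π hπ hker x g hg le_rfl hA)
        rw [hg 1 A.one_mem] at h1
        have h2 : (⟨1 * (x : H) * 1⁻¹, (Subgroup.mem_normalizer_iff.mp (hQ A.one_mem) x).mp x.2⟩ : ↥Q) = x :=
          Subtype.ext (by simp)
        rw [h2] at h1
        have h3 : π x ^ Nat.card Q = 1 := by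
          rw [← map_pow, pow_card_eq_one', map_one]
        have h4 : π x = 1 := by
          have h5 := orderOf_dvd_of_pow_eq_one h1
          have h6 := orderOf_dvd_of_pow_eq_one h3
          have h7 := Nat.Coprime.eq_one_of_dvd (Nat.Coprime.coprime_dvd_left h5 hc) h6
          exact orderOf_eq_one_iff.mp h7
        exact (hker x).mp h4
      exact hNne (le_antisymm hNQ (fun y hy => hall ⟨y, hy⟩))
    obtain ⟨B₀, hB₀, hB₀s⟩ := hex
    have hother : ∀ B ∈ Hyp A p, B ≠ B₀ → Q ⊓ centralizer (B : Set H) ≤ N := by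
      intro B hB hne
      rcases dich B (mem_Hyp.mp hB).1 with h | h
      · exact h
      exfalso
      -- every element of `Q` is fixed modulo `N` by both hyperplanes
      have hfixU : ∀ (U : Subgroup H), U ≤ A → (Q ⊓ centralizer (U : Set H) : Subgroup H) ⊔ N = Q →
          ∀ x ∈ Q, ∀ u ∈ U, u * x * u⁻¹ * x⁻¹ ∈ N := by
        intro U hU hs x hx u hu
        have hCQ : (Q ⊓ centralizer (U : Set H) : Subgroup H) ≤ normalizer (N : Set H) :=
          inf_le_left.trans hQN
        have hx' : x ∈ ((Q ⊓ centralizer (U : Set H) : Subgroup H) ⊔ N : Subgroup H) := by rw [hs]; exact hx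
        have hx'' : x ∈ ((Q ⊓ centralizer (U : Set H) : Subgroup H) : Set H) * (N : Set H) := by
          rw [← Subgroup.coe_mul_of_left_le_normalizer_right _ _ hCQ]
          exact hx'
        obtain ⟨c, hc', n', hn', rfl⟩ := Set.mem_mul.mp hx''
        have hcu : u * c = c * u := by
          have := (Subgroup.mem_centralizer_iff.mp hc'.2) u hu
          exact this
        have h1 : u * (c * n') * u⁻¹ * (c * n')⁻¹ = c * (u * n' * u⁻¹ * n'⁻¹) * c⁻¹ := by
          have : u * (c * n') = c * u * n' := by rw [← mul_assoc, hcu]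
          rw [this]; group
        rw [h1]
        have h2 : u * n' * u⁻¹ ∈ N := (Subgroup.mem_normalizer_iff.mp (hNA (hU hu)) n').mp hn'
        exact (Subgroup.mem_normalizer_iff.mp (hCQ hc') _).mp (N.mul_mem h2 (N.inv_mem hn'))
      have hfixA : ∀ x ∈ Q, ∀ a ∈ A, a * x * a⁻¹ * x⁻¹ ∈ N := by
        intro x hx a ha
        obtain ⟨b, hb, b', hb', rfl⟩ := mul_eq_of_ne hp hE hB hB₀ hne ha
        have h1 := hfixU B (mem_Hyp.mp hB).1 h x hx b hb
        have h2 := hfixU B₀ (mem_Hyp.mp hB₀).1 hB₀s x hx b' hb'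
        have h3 : b * b' * x * (b * b')⁻¹ * x⁻¹ =
            (b * (b' * x * b'⁻¹ * x⁻¹) * b⁻¹) * (b * x * b⁻¹ * x⁻¹) := by group
        rw [h3]
        exact N.mul_mem ((Subgroup.mem_normalizer_iff.mp (hNA ((mem_Hyp.mp hB).1 hb)) _).mp h2) h1
      have hall : Q ≤ N := by
        intro x hx
        obtain ⟨c, hc', hxc⟩ := Cfsg.Agent.Lib.Basic.coprime_fixed_coset hQ
          (coprime_card_of_le hE le_rfl hc) (Or.inl (isSolvable_of_E2 hE le_rfl)) N hNQ hQN hNA x hx
          (hfixA x hx)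
        have h6 : c ∈ N := hA hc'
        have h7 : x = c * (x⁻¹ * c)⁻¹ := by group
        rw [h7]
        exact N.mul_mem h6 (N.inv_mem hxc)
      exact hNne (le_antisymm hNQ hall)
    classical
    rw [hCU A le_rfl hA, hm, mul_assoc, IHN',
      ← Finset.mul_prod_erase (Hyp A p) _ hB₀, ← Finset.mul_prod_erase (Hyp A p) _ hB₀,
      hCU' B₀ (mem_Hyp.mp hB₀).1 hB₀s, mul_assoc]
    congr 2
    apply Finset.prod_congr rfl
    intro B hB
    rw [Finset.mem_erase] at hB
    exact (hCU B (mem_Hyp.mp hB.2).1 (hother B hB.2 hB.1)).symm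
  · -- `A` acts trivially on `Q/N`
    have hall : ∀ B ∈ Hyp A p, Nat.card (Q ⊓ centralizer (B : Set H) : Subgroup H) =
        m * Nat.card (N ⊓ centralizer (B : Set H) : Subgroup H) := by
      intro B hB
      apply hCU' B (mem_Hyp.mp hB).1
      apply le_antisymm (sup_le inf_le_left hNQ)
      calc Q = (Q ⊓ centralizer (A : Set H) : Subgroup H) ⊔ N := hA.symm
        _ ≤ _ := sup_le_sup_right (inf_le_inf_left _ (Subgroup.centralizer_le (SetLike.coe_subset_coe.mpr (mem_Hyp.mp hB).1))) _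
    rw [Finset.prod_congr rfl hall, Finset.prod_mul_distrib, Finset.prod_const, card_Hyp hp hE,
      ← IHN', hCU' A le_rfl hA, hm]
    ring

/-- The centraliser of `U ≤ A` in an invariant Sylow subgroup is Sylow in the centraliser. -/
theorem sylow_card_cent (hE : E2 A p) {K U : Subgroup H}
    (hK : A ≤ normalizer (K : Set H)) (hc : p.Coprime (Nat.card K)) (hU : U ≤ A) (q : ℕ)
    [hq : Fact q.Prime] (P : Sylow q K)
    (hP : A ≤ normalizer (((P : Subgroup K).map K.subtype : Subgroup H) : Set H)) :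
    Nat.card (((P : Subgroup K).map K.subtype : Subgroup H) ⊓ centralizer (U : Set H) : Subgroup H) =
      q ^ (Nat.card (K ⊓ centralizer (U : Set H) : Subgroup H)).factorization q := by
  have hcK : (Nat.card A).Coprime (Nat.card K) := coprime_card_of_le hE le_rfl hc
  have hsolA := isSolvable_of_E2 hE (U := A) le_rfl
  obtain ⟨D, hD⟩ : ∃ D : Subgroup H, D = K ⊓ centralizer (U : Set H) := ⟨_, rfl⟩
  rw [← hD]
  have hDK : D ≤ K := hD ▸ inf_le_left
  have hDA : A ≤ normalizer (D : Set H) := hD ▸ le_normalizer_inf_centralizer hE hK hU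
  have hcD : (Nat.card A).Coprime (Nat.card D) :=
    Nat.Coprime.coprime_dvd_right (Subgroup.card_dvd_of_le hDK) hcK
  obtain ⟨S, hS⟩ := Cfsg.Agent.Lib.Basic.exists_invariant_sylow hDA hcD (Or.inl hsolA) q
  obtain ⟨St, hSt⟩ : ∃ St : Subgroup H, St = (S : Subgroup D).map D.subtype := ⟨_, rfl⟩
  rw [← hSt] at hS
  have hStD : St ≤ D := by
    rw [hSt]; exact Subgroup.map_subtype_le _
  have hStp : IsPGroup q St := by
    rw [hSt]; exact S.isPGroup'.map _
  obtain ⟨R, hSR, hRA⟩ := Cfsg.Agent.Lib.Basic.exists_invariant_sylow_ge hK hcK (Or.inl hsolA) q St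
    (hStD.trans hDK) hStp hS
  obtain ⟨c, hcC, hcRP⟩ := Cfsg.Agent.Lib.Basic.invariant_sylow_conj hK hcK (Or.inl hsolA) q R P hRA hP
  obtain ⟨Rt, hRt⟩ : ∃ Rt : Subgroup H, Rt = (R : Subgroup K).map K.subtype := ⟨_, rfl⟩
  rw [← hRt] at hSR hRA
  have hRtp : IsPGroup q Rt := by
    rw [hRt]; exact R.isPGroup'.map _
  have hRtK : Rt ≤ K := by
    rw [hRt]; exact Subgroup.map_subtype_le _
  -- `St = Rt ⊓ centralizer U`
  have hStEq : Rt ⊓ centralizer (U : Set H) = St := by
    obtain ⟨T, hT⟩ : ∃ T : Subgroup H, T = Rt ⊓ centralizer (U : Set H) := ⟨_, rfl⟩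
    rw [← hT]
    have hST : St ≤ T := by
      rw [hT]; exact le_inf hSR (hStD.trans (hD ▸ inf_le_right))
    have hTD : T ≤ D := by
      rw [hT, hD]; exact inf_le_inf_right _ hRtK
    have hTp : IsPGroup q T := hRtp.to_le (hT ▸ inf_le_left)
    have hTp' : IsPGroup q (T.subgroupOf D) := hTp.comap_subtype
    have hle : (S : Subgroup D) ≤ T.subgroupOf D := by
      intro x hx
      rw [Subgroup.mem_subgroupOf]
      apply hST
      rw [hSt]
      exact Subgroup.mem_map_of_mem _ hx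
    have h1 := S.is_maximal' hTp' hle
    have h2 := Subgroup.map_subgroupOf_eq_of_le hTD
    rw [← h2, h1, hSt]
  have hcardSt : Nat.card St = q ^ (Nat.card D).factorization q := by
    rw [hSt, Subgroup.card_map_of_injective D.subtype_injective]
    exact S.card_eq_multiplicity
  rw [← hcardSt, ← hStEq]
  -- conjugation by `c`
  have hcU : (c : H) ∈ centralizer (U : Set H) :=
    Subgroup.centralizer_le (SetLike.coe_subset_coe.mpr hU) hcC
  have hconj : ((P : Subgroup K).map K.subtype : Subgroup H) ⊓ centralizer (U : Set H) =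
      (Rt ⊓ centralizer (U : Set H)).map (MulAut.conj (c : H)).toMonoidHom := by
    have hP' : ∀ y, y ∈ ((P : Subgroup K).map K.subtype : Subgroup H) ↔ (c : H)⁻¹ * y * c ∈ Rt := by
      intro y
      rw [hRt]
      subst hcRP
      constructor
      · rintro ⟨z, hz, rfl⟩
        have hz' : z ∈ MulAut.conj c • (R : Subgroup K) := hz
        obtain ⟨r, hr, rfl⟩ := (Subgroup.mem_smul_pointwise_iff_exists _ _ _).mp hz'
        refine ⟨r, hr, ?_⟩
        simp [MulAut.smul_def, MulAut.conj_apply]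
        group
      · rintro ⟨r, hr, hry⟩
        refine ⟨MulAut.conj c • r, ?_, ?_⟩
        · have : MulAut.conj c • r ∈ MulAut.conj c • (R : Subgroup K) := Subgroup.smul_mem_pointwise_smul _ _ _ hr
          exact this
        · simp only [MulAut.smul_def, MulAut.conj_apply, Subgroup.coe_subtype, Subgroup.coe_mul, InvMemClass.coe_inv]
          change (r : H) = _ at hry
          rw [hry]; group
    have hc1 : ∀ y, y ∈ centralizer (U : Set H) ↔ (c : H)⁻¹ * y * c ∈ centralizer (U : Set H) := by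
      intro y
      have hn := Subgroup.le_normalizer (H := centralizer (U : Set H)) ((centralizer (U : Set H)).inv_mem hcU)
      have := (Subgroup.mem_normalizer_iff.mp hn y)
      simpa using this
    ext y
    rw [Subgroup.mem_inf, hP', hc1]
    constructor
    · rintro ⟨h1, h2⟩
      exact ⟨(c : H)⁻¹ * y * c, ⟨h1, h2⟩, by simp [MulAut.conj_apply]; group⟩
    · rintro ⟨r, ⟨h1, h2⟩, rfl⟩
      have : (c : H)⁻¹ * ((MulAut.conj (c : H)).toMonoidHom r) * c = r := by
        simp [MulAut.conj_apply]; group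
      rw [this]
      exact ⟨h1, h2⟩
  rw [hconj, Subgroup.card_map_of_injective (MulAut.conj (c : H)).injective]

/-- **The Brauer--Wielandt formula.** -/
theorem bwf (hp : p.Prime) (hE : E2 A p) {K : Subgroup H} (hK : A ≤ normalizer (K : Set H))
    (hc : p.Coprime (Nat.card K)) : BWF A K p := by
  unfold BWF
  have hne1 : Nat.card K * Nat.card (K ⊓ centralizer (A : Set H) : Subgroup H) ^ p ≠ 0 :=
    mul_ne_zero Nat.card_pos.ne' (pow_ne_zero _ Nat.card_pos.ne')
  have hne2 : ∏ B ∈ Hyp A p, Nat.card (K ⊓ centralizer (B : Set H) : Subgroup H) ≠ 0 :=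
    Finset.prod_ne_zero_iff.mpr (fun _ _ => Nat.card_pos.ne')
  apply Nat.eq_of_factorization_eq hne1 hne2
  intro q
  by_cases hq : q.Prime
  swap
  · rw [Nat.factorization_eq_zero_of_not_prime _ hq, Nat.factorization_eq_zero_of_not_prime _ hq]
  haveI : Fact q.Prime := ⟨hq⟩
  have hcK : (Nat.card A).Coprime (Nat.card K) := coprime_card_of_le hE le_rfl hc
  obtain ⟨P, hP⟩ := Cfsg.Agent.Lib.Basic.exists_invariant_sylow hK hcK
    (Or.inl (isSolvable_of_E2 hE (U := A) le_rfl)) q
  obtain ⟨Pt, hPt⟩ : ∃ Pt : Subgroup H, Pt = (P : Subgroup K).map K.subtype := ⟨_, rfl⟩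
  have hPtp : IsPGroup q Pt := by
    rw [hPt]; exact P.isPGroup'.map _
  have hcardPt : Nat.card Pt = q ^ (Nat.card K).factorization q := by
    rw [hPt, Subgroup.card_map_of_injective K.subtype_injective]
    exact P.card_eq_multiplicity
  have hPtK : Pt ≤ K := by
    rw [hPt]; exact Subgroup.map_subtype_le _
  have hsol : Group.IsSolvable Pt := by
    haveI : Group.IsNilpotent Pt := hPtp.isNilpotent
    infer_instance
  have h1 : BWF A Pt p := bwf_solv hp hE _ Pt rfl (hPt ▸ hP)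
    (Nat.Coprime.coprime_dvd_right (Subgroup.card_dvd_of_le hPtK) hc) hsol
  unfold BWF at h1
  rw [hcardPt, hPt, sylow_card_cent hE hK hc le_rfl q P hP,
    Finset.prod_congr rfl (fun B hB => sylow_card_cent hE hK hc (mem_Hyp.mp hB).1 q P hP),
    ← pow_mul, ← pow_add, Finset.prod_pow_eq_pow_sum] at h1
  have h2 := Nat.pow_right_injective hq.two_le h1
  rw [Nat.factorization_mul Nat.card_pos.ne' (pow_ne_zero _ Nat.card_pos.ne'),
    Nat.factorization_pow, Nat.factorization_prod (fun _ _ => Nat.card_pos.ne')]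
  simp only [Finsupp.add_apply, Finsupp.smul_apply, Finsupp.coe_finset_sum, Finset.sum_apply, smul_eq_mul]
  rw [← h2]
  ring

/-- A factorisation theorem. -/
theorem factor_of_centralizers (hp : p.Prime) (hE : E2 A p) {K X Y : Subgroup H}
    (hK : A ≤ normalizer (K : Set H)) (hc : p.Coprime (Nat.card K)) (hX : X ≤ K) (hY : Y ≤ K)
    (hAX : A ≤ normalizer (X : Set H)) (hAY : A ≤ normalizer (Y : Set H))
    (hfac : ∀ a ∈ A, a ≠ 1 → ((K ⊓ centralizer {a} : Subgroup H) : Set H) =
      ((X ⊓ centralizer {a} : Subgroup H) : Set H) * ((Y ⊓ centralizer {a} : Subgroup H) : Set H)) :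
    (K : Set H) = (X : Set H) * (Y : Set H) := by
  have hcX : p.Coprime (Nat.card X) := Nat.Coprime.coprime_dvd_right (Subgroup.card_dvd_of_le hX) hc
  have hcY : p.Coprime (Nat.card Y) := Nat.Coprime.coprime_dvd_right (Subgroup.card_dvd_of_le hY) hc
  have hcXY : p.Coprime (Nat.card (X ⊓ Y : Subgroup H)) :=
    Nat.Coprime.coprime_dvd_right (Subgroup.card_dvd_of_le inf_le_left) hcX
  have hAXY : A ≤ normalizer ((X ⊓ Y : Subgroup H) : Set H) :=
    Cfsg.Agent.Lib.Basic.le_normalizer_inf hAX hAY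
  have bK := bwf hp hE hK hc
  have bX := bwf hp hE hAX hcX
  have bY := bwf hp hE hAY hcY
  have bXY := bwf hp hE hAXY hcXY
  unfold BWF at bK bX bY bXY
  have hcentU : ∀ a : H, centralizer ((zpowers a : Subgroup H) : Set H) = centralizer {a} := by
    intro a
    rw [Subgroup.zpowers_eq_closure, Subgroup.centralizer_closure]
  have hinf : ∀ V : Subgroup H, (X ⊓ V) ⊓ (Y ⊓ V) = (X ⊓ Y) ⊓ V := by
    intro V
    exact (inf_inf_distrib_right X Y V).symm
  have hB : ∀ B ∈ Hyp A p, Nat.card (K ⊓ centralizer (B : Set H) : Subgroup H) *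
      Nat.card ((X ⊓ Y) ⊓ centralizer (B : Set H) : Subgroup H) =
      Nat.card (X ⊓ centralizer (B : Set H) : Subgroup H) * Nat.card (Y ⊓ centralizer (B : Set H) : Subgroup H) := by
    intro B hB
    have hBc := mem_Hyp.mp hB
    obtain ⟨a, haB, ha1⟩ : ∃ a ∈ B, a ≠ 1 := by
      haveI : Nontrivial B := Finite.one_lt_card_iff_nontrivial.mp (hBc.2 ▸ hp.one_lt)
      obtain ⟨x, hx⟩ := exists_ne (1 : B)
      exact ⟨x, x.2, fun h => hx (Subtype.ext h)⟩
    rw [eq_zpowers_of_mem_Hyp hp hB hE haB ha1, hcentU a]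
    have h1 := card_setmul (X ⊓ centralizer {a}) (Y ⊓ centralizer {a})
    rw [← hfac a (hBc.1 haB) ha1, hinf] at h1
    exact h1
  have htot : (Nat.card K * Nat.card (K ⊓ centralizer (A : Set H) : Subgroup H) ^ p) *
      (Nat.card (X ⊓ Y : Subgroup H) * Nat.card ((X ⊓ Y) ⊓ centralizer (A : Set H) : Subgroup H) ^ p) =
      (Nat.card X * Nat.card (X ⊓ centralizer (A : Set H) : Subgroup H) ^ p) *
      (Nat.card Y * Nat.card (Y ⊓ centralizer (A : Set H) : Subgroup H) ^ p) := by
    rw [bK, bXY, bX, bY, ← Finset.prod_mul_distrib, ← Finset.prod_mul_distrib]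
    exact Finset.prod_congr rfl hB
  have hsub : ((X : Set H) * (Y : Set H)) ⊆ (K : Set H) := by
    rintro _ ⟨x, hx, y, hy, rfl⟩
    exact K.mul_mem (hX hx) (hY hy)
  have hcard1 := card_setmul X Y
  have hle1 : Nat.card (((X : Set H) * (Y : Set H) : Set H)) ≤ Nat.card K := by
    rw [Nat.card_coe_set_eq]
    have := Set.ncard_le_ncard hsub (Set.toFinite _)
    rwa [← Nat.card_coe_set_eq (K : Set H)] at this
  have hsub2 : (((X ⊓ centralizer (A : Set H) : Subgroup H) : Set H) *
      ((Y ⊓ centralizer (A : Set H) : Subgroup H) : Set H)) ⊆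
      ((K ⊓ centralizer (A : Set H) : Subgroup H) : Set H) := by
    rintro _ ⟨x, hx, y, hy, rfl⟩
    exact ⟨K.mul_mem (hX hx.1) (hY hy.1), Subgroup.mul_mem _ hx.2 hy.2⟩
  have hcard2 := card_setmul (X ⊓ centralizer (A : Set H)) (Y ⊓ centralizer (A : Set H))
  rw [hinf] at hcard2
  have hle2 : Nat.card ((((X ⊓ centralizer (A : Set H) : Subgroup H) : Set H) *
      ((Y ⊓ centralizer (A : Set H) : Subgroup H) : Set H) : Set H)) ≤
      Nat.card (K ⊓ centralizer (A : Set H) : Subgroup H) := by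
    rw [Nat.card_coe_set_eq]
    have := Set.ncard_le_ncard hsub2 (Set.toFinite _)
    rwa [← Nat.card_coe_set_eq ((K ⊓ centralizer (A : Set H) : Subgroup H) : Set H)] at this
  -- arithmetic
  have hle1' : Nat.card X * Nat.card Y ≤ Nat.card K * Nat.card (X ⊓ Y : Subgroup H) := by
    rw [← hcard1]; exact Nat.mul_le_mul_right _ hle1
  have hle2' : Nat.card (X ⊓ centralizer (A : Set H) : Subgroup H) * Nat.card (Y ⊓ centralizer (A : Set H) : Subgroup H) ≤
      Nat.card (K ⊓ centralizer (A : Set H) : Subgroup H) * Nat.card ((X ⊓ Y) ⊓ centralizer (A : Set H) : Subgroup H) := by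
    rw [← hcard2]; exact Nat.mul_le_mul_right _ hle2
  have heq : Nat.card X * Nat.card Y = Nat.card K * Nat.card (X ⊓ Y : Subgroup H) := by
    by_contra hne
    have hlt := lt_of_le_of_ne hle1' hne
    have hgpos : 0 < (Nat.card (X ⊓ centralizer (A : Set H) : Subgroup H) * Nat.card (Y ⊓ centralizer (A : Set H) : Subgroup H)) ^ p :=
      pow_pos (Nat.mul_pos Nat.card_pos Nat.card_pos) _
    have h1 := Nat.mul_lt_mul_of_pos_right hlt hgpos
    have h2 := Nat.mul_le_mul_left (Nat.card K * Nat.card (X ⊓ Y : Subgroup H)) (Nat.pow_le_pow_left hle2' p)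
    have h3 := lt_of_lt_of_le h1 h2
    rw [mul_pow, mul_pow] at h3
    have h4 : Nat.card X * Nat.card Y * (Nat.card (X ⊓ centralizer (A : Set H) : Subgroup H) ^ p * Nat.card (Y ⊓ centralizer (A : Set H) : Subgroup H) ^ p) =
      Nat.card K * Nat.card (X ⊓ Y : Subgroup H) * (Nat.card (K ⊓ centralizer (A : Set H) : Subgroup H) ^ p * Nat.card ((X ⊓ Y) ⊓ centralizer (A : Set H) : Subgroup H) ^ p) := by
      calc _ = _ := by ring
        _ = _ := htot.symm
        _ = _ := by ring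
    omega
  have hcardeq : Nat.card (((X : Set H) * (Y : Set H) : Set H)) = Nat.card K := by
    have hpos : 0 < Nat.card (X ⊓ Y : Subgroup H) := Nat.card_pos
    exact Nat.eq_of_mul_eq_mul_right hpos (hcard1.trans heq)
  symm
  apply Set.eq_of_subset_of_ncard_le hsub _ (Set.toFinite _)
  rw [← Nat.card_coe_set_eq, ← Nat.card_coe_set_eq, hcardeq]
  rfl

end BW
end Cfsg.Agent.Lib.Components
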