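import Cfsg.Agent.Lib.KnownSimple.J1Group
import Cfsg.Agent.Lib.Components.J1SpecData

/-!
# The element orders of the Janko group `J₁`

The orders are `1, 2, 3, 5, 6, 7, 10, 11, 15, 19`.
-/

set_option autoImplicit false

namespace Cfsg.Agent.Lib.Components.J1Spec

open Cfsg Cfsg.Spor Cfsg.Agent.Lib.KnownSimple.J1Base Cfsg.Agent.Lib.KnownSimple.J1Data
open Cfsg.Agent.Lib.KnownSimple.J1Checks Cfsg.Agent.Lib.KnownSimple.J1Data2
open Cfsg.Agent.Lib.KnownSimple.J1Group
open scoped Pointwise

/-- The matrix of an element. -/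
abbrev mat (g : G) : Matrix (Fin 7) (Fin 7) (ZMod 11) := ((g.1 : GL (Fin 7) (ZMod 11)) : Matrix (Fin 7) (Fin 7) (ZMod 11))

theorem mat_mul (g h : G) : mat (g * h) = mat g * mat h := rfl
theorem mat_one : mat 1 = 1 := rfl

theorem mat_pow (g : G) (n : ℕ) : mat (g ^ n) = mat g ^ n := by
  induction n with
  | zero => rfl
  | succ n ih => rw [pow_succ, pow_succ, mat_mul, ih]

theorem orderOf_conj' (k x : G) : orderOf (k * x * k⁻¹) = orderOf x := by
  rw [← MulAut.conj_apply]
  exact MulEquiv.orderOf_eq _ _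

/-! ### Elements commuting with an involution -/

theorem Cl_orders : Cl.all (fun A => decide (powM A 6 = idM) || decide (powM A 10 = idM)) = true := by
  decide +kernel

theorem pow_of_mem_Cg {c : G} (hc : c ∈ Cg) : c ^ 6 = 1 ∨ c ^ 10 = 1 := by
  obtain ⟨A, hA, hr⟩ := (Cg_spec c).1 hc
  have hok : okM A = true := List.all_eq_true.mp okC A hA
  have h1 := List.all_eq_true.mp Cl_orders A hA
  simp only [Bool.or_eq_true, decide_eq_true_eq] at h1
  rcases h1 with h | h
  · left
    have h2 := rep_pow hr hok 6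
    rw [h] at h2
    exact rep_inj h2 rep_one
  · right
    have h2 := rep_pow hr hok 10
    rw [h] at h2
    exact rep_inj h2 rep_one

/-- An element commuting with an involution has order dividing `6` or `10`. -/
theorem pow_of_commute_involution {z s : G} (hs : orderOf s = 2) (hc : Commute z s) :
    z ^ 6 = 1 ∨ z ^ 10 = 1 := by
  obtain ⟨k, hk⟩ := exists_conj_t hs
  have h1 : k * z * k⁻¹ ∈ Subgroup.centralizer ({tG} : Set G) := by
    rw [Subgroup.mem_centralizer_singleton_iff, ← hk]
    have := hc.eq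
    calc k * z * k⁻¹ * (k * s * k⁻¹) = k * (z * s) * k⁻¹ := by group
      _ = k * (s * z) * k⁻¹ := by rw [this]
      _ = k * s * k⁻¹ * (k * z * k⁻¹) := by group
  rw [centralizer_eq] at h1
  have h2 : ∀ n : ℕ, (k * z * k⁻¹) ^ n = 1 → z ^ n = 1 := by
    intro n hn
    rw [conj_pow] at hn
    have h3 : k * z ^ n * k⁻¹ = 1 := hn
    have h4 : z ^ n = k⁻¹ * (k * z ^ n * k⁻¹) * k := by group
    rw [h4, h3]
    group
  rcases pow_of_mem_Cg h1 with h | h
  · exact Or.inl (h2 _ h)
  · exact Or.inr (h2 _ h)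

/-- Even order elements have order dividing `6` or `10`. -/
theorem pow_of_even_order {g : G} (h2 : 2 ∣ orderOf g) : g ^ 6 = 1 ∨ g ^ 10 = 1 := by
  haveI : Fact (Nat.Prime 2) := ⟨Nat.prime_two⟩
  have hpos : orderOf g ≠ 0 := (orderOf_pos g).ne'
  have h0 : orderOf g / 2 ≠ 0 := by
    intro h
    have := Nat.div_mul_cancel h2
    rw [h] at this
    omega
  have hs : orderOf (g ^ (orderOf g / 2)) = 2 := by
    rw [orderOf_pow_of_dvd h0 (Nat.div_dvd_of_dvd h2), Nat.div_div_self h2 hpos]
  exact pow_of_commute_involution hs (Commute.pow_right (Commute.refl g) _)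

/-! ### The elements of order `3` and `5` of the centraliser -/

theorem F3_spec : Ll.all (fun A => !decide (mulM A beM = mulM beM A) || F3.contains A) = true := by
  decide +kernel

theorem F5_spec : Ll.all (fun A => !decide (mulM A alM = mulM alM A) || F5.contains A) = true := by
  decide +kernel

theorem okLl_of_mem {A : Mat} (hA : A ∈ Ll) : okM A = true := List.all_eq_true.mp okL A hA

theorem mem_F_of_commute {b : G} {B : Mat} {F : List Mat} (hb : MRep b B) (hB : okM B = true)
    (hF : Ll.all (fun A => !decide (mulM A B = mulM B A) || F.contains A) = true) {s : G}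
    (hs : orderOf s = 2) (hc : s * b = b * s) : ∃ A ∈ F, MRep s A := by
  obtain ⟨i, hi, hr⟩ := involution_mem hs
  rw [List.getD_eq_getElem _ _ hi] at hr
  have hmem : Ll[i] ∈ Ll := List.getElem_mem hi
  have hok := okLl_of_mem hmem
  refine ⟨Ll[i], ?_, hr⟩
  have h1 := List.all_eq_true.mp hF _ hmem
  have h2 : mulM Ll[i] B = mulM B Ll[i] := by
    have h3 := hr.mul hb hok hB
    rw [hc] at h3
    exact rep_eq h3 (okM_mul hok) (okM_mul hB) (hb.mul hr hB hok)
  simp only [h2, Bool.or_eq_true, Bool.not_eq_true', decide_eq_false_iff_not, not_true_eq_false,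
    false_or, List.contains_iff_mem] at h1
  exact h1

/-- Pigeonhole: an element of prime order `> 5` commuting with `b` commutes with `t`, if `b` commutes with
at most five involutions (among them `t`). -/
theorem commute_t_of_few {b : G} {B : Mat} {F : List Mat} (hb : MRep b B) (hB : okM B = true)
    (hF : Ll.all (fun A => !decide (mulM A B = mulM B A) || F.contains A) = true) (hlen : F.length ≤ 5)
    (htb : tG * b = b * tG) {z : G} (hz : z * b = b * z) {p : ℕ} (hp : p.Prime) (hp5 : 5 < p)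
    (hzp : orderOf z = p) : Commute z tG := by
  have hs : ∀ i : Fin 6, ∃ j : Fin F.length, MRep (z ^ (i : ℕ) * tG * (z ^ (i : ℕ))⁻¹) (F.get j) := by
    intro i
    have hc : Commute (z ^ (i : ℕ)) b := Commute.pow_left hz _
    have ho : orderOf (z ^ (i : ℕ) * tG * (z ^ (i : ℕ))⁻¹) = 2 := by
      rw [orderOf_conj']; exact ord2
    have hcb : (z ^ (i : ℕ) * tG * (z ^ (i : ℕ))⁻¹) * b = b * (z ^ (i : ℕ) * tG * (z ^ (i : ℕ))⁻¹) := by
      have h1 : (z ^ (i : ℕ))⁻¹ * b = b * (z ^ (i : ℕ))⁻¹ := (hc.inv_left).eq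
      calc (z ^ (i : ℕ) * tG * (z ^ (i : ℕ))⁻¹) * b = z ^ (i : ℕ) * tG * ((z ^ (i : ℕ))⁻¹ * b) := by group
        _ = z ^ (i : ℕ) * (tG * b) * (z ^ (i : ℕ))⁻¹ := by rw [h1]; group
        _ = (z ^ (i : ℕ) * b) * tG * (z ^ (i : ℕ))⁻¹ := by rw [htb]; group
        _ = b * (z ^ (i : ℕ) * tG * (z ^ (i : ℕ))⁻¹) := by rw [hc.eq]; group
    obtain ⟨A, hA, hr⟩ := mem_F_of_commute hb hB hF ho hcb
    obtain ⟨j, hj, rfl⟩ := List.getElem_of_mem hA
    exact ⟨⟨j, hj⟩, hr⟩
  choose f hf using hs
  obtain ⟨i, i', hne, heq⟩ := Fintype.exists_ne_map_eq_of_card_lt f (by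
    simp only [Fintype.card_fin]; omega)
  have hsame : z ^ (i : ℕ) * tG * (z ^ (i : ℕ))⁻¹ = z ^ (i' : ℕ) * tG * (z ^ (i' : ℕ))⁻¹ := by
    have h1 := hf i
    rw [heq] at h1
    exact rep_inj h1 (hf i')
  -- wlog
  have key : ∀ a b' : ℕ, a < b' → b' < 6 → z ^ a * tG * (z ^ a)⁻¹ = z ^ b' * tG * (z ^ b')⁻¹ →
      Commute z tG := by
    intro a b' hab hb6 h
    obtain ⟨d, rfl⟩ : ∃ d, b' = a + d := ⟨b' - a, by omega⟩
    have hd0 : 0 < d := by omega
    have hdp : d < p := by omega
    have h1 : Commute (z ^ d) tG := by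
      rw [pow_add] at h
      have h2 : tG = z ^ d * tG * (z ^ d)⁻¹ := by
        have h3 : z ^ a * z ^ d * tG * (z ^ a * z ^ d)⁻¹ = z ^ a * (z ^ d * tG * (z ^ d)⁻¹) * (z ^ a)⁻¹ := by
          simp only [mul_inv_rev, mul_assoc]
        rw [h3] at h
        exact mul_left_cancel (mul_right_cancel h)
      show z ^ d * tG = tG * z ^ d
      calc z ^ d * tG = (z ^ d * tG * (z ^ d)⁻¹) * z ^ d := by group
        _ = tG * z ^ d := by rw [← h2]
    have hcop : Nat.Coprime d p :=
      Nat.Coprime.symm ((Nat.Prime.coprime_iff_not_dvd hp).2 (fun hd => by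
        have := Nat.le_of_dvd hd0 hd
        omega))
    obtain ⟨m, -, hm⟩ := Nat.exists_mul_mod_eq_one_of_coprime hcop hp.one_lt
    have hz1 : z = (z ^ d) ^ m := by
      rw [← pow_mul, ← pow_mod_orderOf, hzp, hm, pow_one]
    rw [hz1]
    exact h1.pow_left m
  rcases lt_or_gt_of_ne (Fin.val_ne_of_ne hne) with h | h
  · exact key _ _ h i'.2 hsame
  · exact key _ _ h i.2 hsame.symm

/-- An element of prime order `p ∤ 60` cannot commute with `b`, if `b` commutes with at most five involutions
(among them `t`). -/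
theorem no_commute_of_few {b : G} {B : Mat} {F : List Mat} (hb : MRep b B) (hB : okM B = true)
    (hF : Ll.all (fun A => !decide (mulM A B = mulM B A) || F.contains A) = true) (hlen : F.length ≤ 5)
    (htb : tG * b = b * tG) {z : G} (hz : z * b = b * z) {p : ℕ} (hp : p.Prime) (hp5 : 5 < p)
    (hzp : orderOf z = p) : False := by
  have hc := commute_t_of_few hb hB hF hlen htb hz hp hp5 hzp
  have hdvd : p ∣ 6 ∨ p ∣ 10 := by
    rcases pow_of_commute_involution ord2 hc with h | h
    · left
      rw [← hzp]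
      exact orderOf_dvd_of_pow_eq_one h
    · right
      rw [← hzp]
      exact orderOf_dvd_of_pow_eq_one h
  rcases hdvd with h | h
  · have := Nat.le_of_dvd (by norm_num) h
    interval_cases p <;> revert hp <;> norm_num
  · have := Nat.le_of_dvd (by norm_num) h
    interval_cases p <;> first | (revert hp; norm_num; done) | (revert h; norm_num; done)

theorem rep_t_comm_be : tG * beG = beG * tG := by
  have h1 : beG ∈ Cg := by
    obtain ⟨g, hg, hr⟩ := exists_C (A := beM) (by decide +kernel)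
    rwa [rep_inj rep_be hr]
  have h2 := Cg_comm h1
  calc tG * beG = (beG * tG * beG⁻¹) * beG := by rw [h2]
    _ = beG * tG := by group

theorem rep_t_comm_al : tG * alG = alG * tG := by
  have h1 : alG ∈ Cg := by
    obtain ⟨g, hg, hr⟩ := exists_C (A := alM) (by decide +kernel)
    rwa [rep_inj rep_al hr]
  have h2 := Cg_comm h1
  calc tG * alG = (alG * tG * alG⁻¹) * alG := by rw [h2]
    _ = alG * tG := by group

theorem ord_be : orderOf beG = 3 := by
  have : Fact (Nat.Prime 3) := ⟨by norm_num⟩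
  exact orderOf_of_rep rep_be okbe (by decide +kernel) (by decide +kernel)

theorem ord_al : orderOf alG = 5 := by
  have : Fact (Nat.Prime 5) := ⟨by norm_num⟩
  exact orderOf_of_rep rep_al okal (by decide +kernel) (by decide +kernel)

/-! ### Sylow conjugacy for primes dividing the order exactly once -/

theorem factorization_eq_one {p : ℕ} (hp : p.Prime) (h1 : p ∣ 175560) (h2 : ¬ p ^ 2 ∣ 175560) :
    (Nat.card G).factorization p = 1 := by
  rw [card_G]
  have h3 : 1 ≤ (175560 : ℕ).factorization p := by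
    rw [← hp.pow_dvd_iff_le_factorization (by norm_num)]
    simpa using h1
  have h4 : ¬ 2 ≤ (175560 : ℕ).factorization p := by
    rw [← hp.pow_dvd_iff_le_factorization (by norm_num)]
    exact h2
  omega

theorem sylow_conj {p : ℕ} (hp : p.Prime) (hcard : (Nat.card G).factorization p = 1) {y a z : G}
    (hy : orderOf y = p) (ha : orderOf a = p) (hz : Commute z y) : ∃ k : G, Commute (k * z * k⁻¹) a := by
  classical
  haveI : Fact p.Prime := ⟨hp⟩
  let P : Sylow p G := Sylow.ofCard (Subgroup.zpowers y) (by rw [Nat.card_zpowers, hy, hcard, pow_one])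
  let Q : Sylow p G := Sylow.ofCard (Subgroup.zpowers a) (by rw [Nat.card_zpowers, ha, hcard, pow_one])
  obtain ⟨k, hk⟩ := MulAction.exists_smul_eq G P Q
  have ha' : a ∈ (Q : Subgroup G) := by
    show a ∈ Subgroup.zpowers a
    exact Subgroup.mem_zpowers a
  rw [← hk, Sylow.coe_subgroup_smul, Subgroup.mem_pointwise_smul_iff_inv_smul_mem] at ha'
  change (MulAut.conj k)⁻¹ • a ∈ Subgroup.zpowers y at ha'
  obtain ⟨j, hj⟩ := ha'
  have hj' : y ^ j = k⁻¹ * a * k := by
    have h5 : y ^ j = (MulAut.conj k)⁻¹ • a := hj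
    rw [h5, MulAut.smul_def, MulAut.conj_inv_apply]
  have hc : Commute z (y ^ j) := hz.zpow_right j
  refine ⟨k, ?_⟩
  have h1 : a = k * y ^ j * k⁻¹ := by rw [hj']; group
  show k * z * k⁻¹ * a = a * (k * z * k⁻¹)
  rw [h1]
  calc k * z * k⁻¹ * (k * y ^ j * k⁻¹) = k * (z * y ^ j) * k⁻¹ := by group
    _ = k * (y ^ j * z) * k⁻¹ := by rw [hc.eq]
    _ = k * y ^ j * k⁻¹ * (k * z * k⁻¹) := by group

/-! ### Vectors -/

theorem fix_line {a : G} {A : Mat} (hA : MRep a A) (w u : Fin 7 → ZMod 11)
    (P : Matrix (Fin 7) (Fin 7) (ZMod 11)) (hw : (toM A).mulVec w = w)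
    (hP : P * (toM A - 1) = 1 - Matrix.vecMulVec w u) {h : G} (hc : h * a = a * h) :
    (mat h).mulVec w = (u ⬝ᵥ (mat h).mulVec w) • w := by
  have hA' : mat a = toM A := hA
  set v := (mat h).mulVec w with hv
  have h1 : (toM A).mulVec v = v := by
    have h0 : mat a * mat h = mat h * mat a := by rw [← mat_mul, ← mat_mul, hc]
    rw [hv, ← hA', Matrix.mulVec_mulVec, h0, ← Matrix.mulVec_mulVec, hA', hw]
  have h2 : (toM A - 1).mulVec v = 0 := by
    rw [Matrix.sub_mulVec, Matrix.one_mulVec, h1, sub_self]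
  have h3 : (P * (toM A - 1)).mulVec v = 0 := by
    rw [← Matrix.mulVec_mulVec, h2, Matrix.mulVec_zero]
  rw [hP, Matrix.sub_mulVec, Matrix.one_mulVec, sub_eq_zero] at h3
  rw [Matrix.vecMulVec_mulVec] at h3
  funext i
  have h4 := congrFun h3 i
  simp only [Pi.smul_apply, MulOpposite.smul_eq_mul_unop, MulOpposite.unop_op, smul_eq_mul] at h4 ⊢
  exact h4.trans (mul_comm _ _)

theorem fix_of_pow {h : G} {w : Fin 7 → ZMod 11} (c : ZMod 11) (hw0 : w ≠ 0)
    (hc : (mat h).mulVec w = c • w) {r : ℕ} (hr : h ^ r = 1) (hcop : Nat.Coprime r 10) :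
    (mat h).mulVec w = w := by
  haveI : Fact (Nat.Prime 11) := ⟨by norm_num⟩
  have h1 : ∀ n : ℕ, (mat h ^ n).mulVec w = c ^ n • w := by
    intro n
    induction n with
    | zero => simp
    | succ n ih =>
      rw [pow_succ, ← Matrix.mulVec_mulVec, hc, Matrix.mulVec_smul, ih, smul_smul, pow_succ, mul_comm]
  have h2 := h1 r
  rw [← mat_pow, hr, mat_one, Matrix.one_mulVec] at h2
  have hr0 : r ≠ 0 := by
    rintro rfl
    norm_num at hcop
  have h3 : c ^ r = 1 := by
    obtain ⟨i, hi⟩ := Function.ne_iff.1 hw0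
    have h4 := congrFun h2 i
    simp only [Pi.smul_apply, smul_eq_mul] at h4
    have hwi : w i ≠ 0 := hi
    exact mul_right_cancel₀ hwi (by rw [one_mul]; exact h4.symm)
  have hc0 : c ≠ 0 := by
    rintro rfl
    rw [zero_pow hr0] at h3
    exact zero_ne_one h3
  have h4 : c ^ 10 = 1 := ZMod.pow_card_sub_one_eq_one hc0
  have h5 : orderOf c ∣ Nat.gcd r 10 :=
    Nat.dvd_gcd (orderOf_dvd_of_pow_eq_one h3) (orderOf_dvd_of_pow_eq_one h4)
  rw [hcop, Nat.dvd_one, orderOf_eq_one_iff] at h5
  rw [hc, h5, one_smul]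

/-- The stabiliser of a vector. -/
def stabS (w : Fin 7 → ZMod 11) : Subgroup G where
  carrier := {s | (mat s).mulVec w = w}
  mul_mem' := by
    intro a b ha hb
    show (mat (a * b)).mulVec w = w
    rw [mat_mul, ← Matrix.mulVec_mulVec, hb, ha]
  one_mem' := by
    show (mat 1).mulVec w = w
    rw [mat_one, Matrix.one_mulVec]
  inv_mem' := by
    intro a ha
    have h1 : (mat a⁻¹).mulVec ((mat a).mulVec w) = w := by
      rw [Matrix.mulVec_mulVec, ← mat_mul, inv_mul_cancel, mat_one, Matrix.one_mulVec]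
    show (mat a⁻¹).mulVec w = w
    have ha' : (mat a).mulVec w = w := ha
    rwa [ha'] at h1

theorem mem_stabS {w : Fin 7 → ZMod 11} {s : G} : s ∈ stabS w ↔ (mat s).mulVec w = w := Iff.rfl

/-- Encoding of a vector. -/
def encV (v : List ℕ) : ℕ := v.foldr (fun a b => a + 16 * b) 0

def hashV (v : List ℕ) : ℕ := encV v % 304207

/-- A walk on vectors: the mask records the hash values of the vectors seen, and the moves `k ≥ 2` go to a
vector whose hash value has not been seen. -/
def runW : List ℕ → List ℕ → ℕ → Bool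
  | [], _, _ => true
  | k :: l, v, m =>
    let v' := mvL (if k % 2 = 1 then yM else xM) v
    if k < 2 then runW l v' m
    else !(Nat.testBit m (hashV v')) && runW l v' (m ||| (1 <<< hashV v'))

/-- Valid vectors. -/
def ValidV (v : List ℕ) : Prop := v.length = 7 ∧ ∀ x ∈ v, x < 11

theorem validV_mvL {A : Mat} (hA : okM A = true) (v : List ℕ) : ValidV (mvL A v) := by
  refine ⟨mvL_length hA, ?_⟩
  intro x hx
  simp only [mvL, List.mem_map] at hx
  obtain ⟨r, -, rfl⟩ := hx
  exact Nat.mod_lt _ (by norm_num)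

theorem run_spec (W : Fin 7 → ZMod 11) : ∀ (l : List ℕ) (v : List ℕ) (m : ℕ) (S : Finset (List ℕ)),
    ValidV v → (∃ g : G, (mat g).mulVec W = toV v) →
    (∀ a ∈ S, ValidV a ∧ (∃ g : G, (mat g).mulVec W = toV a) ∧ Nat.testBit m (hashV a) = true) →
    runW l v m = true →
    ∃ S' : Finset (List ℕ), S'.card = S.card + (l.filter (fun k => decide (2 ≤ k))).length ∧
      ∀ a ∈ S', ValidV a ∧ ∃ g : G, (mat g).mulVec W = toV a := by
  intro l
  induction l with
  | nil =>
    intro v m S _ _ hS _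
    exact ⟨S, by simp, fun a ha => ⟨(hS a ha).1, (hS a ha).2.1⟩⟩
  | cons k l ih =>
    intro v m S hv hg hS hrun
    have hgen : okM (if k % 2 = 1 then yM else xM) = true := by
      split_ifs
      · exact hyM
      · exact hxM
    have hgenR : ∃ g : G, MRep g (if k % 2 = 1 then yM else xM) := by
      split_ifs
      · exact ⟨yG, rep_y⟩
      · exact ⟨xG, rep_x⟩
    set v' := mvL (if k % 2 = 1 then yM else xM) v with hv'
    have hvalid : ValidV v' := validV_mvL hgen v
    have hg' : ∃ g : G, (mat g).mulVec W = toV v' := by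
      obtain ⟨g, hg⟩ := hg
      obtain ⟨g₀, hg₀⟩ := hgenR
      refine ⟨g₀ * g, ?_⟩
      rw [mat_mul, ← Matrix.mulVec_mulVec, hg, hv', toV_mv hgen hv.1]
      have : mat g₀ = toM (if k % 2 = 1 then yM else xM) := hg₀
      rw [this]
    rw [runW] at hrun
    by_cases hk : k < 2
    · simp only [hk, if_true] at hrun
      obtain ⟨S', h1, h2⟩ := ih v' m S hvalid hg' hS hrun
      refine ⟨S', ?_, h2⟩
      rw [h1, List.filter_cons_of_neg (by simpa using hk)]
    · simp only [hk, if_false, Bool.and_eq_true, Bool.not_eq_true', ] at hrun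
      obtain ⟨hbit, hrun⟩ := hrun
      have hnot : v' ∉ S := by
        intro hmem
        have := (hS v' hmem).2.2
        rw [this] at hbit
        exact Bool.noConfusion hbit
      obtain ⟨S', h1, h2⟩ := ih v' _ (insert v' S) hvalid hg' (by
        intro a ha
        rw [Finset.mem_insert] at ha
        rcases ha with rfl | ha
        · refine ⟨hvalid, hg', ?_⟩
          rw [Nat.testBit_or, Bool.or_eq_true]
          right
          rw [Nat.one_shiftLeft, Nat.testBit_two_pow_self]
        · refine ⟨(hS a ha).1, (hS a ha).2.1, ?_⟩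
          rw [Nat.testBit_or, Bool.or_eq_true]
          left
          exact (hS a ha).2.2) hrun
      refine ⟨S', ?_, h2⟩
      rw [h1, Finset.card_insert_of_notMem hnot, List.filter_cons_of_pos (by simp only [decide_eq_true_eq]; omega),
        List.length_cons]
      omega

theorem card_stab_le (W : Fin 7 → ZMod 11) (S : Finset (List ℕ))
    (hS : ∀ a ∈ S, ValidV a ∧ ∃ g : G, (mat g).mulVec W = toV a) :
    Nat.card (stabS W) * S.card ≤ 175560 := by
  classical
  have hex : ∀ a : S, ∃ g : G, (mat g).mulVec W = toV a.1 := fun a => (hS a.1 a.2).2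
  choose g hg using hex
  let Φ : (stabS W) × S → G := fun q => g q.2 * q.1.1
  have hΦ : Function.Injective Φ := by
    rintro ⟨s, i⟩ ⟨s', j⟩ heq
    have heq' : g i * s.1 = g j * s'.1 := heq
    have h1 : ∀ (k : S) (σ : stabS W), (mat (g k * σ.1)).mulVec W = toV k.1 := by
      intro k σ
      rw [mat_mul, ← Matrix.mulVec_mulVec, mem_stabS.1 σ.2, hg]
    have h2 : toV i.1 = toV j.1 := by
      rw [← h1 i s, ← h1 j s', heq']
    have h3 := toV_eq_iff h2 (hS _ i.2).1.1 (hS _ j.2).1.1 (hS _ i.2).1.2 (hS _ j.2).1.2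
    have h5 : i = j := Subtype.ext h3
    subst h5
    have h6 : s = s' := Subtype.ext (mul_left_cancel heq')
    rw [h6]
  have h1 := Nat.card_le_card_of_injective Φ hΦ
  rw [Nat.card_prod, card_G] at h1
  simpa using h1

theorem card_stab_of_run (W : Fin 7 → ZMod 11) (v : List ℕ) (hv : ValidV v) (hW : W = toV v) (l : List ℕ)
    (hrun : runW l v (1 <<< hashV v) = true) :
    Nat.card (stabS W) * ((l.filter (fun k => decide (2 ≤ k))).length + 1) ≤ 175560 := by
  obtain ⟨S', h1, h2⟩ := run_spec W l v (1 <<< hashV v) {v} hv ⟨1, by rw [mat_one, Matrix.one_mulVec, hW]⟩ (by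
    intro a ha
    rw [Finset.mem_singleton] at ha
    subst ha
    refine ⟨hv, ⟨1, by rw [mat_one, Matrix.one_mulVec, hW]⟩, ?_⟩
    rw [Nat.one_shiftLeft, Nat.testBit_two_pow_self]) hrun
  have h3 := card_stab_le W S' h2
  rw [h1, Finset.card_singleton] at h3
  rwa [add_comm] at h3

/-! ### The data -/

theorem run7 : runW moves7 w7 (1 <<< hashV w7) = true := by decide +kernel
theorem run19 : runW moves19 w19 (1 <<< hashV w19) = true := by decide +kernel
theorem len7 : (moves7.filter (fun k => decide (2 ≤ k))).length = 2280 := by decide +kernel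
theorem len19 : (moves19.filter (fun k => decide (2 ≤ k))).length = 840 := by decide +kernel
theorem valid7 : ValidV w7 := ⟨rfl, by decide⟩
theorem valid19 : ValidV w19 := ⟨rfl, by decide⟩

/-- The fixed vector of `x`. -/
def W7 : Fin 7 → ZMod 11 := toV w7
def U7 : Fin 7 → ZMod 11 := fun i => if (i : ℕ) = f7 then 1 else 0
def W19 : Fin 7 → ZMod 11 := toV w19
def U19 : Fin 7 → ZMod 11 := fun i => if (i : ℕ) = f19 then 1 else 0

theorem W7_fix : (toM xM).mulVec W7 = W7 := by decide +kernel
theorem W19_fix : (toM aM).mulVec W19 = W19 := by decide +kernel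
theorem W7_ne : W7 ≠ 0 := by decide +kernel
theorem W19_ne : W19 ≠ 0 := by decide +kernel
theorem P7_eq : toM P7 * (toM xM - 1) = 1 - Matrix.vecMulVec W7 U7 := by decide +kernel
theorem P19_eq : toM P19 * (toM aM - 1) = 1 - Matrix.vecMulVec W19 U19 := by decide +kernel

theorem orderOf_dvd_card_stab {w : Fin 7 → ZMod 11} {a z : G} (ha : a ∈ stabS w) (hz : z ∈ stabS w)
    (hc : Commute a z) (hco : Nat.Coprime (orderOf a) (orderOf z)) :
    orderOf a * orderOf z ∣ Nat.card (stabS w) := by
  have h1 : orderOf (a * z) = orderOf a * orderOf z := hc.orderOf_mul_eq_mul_orderOf_of_coprime hco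
  rw [← h1]
  have h2 := orderOf_dvd_natCard (⟨a * z, (stabS w).mul_mem ha hz⟩ : stabS w)
  rwa [Subgroup.orderOf_mk] at h2

theorem no_commute_x {z : G} (hz : z * xG = xG * z) {r : ℕ} (hr : orderOf z = r) (hr1 : 11 ≤ r)
    (hcop10 : Nat.Coprime r 10) (hcop7 : Nat.Coprime 7 r) : False := by
  have h1 := fix_line rep_x W7 U7 (toM P7) W7_fix P7_eq hz
  have h2 := fix_of_pow _ W7_ne h1 (by rw [← hr]; exact pow_orderOf_eq_one z) hcop10
  have hzS : z ∈ stabS W7 := h2
  have hxS : xG ∈ stabS W7 := by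
    rw [mem_stabS]
    have : mat xG = toM xM := rep_x
    rw [this, W7_fix]
  have h3 := orderOf_dvd_card_stab hxS hzS (Commute.symm hz) (by rw [ord7, hr]; exact hcop7)
  have h4 : Nat.card (stabS W7) * 2281 ≤ 175560 := by
    have := card_stab_of_run W7 w7 valid7 rfl moves7 run7
    rwa [len7] at this
  have h5 := Nat.le_of_dvd Nat.card_pos h3
  rw [ord7, hr] at h5
  omega

theorem no_commute_a {z : G} (hz : z * aG = aG * z) {r : ℕ} (hr : orderOf z = r) (hr1 : 11 ≤ r)
    (hcop10 : Nat.Coprime r 10) (hcop7 : Nat.Coprime 19 r) : False := by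
  have h1 := fix_line rep_a W19 U19 (toM P19) W19_fix P19_eq hz
  have h2 := fix_of_pow _ W19_ne h1 (by rw [← hr]; exact pow_orderOf_eq_one z) hcop10
  have hzS : z ∈ stabS W19 := h2
  have hxS : aG ∈ stabS W19 := by
    rw [mem_stabS]
    have : mat aG = toM aM := rep_a
    rw [this, W19_fix]
  have h3 := orderOf_dvd_card_stab hxS hzS (Commute.symm hz) (by rw [ord19, hr]; exact hcop7)
  have h4 : Nat.card (stabS W19) * 841 ≤ 175560 := by
    have := card_stab_of_run W19 w19 valid19 rfl moves19 run19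
    rwa [len19] at this
  have h5 := Nat.le_of_dvd Nat.card_pos h3
  rw [ord19, hr] at h5
  omega

/-! ### No element of order `pr` -/

theorem orderOf_pow_div {g : G} {a : ℕ} (ha : a ∣ orderOf g) : orderOf (g ^ (orderOf g / a)) = a := by
  have hpos : orderOf g ≠ 0 := (orderOf_pos g).ne'
  have h0 : orderOf g / a ≠ 0 := by
    intro h
    have := Nat.div_mul_cancel ha
    rw [h] at this
    omega
  rw [orderOf_pow_of_dvd h0 (Nat.div_dvd_of_dvd ha), Nat.div_div_self ha hpos]

theorem no_3 {g : G} {p : ℕ} (hp : p.Prime) (hp5 : 5 < p) (h : p * 3 ∣ orderOf g) : False := by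
  have h1 : p ∣ orderOf g := (dvd_mul_right _ _).trans h
  have h2 : 3 ∣ orderOf g := (dvd_mul_left _ _).trans h
  have hc : Commute (g ^ (orderOf g / p)) (g ^ (orderOf g / 3)) := Commute.pow_pow_self _ _ _
  obtain ⟨k, hk⟩ := sylow_conj (p := 3) (by norm_num)
    (factorization_eq_one (by norm_num) (by norm_num) (by norm_num)) (orderOf_pow_div h2) ord_be hc
  exact no_commute_of_few rep_be okbe F3_spec (by decide +kernel) rep_t_comm_be hk.eq hp hp5
    (by rw [orderOf_conj', orderOf_pow_div h1])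

theorem no_5 {g : G} {p : ℕ} (hp : p.Prime) (hp5 : 5 < p) (h : p * 5 ∣ orderOf g) : False := by
  have h1 : p ∣ orderOf g := (dvd_mul_right _ _).trans h
  have h2 : 5 ∣ orderOf g := (dvd_mul_left _ _).trans h
  have hc : Commute (g ^ (orderOf g / p)) (g ^ (orderOf g / 5)) := Commute.pow_pow_self _ _ _
  obtain ⟨k, hk⟩ := sylow_conj (p := 5) (by norm_num)
    (factorization_eq_one (by norm_num) (by norm_num) (by norm_num)) (orderOf_pow_div h2) ord_al hc
  exact no_commute_of_few rep_al okal F5_spec (by decide +kernel) rep_t_comm_al hk.eq hp hp5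
    (by rw [orderOf_conj', orderOf_pow_div h1])

theorem no_7 {g : G} {r : ℕ} (hr1 : 11 ≤ r) (hcop10 : Nat.Coprime r 10) (hcop7 : Nat.Coprime 7 r)
    (h : r * 7 ∣ orderOf g) : False := by
  have h1 : r ∣ orderOf g := (dvd_mul_right _ _).trans h
  have h2 : 7 ∣ orderOf g := (dvd_mul_left _ _).trans h
  have hc : Commute (g ^ (orderOf g / r)) (g ^ (orderOf g / 7)) := Commute.pow_pow_self _ _ _
  obtain ⟨k, hk⟩ := sylow_conj (p := 7) (by norm_num)
    (factorization_eq_one (by norm_num) (by norm_num) (by norm_num)) (orderOf_pow_div h2) ord7 hc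
  exact no_commute_x hk.eq (by rw [orderOf_conj', orderOf_pow_div h1]) hr1 hcop10 hcop7

theorem no_19 {g : G} {r : ℕ} (hr1 : 11 ≤ r) (hcop10 : Nat.Coprime r 10) (hcop7 : Nat.Coprime 19 r)
    (h : r * 19 ∣ orderOf g) : False := by
  have h1 : r ∣ orderOf g := (dvd_mul_right _ _).trans h
  have h2 : 19 ∣ orderOf g := (dvd_mul_left _ _).trans h
  have hc : Commute (g ^ (orderOf g / r)) (g ^ (orderOf g / 19)) := Commute.pow_pow_self _ _ _
  obtain ⟨k, hk⟩ := sylow_conj (p := 19) (by norm_num)
    (factorization_eq_one (by norm_num) (by norm_num) (by norm_num)) (orderOf_pow_div h2) ord19 hc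
  exact no_commute_a hk.eq (by rw [orderOf_conj', orderOf_pow_div h1]) hr1 hcop10 hcop7

/-- The upper bound. -/
theorem orderOf_cases (g : G) : orderOf g = 1 ∨ orderOf g = 2 ∨ orderOf g = 3 ∨ orderOf g = 5 ∨
    orderOf g = 6 ∨ orderOf g = 7 ∨ orderOf g = 10 ∨ orderOf g = 11 ∨ orderOf g = 15 ∨ orderOf g = 19 := by
  have hdvd : orderOf g ∣ 175560 := by
    rw [← card_G]
    exact orderOf_dvd_natCard g
  by_cases h2 : 2 ∣ orderOf g
  · have h3 : orderOf g ∣ 6 ∨ orderOf g ∣ 10 := by
      rcases pow_of_even_order h2 with h | h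
      · exact Or.inl (orderOf_dvd_of_pow_eq_one h)
      · exact Or.inr (orderOf_dvd_of_pow_eq_one h)
    generalize orderOf g = n at *
    rcases h3 with h3 | h3
    · have := Nat.le_of_dvd (by norm_num) h3
      interval_cases n <;> omega
    · have := Nat.le_of_dvd (by norm_num) h3
      interval_cases n <;> omega
  · have hodd : orderOf g ∣ 21945 := by
      have h3 : Nat.Coprime (orderOf g) 8 := by
        have : Nat.Coprime (orderOf g) 2 := ((Nat.Prime.coprime_iff_not_dvd Nat.prime_two).2 h2).symm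
        exact Nat.Coprime.pow_right 3 this
      exact h3.dvd_of_dvd_mul_left (by simpa using hdvd)
    have n1 : ¬ 7 * 3 ∣ orderOf g := fun h => no_3 (by norm_num) (by norm_num) h
    have n2 : ¬ 11 * 3 ∣ orderOf g := fun h => no_3 (by norm_num) (by norm_num) h
    have n3 : ¬ 19 * 3 ∣ orderOf g := fun h => no_3 (by norm_num) (by norm_num) h
    have n4 : ¬ 7 * 5 ∣ orderOf g := fun h => no_5 (by norm_num) (by norm_num) h
    have n5 : ¬ 11 * 5 ∣ orderOf g := fun h => no_5 (by norm_num) (by norm_num) h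
    have n6 : ¬ 19 * 5 ∣ orderOf g := fun h => no_5 (by norm_num) (by norm_num) h
    have n7 : ¬ 11 * 7 ∣ orderOf g := fun h => no_7 (by norm_num) (by norm_num) (by norm_num) h
    have n8 : ¬ 19 * 7 ∣ orderOf g := fun h => no_7 (by norm_num) (by norm_num) (by norm_num) h
    have n9 : ¬ 11 * 19 ∣ orderOf g := fun h => no_19 (by norm_num) (by norm_num) (by norm_num) h
    generalize orderOf g = n at *
    have hmem : n ∈ Nat.divisors 21945 := Nat.mem_divisors.2 ⟨hodd, by norm_num⟩
    have hdiv : Nat.divisors 21945 = {1, 3, 5, 7, 11, 15, 19, 21, 33, 35, 55, 57, 77, 95, 105, 133, 165, 209, 231,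
        285, 385, 399, 627, 665, 1045, 1155, 1463, 1995, 3135, 4389, 7315, 21945} := by decide +kernel
    rw [hdiv] at hmem
    simp only [Finset.mem_insert, Finset.mem_singleton] at hmem
    rcases hmem with rfl | rfl | rfl | rfl | rfl | rfl | rfl | rfl | rfl | rfl | rfl | rfl | rfl | rfl | rfl | rfl | rfl |
      rfl | rfl | rfl | rfl | rfl | rfl | rfl | rfl | rfl | rfl | rfl | rfl | rfl | rfl | rfl <;>
      first
        | (exfalso; revert n1 n2 n3 n4 n5 n6 n7 n8 n9; norm_num; done)
        | simp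

/-! ### The lower bound -/

theorem orderOf_of_rep' {g : G} {A : Mat} (hg : MRep g A) (hA : okM A = true) {n : ℕ} (hn : 0 < n)
    (h1 : powM A n = idM) (h2 : (List.range n).tail.all (fun m => decide (powM A m ≠ idM)) = true) :
    orderOf g = n := by
  rw [orderOf_eq_iff hn]
  constructor
  · have h3 := rep_pow hg hA n
    rw [h1] at h3
    exact rep_inj h3 rep_one
  · intro m hm hm0 hpow
    have h3 := rep_pow hg hA m
    rw [hpow] at h3
    have h4 : powM A m = idM := by
      refine rep_eq h3 ?_ (by decide) rep_one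
      cases m with
      | zero => omega
      | succ m => exact okM_mul hA
    have h5 := List.all_eq_true.mp h2 m (by
      rw [List.range_eq_range', List.tail_range']
      simp only [List.mem_range'_1]
      omega)
    simp only [decide_eq_true_eq] at h5
    exact h5 h4

theorem exists_10 : ∃ g : G, orderOf g = 10 :=
  ⟨xG * yG, orderOf_of_rep' (rep_x.mul rep_y hxM hyM) (okM_mul hxM) (by norm_num) (by decide +kernel) (by decide +kernel)⟩

theorem exists_11 : ∃ g : G, orderOf g = 11 := ⟨g11G, ord11⟩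

theorem exists_19 : ∃ g : G, orderOf g = 19 := ⟨aG, ord19⟩

theorem exists_7 : ∃ g : G, orderOf g = 7 := ⟨xG, ord7⟩

theorem exists_6 : ∃ g : G, orderOf g = 6 := by
  have h1 := rep_pow rep_y hyM 3
  have h2 := rep_x.mul h1 hxM (okM_mul hyM)
  exact ⟨xG * yG ^ 3, orderOf_of_rep' h2 (okM_mul hxM) (by norm_num) (by decide +kernel) (by decide +kernel)⟩

theorem exists_15 : ∃ g : G, orderOf g = 15 := by
  have h1 := rep_pow rep_y hyM 2
  have h1ok : okM (powM yM 2) = true := okM_mul hyM
  have h2 := rep_pow rep_x hxM 6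
  have h2ok : okM (powM xM 6) = true := okM_mul hxM
  have h3 := (rep_x.mul h1 hxM h1ok).mul (h2.mul h1 h2ok h1ok) (okM_mul hxM) (okM_mul h2ok)
  exact ⟨xG * yG ^ 2 * (xG ^ 6 * yG ^ 2), orderOf_of_rep' h3 (okM_mul (okM_mul hxM)) (by norm_num) (by decide +kernel)
    (by decide +kernel)⟩

theorem exists_of_dvd {n d : ℕ} (h : ∃ g : G, orderOf g = n) (hd : d ∣ n) : ∃ g : G, orderOf g = d := by
  obtain ⟨g, rfl⟩ := h
  exact ⟨_, orderOf_pow_div hd⟩

/-- The element orders of `J₁`. -/
theorem range_orderOf : Set.range (orderOf : ↥Spor.J1 → ℕ) = {1, 2, 3, 5, 6, 7, 10, 11, 15, 19} := by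
  ext n
  simp only [Set.mem_range, Set.mem_insert_iff, Set.mem_singleton_iff]
  constructor
  · rintro ⟨g, rfl⟩
    exact orderOf_cases g
  · rintro (rfl | rfl | rfl | rfl | rfl | rfl | rfl | rfl | rfl | rfl)
    · exact exists_of_dvd exists_6 (by norm_num)
    · exact exists_of_dvd exists_6 (by norm_num)
    · exact exists_of_dvd exists_6 (by norm_num)
    · exact exists_of_dvd exists_10 (by norm_num)
    · exact exists_6
    · exact exists_7
    · exact exists_10
    · exact exists_11
    · exact exists_15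
    · exact exists_19

end Cfsg.Agent.Lib.Components.J1Spec
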