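import Cfsg.Agent.Lib.Components.Basic
import Cfsg.Agent.Lib.Transfer.NormalAb
import Cfsg.Prelude.Def_Balance

/-!
# Components library: the rank-two commuting graph of a `p`-group.
-/

set_option autoImplicit false

namespace Cfsg.Agent.Lib.Components

open Cfsg

section

variable {P : Type*} [Group P] [Finite P] {p : ℕ} [hp : Fact p.Prime]

theorem exists_EA_of_not_rank {G : Type*} [Group G] {p k : ℕ} (h : ¬ PRankLE p k G) :
    ∃ E : Subgroup G, IsElementaryAbelian p E ∧ p ^ k < Nat.card E := by
  unfold PRankLE at h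
  push Not at h
  obtain ⟨E, hc, he, hE⟩ := h
  exact ⟨E, ⟨hc, he⟩, hE⟩

theorem not_rank_of_le {G : Type*} [Group G] {p k : ℕ} {C T : Subgroup G} (hTC : T ≤ C) (hT : IsElementaryAbelian p T)
    (hc : p ^ k < Nat.card T) : ¬ PRankLE p k C := by
  intro h
  have h1 := h (T.subgroupOf C) ⟨⟨by
    rintro ⟨a, ha⟩ ⟨b, hb⟩
    apply Subtype.ext
    apply Subtype.ext
    have := hT.1.is_comm.comm (⟨a, ha⟩ : T) ⟨b, hb⟩
    exact congrArg (fun t : T => (t : G)) this⟩⟩ (by
      intro a ha
      apply Subtype.ext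
      exact hT.2 _ ha)
  have h2 : Nat.card (T.subgroupOf C) = Nat.card T := Nat.card_congr (Subgroup.subgroupOfEquivOfLe hTC).toEquiv
  omega

theorem exists_le_of_not_rank {G : Type*} [Group G] {p k : ℕ} {C : Subgroup G} (h : ¬ PRankLE p k C) :
    ∃ T : Subgroup G, T ≤ C ∧ IsElementaryAbelian p T ∧ p ^ k < Nat.card T := by
  obtain ⟨E, hE, hc⟩ := exists_EA_of_not_rank h
  refine ⟨E.map C.subtype, Subgroup.map_subtype_le E, ⟨⟨⟨?_⟩⟩, ?_⟩, ?_⟩
  · rintro ⟨_, a, ha, rfl⟩ ⟨_, b, hb, rfl⟩
    apply Subtype.ext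
    have := hE.1.is_comm.comm (⟨a, ha⟩ : E) ⟨b, hb⟩
    have h2 := congrArg (fun t : E => ((t : C) : G)) this
    exact h2
  · rintro _ ⟨a, ha, rfl⟩
    rw [← map_pow, hE.2 a ha, map_one]
  · rw [Subgroup.card_map_of_injective C.subtype_injective]
    exact hc

theorem comm_iff_forall {G : Type*} [Group G] {A : Subgroup G} : IsMulCommutative A ↔ ∀ a ∈ A, ∀ b ∈ A, a * b = b * a := by
  constructor
  · intro h a ha b hb
    have := h.is_comm.comm (⟨a, ha⟩ : A) ⟨b, hb⟩
    exact congrArg Subtype.val this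
  · intro h
    exact ⟨⟨fun a b => Subtype.ext (h a a.2 b b.2)⟩⟩

theorem ea_sup {G : Type*} [Group G] {p : ℕ} {A B : Subgroup G} (hA : IsElementaryAbelian p A) (hB : IsElementaryAbelian p B)
    (hc : ∀ a ∈ A, ∀ b ∈ B, a * b = b * a) : IsElementaryAbelian p (A ⊔ B) := by
  have hle : B ≤ Subgroup.centralizer (A : Set G) := by
    intro b hb
    rw [Subgroup.mem_centralizer_iff]
    intro a ha
    exact hc a ha b hb
  have hN : B ≤ Subgroup.normalizer (A : Set G) := hle.trans (Subgroup.centralizer_le_normalizer _)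
  have hAc := comm_iff_forall.mp hA.1
  have hBc := comm_iff_forall.mp hB.1
  constructor
  · rw [comm_iff_forall]
    intro x hx y hy
    obtain ⟨a, ha, b, hb, rfl⟩ := exists_mul_of_mem_sup_of_le_normalizer hN hx
    obtain ⟨a', ha', b', hb', rfl⟩ := exists_mul_of_mem_sup_of_le_normalizer hN hy
    have h1 : Commute a a' := hAc a ha a' ha'
    have h2 : Commute a b' := hc a ha b' hb'
    have h3 : Commute b a' := (hc a' ha' b hb).symm
    have h4 : Commute b b' := hBc b hb b' hb'
    exact ((h1.mul_right h2).mul_left (h3.mul_right h4)).eq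
  · intro x hx
    obtain ⟨a, ha, b, hb, rfl⟩ := exists_mul_of_mem_sup_of_le_normalizer hN hx
    have h2 : Commute a b := hc a ha b hb
    rw [h2.mul_pow, hA.2 a ha, hB.2 b hb, one_mul]

theorem ea_inf_left {G : Type*} [Group G] {p : ℕ} {A : Subgroup G} (hA : IsElementaryAbelian p A) (B : Subgroup G) :
    IsElementaryAbelian p (A ⊓ B) := by
  have hAc := comm_iff_forall.mp hA.1
  constructor
  · rw [comm_iff_forall]
    intro a ha b hb
    exact hAc a ha.1 b hb.1
  · intro a ha
    exact hA.2 a ha.1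

/-- index of the centralizer of a normal subgroup of order `p ^ 2` -/
theorem card_le_mul_card_inf_centralizer (hP : IsPGroup p P) (E U : Subgroup P) [hU : U.Normal] (hUc : Nat.card U = p ^ 2) :
    Nat.card E ≤ p * Nat.card ↥(E ⊓ Subgroup.centralizer (U : Set P)) := by
  have h1 := Cfsg.Agent.Lib.Transfer.index_centralizer_le hP 2 U hUc
  have h2 : 2 * (2 - 1) / 2 = 1 := rfl
  rw [h2, pow_one] at h1
  haveI : (Subgroup.centralizer (U : Set P)).Normal := Subgroup.normal_centralizer
  have h3 : (Subgroup.centralizer (U : Set P)).relIndex E ∣ (Subgroup.centralizer (U : Set P)).index :=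
    Subgroup.relIndex_dvd_index_of_normal _ _
  have h4 : (Subgroup.centralizer (U : Set P)).relIndex E ≤ p :=
    (Nat.le_of_dvd (Nat.pos_of_ne_zero Subgroup.index_ne_zero_of_finite) h3).trans h1
  have h5 : Nat.card ↥(E ⊓ Subgroup.centralizer (U : Set P)) * (E ⊓ Subgroup.centralizer (U : Set P)).relIndex E = Nat.card E := by
    rw [← Subgroup.relIndex_bot_left (E ⊓ _), ← Subgroup.relIndex_bot_left E]
    exact Subgroup.relIndex_mul_relIndex ⊥ _ _ bot_le inf_le_left
  have h6 : (E ⊓ Subgroup.centralizer (U : Set P)).relIndex E = (Subgroup.centralizer (U : Set P)).relIndex E := by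
    rw [inf_comm, Subgroup.inf_relIndex_right]
  rw [← h5, h6, mul_comm]
  exact Nat.mul_le_mul_right _ h4

theorem p_sq_le_of_lt {G : Type*} [Group G] [Finite G] {p k : ℕ} [Fact p.Prime] {A : Subgroup G} (hA : IsPGroup p A)
    (h : p ^ k < Nat.card A) : p ^ (k + 1) ≤ Nat.card A := by
  obtain ⟨a, ha⟩ := IsPGroup.iff_card.mp hA
  rw [ha] at h ⊢
  have hp : 1 < p := (Fact.out : p.Prime).one_lt
  have : k < a := (Nat.pow_lt_pow_iff_right hp).mp h
  exact Nat.pow_le_pow_right hp.le this

theorem isPGroup_of_ea {G : Type*} [Group G] {p : ℕ} {A : Subgroup G} (hA : IsElementaryAbelian p A) :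
    IsPGroup p A := by
  intro a
  refine ⟨1, ?_⟩
  rw [pow_one]
  apply Subtype.ext
  exact hA.2 _ a.2

/-- A normal `E(p^2)` has centralizer of rank at least three if the group does. -/
theorem rank_centralizer_of_normal (hP : IsPGroup p P) {U E : Subgroup P} [hU : U.Normal]
    (hUe : IsElementaryAbelian p U) (hUc : Nat.card U = p ^ 2) (hE : IsElementaryAbelian p E) (hEc : p ^ 2 < Nat.card E) :
    ¬ PRankLE p 2 (Subgroup.centralizer (U : Set P)) := by
  have hpp : p.Prime := Fact.out
  have hUcomm := comm_iff_forall.mp hUe.1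
  have h1 := card_le_mul_card_inf_centralizer hP E U hUc
  set D := E ⊓ Subgroup.centralizer (U : Set P) with hD
  have hDe : IsElementaryAbelian p D := ea_inf_left hE _
  have hD2 : p ^ 2 ≤ Nat.card D := by
    have h2 : p * p ^ 1 < p * Nat.card D := by
      calc p * p ^ 1 = p ^ 2 := by ring
        _ < Nat.card E := hEc
        _ ≤ _ := h1
    have h3 : p ^ 1 < Nat.card D := Nat.lt_of_mul_lt_mul_left h2
    exact p_sq_le_of_lt (isPGroup_of_ea hDe) h3
  have hDC : ∀ d ∈ D, ∀ u ∈ U, d * u = u * d := by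
    intro d hd u hu
    exact ((Subgroup.mem_centralizer_iff.mp hd.2) u hu).symm
  by_cases hDU : D ≤ U
  · -- `D = U`, hence `U ≤ E`
    have hEq : D = U := Subgroup.eq_of_le_of_card_ge hDU (by rw [hUc]; exact hD2)
    have hUE : U ≤ E := by rw [← hEq]; exact inf_le_left
    apply not_rank_of_le (T := E) ?_ hE hEc
    intro e he
    rw [Subgroup.mem_centralizer_iff]
    intro u hu
    exact (comm_iff_forall.mp hE.1) u (hUE hu) e he
  · obtain ⟨d, hdD, hdU⟩ := SetLike.not_le_iff_exists.mp hDU
    have hsup := ea_sup hUe hDe (fun u hu d hd => (hDC d hd u hu).symm)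
    refine not_rank_of_le (T := U ⊔ D) ?_ hsup ?_
    · rw [sup_le_iff]
      constructor
      · intro u hu
        rw [Subgroup.mem_centralizer_iff]
        intro v hv
        exact hUcomm v hv u hu
      · exact inf_le_right
    · by_contra hle
      push Not at hle
      have h6 : U = U ⊔ D := Subgroup.eq_of_le_of_card_ge le_sup_left (by rw [hUc]; exact hle)
      apply hdU
      rw [h6]
      exact (le_sup_right : D ≤ U ⊔ D) hdD

/-- The connectivity criterion. -/
theorem connected_iff (hP : IsPGroup p P) {U E X : Subgroup P} [hU : U.Normal]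
    (hUe : IsElementaryAbelian p U) (hUc : Nat.card U = p ^ 2) (hE : IsElementaryAbelian p E) (hEc : p ^ 2 < Nat.card E)
    (hXe : IsElementaryAbelian p X) (hXc : p ^ 2 ≤ Nat.card X) :
    Relation.ReflTransGen (fun A B : Subgroup P => IsElementaryAbelian p A ∧ p ^ 2 ≤ Nat.card ↥A ∧ IsElementaryAbelian p B ∧
        p ^ 2 ≤ Nat.card ↥B ∧ ∀ a ∈ A, ∀ b ∈ B, a * b = b * a) X U ↔
      ¬ PRankLE p 2 ↥(Subgroup.centralizer (X : Set P)) := by
  constructor
  · intro h
    clear hXe hXc
    induction h using Relation.ReflTransGen.head_induction_on with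
    | refl => exact rank_centralizer_of_normal hP hUe hUc hE hEc
    | @head A B hab _ ih =>
      obtain ⟨hA, hA2, hB, hB2, hc⟩ := hab
      by_cases hAB : A = B
      · rw [hAB]; exact ih
      · have hsup := ea_sup hA hB hc
        refine not_rank_of_le (T := A ⊔ B) ?_ hsup ?_
        · rw [sup_le_iff]
          constructor
          · intro a ha
            rw [Subgroup.mem_centralizer_iff]
            intro a' ha'
            exact (comm_iff_forall.mp hA.1) a' ha' a ha
          · intro b hb
            rw [Subgroup.mem_centralizer_iff]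
            intro a ha
            exact hc a ha b hb
        · by_contra hle
          push Not at hle
          have h1 : A = A ⊔ B := Subgroup.eq_of_le_of_card_ge le_sup_left (hle.trans hA2)
          have h2 : B = A ⊔ B := Subgroup.eq_of_le_of_card_ge le_sup_right (hle.trans hB2)
          exact hAB (h1.trans h2.symm)
  · intro h
    obtain ⟨T, hTC, hT, hTc⟩ := exists_le_of_not_rank h
    have h1 := card_le_mul_card_inf_centralizer hP T U hUc
    set D := T ⊓ Subgroup.centralizer (U : Set P) with hD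
    have hDe : IsElementaryAbelian p D := ea_inf_left hT _
    have hD2 : p ^ 2 ≤ Nat.card D := by
      have h2 : p * p ^ 1 < p * Nat.card D := by
        calc p * p ^ 1 = p ^ 2 := by ring
          _ < Nat.card T := hTc
          _ ≤ _ := h1
      have h3 : p ^ 1 < Nat.card D := Nat.lt_of_mul_lt_mul_left h2
      exact p_sq_le_of_lt (isPGroup_of_ea hDe) h3
    have hU2 : p ^ 2 ≤ Nat.card U := hUc.ge
    refine Relation.ReflTransGen.head (b := D) ⟨hXe, hXc, hDe, hD2, ?_⟩
      (Relation.ReflTransGen.single ⟨hDe, hD2, hUe, hU2, ?_⟩)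
    · intro a ha b hb
      exact (Subgroup.mem_centralizer_iff.mp (hTC hb.1)) a ha
    · intro a ha b hb
      exact ((Subgroup.mem_centralizer_iff.mp ha.2) b hb).symm

end

end Cfsg.Agent.Lib.Components
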