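import Mathlib

/-!
Elementary facts on `SL₂(F)`, `F` a field of characteristic not two: the unique involution,
the elements of square `-1`, and commuting-mod-centre factorizations.
-/

set_option autoImplicit false
set_option linter.unusedSectionVars false

namespace Cfsg.Agent.Lib.Components.SL2

open Matrix

variable {F : Type*} [Field F]

local notation "SL" => Matrix.SpecialLinearGroup (Fin 2) F

theorem mul_entry (g h : SL) (i j : Fin 2) :
    ((g * h : SL) : Matrix (Fin 2) (Fin 2) F) i j = g i 0 * h 0 j + g i 1 * h 1 j := by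
  simp [Matrix.mul_apply, Fin.sum_univ_two]

theorem det_entry (g : SL) : g 0 0 * g 1 1 - g 0 1 * g 1 0 = 1 := by
  have := g.2
  rwa [Matrix.det_fin_two] at this

theorem ext_entries {g h : SL} (h00 : g 0 0 = h 0 0) (h01 : g 0 1 = h 0 1) (h10 : g 1 0 = h 1 0) (h11 : g 1 1 = h 1 1) :
    g = h := by
  apply Matrix.SpecialLinearGroup.ext
  intro i j
  fin_cases i <;> fin_cases j <;> assumption

/-- the matrix `-1` -/
def mI : SL := ⟨!![-1, 0; 0, -1], by simp [Matrix.det_fin_two_of]⟩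

@[simp] theorem mI_00 : (mI : SL) 0 0 = -1 := rfl
@[simp] theorem mI_01 : (mI : SL) 0 1 = 0 := rfl
@[simp] theorem mI_10 : (mI : SL) 1 0 = 0 := rfl
@[simp] theorem mI_11 : (mI : SL) 1 1 = -1 := rfl

@[simp] theorem one_00 : (1 : SL) 0 0 = 1 := by simp
@[simp] theorem one_01 : (1 : SL) 0 1 = 0 := by simp
@[simp] theorem one_10 : (1 : SL) 1 0 = 0 := by simp
@[simp] theorem one_11 : (1 : SL) 1 1 = 1 := by simp

theorem mI_mul_entry (g : SL) (i j : Fin 2) : ((mI * g : SL) : Matrix (Fin 2) (Fin 2) F) i j = - g i j := by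
  rw [mul_entry]
  fin_cases i <;> simp

theorem mul_mI_entry (g : SL) (i j : Fin 2) : ((g * mI : SL) : Matrix (Fin 2) (Fin 2) F) i j = - g i j := by
  rw [mul_entry]
  fin_cases j <;> simp

theorem mI_comm (g : SL) : mI * g = g * mI := by
  apply Matrix.SpecialLinearGroup.ext
  intro i j
  rw [mI_mul_entry, mul_mI_entry]

theorem mI_mul_mI : (mI : SL) * mI = 1 := by
  apply ext_entries <;> simp [mI_mul_entry]

theorem mI_ne_one (h2 : (2 : F) ≠ 0) : (mI : SL) ≠ 1 := by
  intro h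
  have h1 : (mI : SL) 0 0 = (1 : SL) 0 0 := by rw [h]
  simp only [mI_00, one_00] at h1
  apply h2
  linear_combination -h1

/-- An element of square one is `1` or `-1`. -/
theorem eq_or_of_mul_self (h2 : (2 : F) ≠ 0) (g : SL) (hg : g * g = 1) : g = 1 ∨ g = mI := by
  have e00 : g 0 0 * g 0 0 + g 0 1 * g 1 0 = 1 := by
    have := congrArg (fun x : SL => x 0 0) hg
    simpa only [mul_entry, one_00] using this
  have e01 : g 0 0 * g 0 1 + g 0 1 * g 1 1 = 0 := by
    have := congrArg (fun x : SL => x 0 1) hg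
    simpa only [mul_entry, one_01] using this
  have e10 : g 1 0 * g 0 0 + g 1 1 * g 1 0 = 0 := by
    have := congrArg (fun x : SL => x 1 0) hg
    simpa only [mul_entry, one_10] using this
  have e11 : g 1 0 * g 0 1 + g 1 1 * g 1 1 = 1 := by
    have := congrArg (fun x : SL => x 1 1) hg
    simpa only [mul_entry, one_11] using this
  have hdet := det_entry g
  by_cases ht : g 0 0 + g 1 1 = 0
  · exfalso
    apply h2
    have h3 : g 1 1 = - g 0 0 := by linear_combination ht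
    rw [h3] at hdet
    linear_combination -e00 - hdet
  · have h01 : g 0 1 = 0 := by
      have : g 0 1 * (g 0 0 + g 1 1) = 0 := by linear_combination e01
      exact (mul_eq_zero.1 this).resolve_right ht
    have h10 : g 1 0 = 0 := by
      have : g 1 0 * (g 0 0 + g 1 1) = 0 := by linear_combination e10
      exact (mul_eq_zero.1 this).resolve_right ht
    rw [h01] at hdet e00 e11
    have h3 : (g 0 0 - 1) * (g 0 0 + 1) = 0 := by linear_combination e00
    have h4 : g 1 1 = g 0 0 := by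
      have h5 : g 0 0 * (g 1 1 - g 0 0) = 0 := by linear_combination hdet - e00
      have h6 : g 0 0 ≠ 0 := by
        intro h
        rw [h] at e00
        simp at e00
      exact ((mul_eq_zero.1 h5).resolve_left h6 |> sub_eq_zero.1)
    rcases mul_eq_zero.1 h3 with h5 | h5
    · left
      have h6 : g 0 0 = 1 := sub_eq_zero.1 h5
      exact ext_entries (by simp [h6]) (by simp [h01]) (by simp [h10]) (by simp [h4, h6])
    · right
      have h6 : g 0 0 = -1 := by linear_combination h5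
      exact ext_entries (by simp [h6]) (by simp [h01]) (by simp [h10]) (by simp [h4, h6])

/-- the standard element of square `-1` -/
def w0 : SL := ⟨!![0, -1; 1, 0], by simp [Matrix.det_fin_two_of]⟩

@[simp] theorem w0_00 : (w0 : SL) 0 0 = 0 := rfl
@[simp] theorem w0_01 : (w0 : SL) 0 1 = -1 := rfl
@[simp] theorem w0_10 : (w0 : SL) 1 0 = 1 := rfl
@[simp] theorem w0_11 : (w0 : SL) 1 1 = 0 := rfl

theorem w0_sq : (w0 : SL) * w0 = mI := by
  apply ext_entries <;> simp [mul_entry]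

theorem exists_sum_sq [Fintype F] (hF : Odd (Fintype.card F)) (x : F) : ∃ a b : F, a ^ 2 + b ^ 2 = x := by
  classical
  have hodd : Fintype.card F % 2 = 1 := Nat.odd_iff.1 hF
  obtain ⟨a, b, hab⟩ := FiniteField.exists_root_sum_quadratic (R := F)
    (f := Polynomial.X ^ 2) (g := Polynomial.X ^ 2 - Polynomial.C x)
    (Polynomial.degree_X_pow 2) (Polynomial.degree_X_pow_sub_C (by decide) _) hodd
  refine ⟨a, b, ?_⟩
  simp only [Polynomial.eval_pow, Polynomial.eval_X, Polynomial.eval_sub, Polynomial.eval_C] at hab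
  linear_combination hab

/-- Every element of square `-1` is conjugate to `w0`. -/
theorem exists_conj_w0 [Fintype F] (hF : Odd (Fintype.card F)) (h2 : (2 : F) ≠ 0) (g : SL) (hg : g * g = mI) :
    ∃ c : SL, g * c = c * w0 := by
  have e00 : g 0 0 * g 0 0 + g 0 1 * g 1 0 = -1 := by
    have := congrArg (fun x : SL => x 0 0) hg
    simpa only [mul_entry, mI_00] using this
  have e01 : g 0 0 * g 0 1 + g 0 1 * g 1 1 = 0 := by
    have := congrArg (fun x : SL => x 0 1) hg
    simpa only [mul_entry, mI_01] using this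
  have e10 : g 1 0 * g 0 0 + g 1 1 * g 1 0 = 0 := by
    have := congrArg (fun x : SL => x 1 0) hg
    simpa only [mul_entry, mI_10] using this
  have e11 : g 1 0 * g 0 1 + g 1 1 * g 1 1 = -1 := by
    have := congrArg (fun x : SL => x 1 1) hg
    simpa only [mul_entry, mI_11] using this
  have hdet := det_entry g
  -- the trace vanishes
  have ht : g 1 1 = - g 0 0 := by
    by_contra hne
    have ht : g 0 0 + g 1 1 ≠ 0 := fun h => hne (by linear_combination h)
    have h01 : g 0 1 = 0 := by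
      have : g 0 1 * (g 0 0 + g 1 1) = 0 := by linear_combination e01
      exact (mul_eq_zero.1 this).resolve_right ht
    have h10 : g 1 0 = 0 := by
      have : g 1 0 * (g 0 0 + g 1 1) = 0 := by linear_combination e10
      exact (mul_eq_zero.1 this).resolve_right ht
    rw [h01] at hdet e00 e11
    have h3 : (g 0 0 - g 1 1) * (g 0 0 + g 1 1) = 0 := by linear_combination e00 - e11
    have h4 : g 0 0 - g 1 1 = 0 := (mul_eq_zero.1 h3).resolve_right ht
    have h5 : g 0 0 = g 1 1 := sub_eq_zero.1 h4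
    apply h2
    rw [← h5] at hdet
    linear_combination e00 - hdet
  obtain ⟨p, hp⟩ : ∃ p, p = g 0 0 := ⟨_, rfl⟩
  obtain ⟨q, hq⟩ : ∃ q, q = g 0 1 := ⟨_, rfl⟩
  obtain ⟨r, hr⟩ : ∃ r, r = g 1 0 := ⟨_, rfl⟩
  have hpq : p * p + q * r = -1 := by rw [hp, hq, hr]; exact e00
  -- the matrix with columns v, gv
  have hex : ∃ v₁ v₂ : F, r * v₁ * v₁ - 2 * p * v₁ * v₂ - q * v₂ * v₂ ≠ 0 := by
    by_cases hr0 : r = 0
    · by_cases hq0 : q = 0
      · refine ⟨1, 1, ?_⟩
        have hp0 : p ≠ 0 := by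
          intro h
          have h3 : (0 : F) = -1 := by simpa [h, hr0] using hpq
          have h4 : (1 : F) = 0 := by linear_combination h3
          exact one_ne_zero h4
        rw [hr0, hq0]
        simp only [zero_mul, sub_zero, zero_sub, mul_one, neg_ne_zero]
        intro h
        exact (mul_eq_zero.1 h).elim h2 hp0
      · refine ⟨0, 1, ?_⟩
        simpa using hq0
    · refine ⟨1, 0, ?_⟩
      simpa using hr0
  obtain ⟨v₁, v₂, hD⟩ := hex
  obtain ⟨D, hDdef⟩ : ∃ D, D = r * v₁ * v₁ - 2 * p * v₁ * v₂ - q * v₂ * v₂ := ⟨_, rfl⟩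
  rw [← hDdef] at hD
  obtain ⟨α, β, hαβ⟩ := exists_sum_sq hF D⁻¹
  -- the matrix c = [v, gv] * [[α, -β], [β, α]]
  have hc : ∃ c : SL, c 0 0 = v₁ * α + (p * v₁ + q * v₂) * β ∧ c 0 1 = - v₁ * β + (p * v₁ + q * v₂) * α ∧
      c 1 0 = v₂ * α + (r * v₁ - p * v₂) * β ∧ c 1 1 = - v₂ * β + (r * v₁ - p * v₂) * α := by
    refine ⟨⟨!![v₁ * α + (p * v₁ + q * v₂) * β, - v₁ * β + (p * v₁ + q * v₂) * α;
      v₂ * α + (r * v₁ - p * v₂) * β, - v₂ * β + (r * v₁ - p * v₂) * α], ?_⟩, rfl, rfl, rfl, rfl⟩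
    rw [Matrix.det_fin_two_of]
    have h1 : D * (α ^ 2 + β ^ 2) = 1 := by
      rw [hαβ]; exact mul_inv_cancel₀ hD
    rw [← h1, hDdef]
    ring
  obtain ⟨c, c00, c01, c10, c11⟩ := hc
  refine ⟨c, ?_⟩
  have g11 : g 1 1 = - p := by rw [ht, hp]
  apply ext_entries
  · rw [mul_entry, mul_entry, ← hp, ← hq, c00, c10]
    simp only [w0_00, w0_10, mul_zero, mul_one, zero_add, c01]
    linear_combination v₁ * β * hpq
  · rw [mul_entry, mul_entry, ← hp, ← hq, c01, c11]
    simp only [w0_01, w0_11, mul_zero, add_zero, c00]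
    linear_combination v₁ * α * hpq
  · rw [mul_entry, mul_entry, g11, ← hr, c00, c10]
    simp only [w0_00, w0_10, mul_zero, mul_one, zero_add, c11]
    linear_combination v₂ * β * hpq
  · rw [mul_entry, mul_entry, g11, ← hr, c01, c11]
    simp only [w0_01, w0_11, mul_zero, add_zero, c10]
    linear_combination v₂ * α * hpq

/-- Any two elements of square `-1` are conjugate. -/
theorem exists_conj_of_sq [Fintype F] (hF : Odd (Fintype.card F)) (h2 : (2 : F) ≠ 0) (g h : SL)
    (hg : g * g = mI) (hh : h * h = mI) : ∃ c : SL, c * g * c⁻¹ = h := by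
  obtain ⟨c₁, h1⟩ := exists_conj_w0 hF h2 g hg
  obtain ⟨c₂, h3⟩ := exists_conj_w0 hF h2 h hh
  refine ⟨c₂ * c₁⁻¹, ?_⟩
  have h4 : c₁⁻¹ * g * c₁ = w0 := by
    rw [mul_assoc, h1]; group
  have h5 : c₂ * w0 * c₂⁻¹ = h := by
    rw [← h3]; group
  rw [← h5, ← h4]; group

/-- the shape of the unipotent-by-centre elements -/
def IsU (a : SL) : Prop := a 1 0 = 0 ∧ a 0 0 = a 1 1

/-- Key lemma: something commuting up to sign with a nontrivial unipotent-by-centre element is
unipotent-by-centre. -/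
theorem isU_of_comm (h2 : (2 : F) ≠ 0) {x c : SL} (hx : IsU x) (hx1 : x 0 1 ≠ 0)
    (h : c * x = x * c ∨ c * x = mI * (x * c)) : IsU c := by
  obtain ⟨h10, h00⟩ := hx
  have hdet := det_entry x
  rw [h10, ← h00] at hdet
  have hα : x 0 0 ≠ 0 := by
    intro h3
    rw [h3] at hdet
    simp at hdet
  rcases h with h | h
  · have e00 := congrArg (fun y : SL => y 0 0) h
    have e01 := congrArg (fun y : SL => y 0 1) h
    simp only [mul_entry, h10, ← h00] at e00 e01
    have h3 : c 1 0 = 0 := by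
      have : x 0 1 * c 1 0 = 0 := by linear_combination -e00
      exact (mul_eq_zero.1 this).resolve_left hx1
    refine ⟨h3, ?_⟩
    have : x 0 1 * (c 0 0 - c 1 1) = 0 := by linear_combination e01
    exact sub_eq_zero.1 ((mul_eq_zero.1 this).resolve_left hx1)
  · exfalso
    have e00 := congrArg (fun y : SL => y 0 0) h
    have e10 := congrArg (fun y : SL => y 1 0) h
    have e11 := congrArg (fun y : SL => y 1 1) h
    simp only [mI_mul_entry] at e00 e10 e11
    simp only [mul_entry, h10, ← h00] at e00 e10 e11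
    have h3 : c 1 0 = 0 := by
      have : (2 * x 0 0) * c 1 0 = 0 := by linear_combination e10
      exact (mul_eq_zero.1 this).resolve_left (mul_ne_zero h2 hα)
    have h4 : c 0 0 = 0 := by
      have : (2 * x 0 0) * c 0 0 = 0 := by rw [h3] at e00; linear_combination e00
      exact (mul_eq_zero.1 this).resolve_left (mul_ne_zero h2 hα)
    have h5 : c 1 1 = 0 := by
      have : (2 * x 0 0) * c 1 1 = 0 := by rw [h3] at e11; linear_combination e11
      exact (mul_eq_zero.1 this).resolve_left (mul_ne_zero h2 hα)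
    have h6 := det_entry c
    rw [h3, h4] at h6
    simp at h6

theorem isU_mul {a b : SL} (ha : IsU a) (hb : IsU b) : IsU (a * b) := by
  constructor
  · simp only [mul_entry, ha.1, hb.1, zero_mul, mul_zero, add_zero]
  · simp only [mul_entry, ha.1, hb.1, zero_mul, mul_zero, add_zero, zero_add]
    rw [ha.2, hb.2]

theorem eq_or_of_isU (h2 : (2 : F) ≠ 0) {a : SL} (ha : IsU a) (h01 : a 0 1 = 0) : a = 1 ∨ a = mI := by
  apply eq_or_of_mul_self h2
  have hdet := det_entry a
  rw [h01, ← ha.2] at hdet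
  apply ext_entries
  · simp only [mul_entry, h01, ha.1, one_00]; linear_combination hdet
  · simp only [mul_entry, h01, one_01]; ring
  · simp only [mul_entry, ha.1, one_10]; ring
  · simp only [mul_entry, h01, ha.1, one_11]; rw [← ha.2]; linear_combination hdet

/-- A factorization of `SL₂(F)` as a product of two subgroups commuting up to the centre is trivial. -/
theorem factor_central (h2 : (2 : F) ≠ 0) (A B : Subgroup SL) (hAB : ∀ g : SL, ∃ a ∈ A, ∃ b ∈ B, g = a * b)
    (hc : ∀ a ∈ A, ∀ b ∈ B, a * b = b * a ∨ a * b = mI * (b * a)) :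
    (∀ a ∈ A, a = 1 ∨ a = mI) ∨ (∀ b ∈ B, b = 1 ∨ b = mI) := by
  have hc' : ∀ a ∈ A, ∀ b ∈ B, b * a = a * b ∨ b * a = mI * (a * b) := by
    intro a ha b hb
    rcases hc a ha b hb with h | h
    · exact Or.inl h.symm
    · right
      rw [h, ← mul_assoc, mI_mul_mI, one_mul]
  obtain ⟨u, hu⟩ : ∃ u : SL, (u : Matrix (Fin 2) (Fin 2) F) = !![1, 1; 0, 1] :=
    ⟨⟨!![1, 1; 0, 1], by simp [Matrix.det_fin_two_of]⟩, rfl⟩
  obtain ⟨l, hl⟩ : ∃ l : SL, (l : Matrix (Fin 2) (Fin 2) F) = !![1, 0; 1, 1] :=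
    ⟨⟨!![1, 0; 1, 1], by simp [Matrix.det_fin_two_of]⟩, rfl⟩
  have hu00 : u 0 0 = 1 := by rw [hu]; rfl
  have hu01 : u 0 1 = 1 := by rw [hu]; rfl
  have hu10 : u 1 0 = 0 := by rw [hu]; rfl
  have hu11 : u 1 1 = 1 := by rw [hu]; rfl
  have hl10 : l 1 0 = 1 := by rw [hl]; rfl
  have hnot : ∀ a ∈ A, ∀ b ∈ B, IsU a → IsU b → a * b ≠ l := by
    intro a _ b _ ha hb h
    have h3 := (isU_mul ha hb).1
    rw [h, hl10] at h3
    exact one_ne_zero h3
  obtain ⟨a₀, ha₀, b₀, hb₀, huab⟩ := hAB u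
  have hU : IsU u := ⟨hu10, by rw [hu00, hu11]⟩
  have hu' : a₀ * b₀ = u := huab.symm
  have hdh : a₀ * (a₀ * b₀) = (a₀ * b₀) * a₀ ∨ a₀ * (a₀ * b₀) = mI * ((a₀ * b₀) * a₀) := by
    rcases hc a₀ ha₀ b₀ hb₀ with h | h
    · left
      rw [mul_assoc a₀ b₀ a₀, ← h]
    · right
      rw [mul_assoc a₀ b₀ a₀, h, ← mul_assoc a₀ mI, ← mI_comm, mul_assoc]
  have hdh2 : b₀ * (a₀ * b₀) = (a₀ * b₀) * b₀ ∨ b₀ * (a₀ * b₀) = mI * ((a₀ * b₀) * b₀) := by
    rcases hc' a₀ ha₀ b₀ hb₀ with h | h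
    · left
      rw [← mul_assoc, h]
    · right
      rw [← mul_assoc, h, mul_assoc mI]
  rw [hu'] at hdh hdh2
  have ha₀U : IsU a₀ := isU_of_comm h2 hU (by rw [hu01]; exact one_ne_zero) hdh
  have hb₀U : IsU b₀ := isU_of_comm h2 hU (by rw [hu01]; exact one_ne_zero) hdh2
  have hne : a₀ 0 1 ≠ 0 ∨ b₀ 0 1 ≠ 0 := by
    by_contra hcon
    push Not at hcon
    have h3 := congrArg (fun y : SL => y 0 1) hu'
    simp only [mul_entry, hcon.1, hcon.2, mul_zero, zero_mul, add_zero, hu01] at h3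
    exact one_ne_zero h3.symm
  rcases hne with hne | hne
  · right
    have hBU : ∀ b ∈ B, IsU b := fun b hb => isU_of_comm h2 ha₀U hne (hc' a₀ ha₀ b hb)
    intro b₁ hb₁
    by_contra hcon
    have hb₁01 : b₁ 0 1 ≠ 0 := fun h => hcon (eq_or_of_isU h2 (hBU b₁ hb₁) h)
    have hAU : ∀ a ∈ A, IsU a := fun a ha => isU_of_comm h2 (hBU b₁ hb₁) hb₁01 (hc a ha b₁ hb₁)
    obtain ⟨a, ha, b, hb, hab⟩ := hAB l
    exact hnot a ha b hb (hAU a ha) (hBU b hb) hab.symm
  · left
    have hAU : ∀ a ∈ A, IsU a := fun a ha => isU_of_comm h2 hb₀U hne (hc a ha b₀ hb₀)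
    intro a₁ ha₁
    by_contra hcon
    have ha₁01 : a₁ 0 1 ≠ 0 := fun h => hcon (eq_or_of_isU h2 (hAU a₁ ha₁) h)
    have hBU : ∀ b ∈ B, IsU b := fun b hb => isU_of_comm h2 (hAU a₁ ha₁) ha₁01 (hc' a₁ ha₁ b hb)
    obtain ⟨a, ha, b, hb, hab⟩ := hAB l
    exact hnot a ha b hb (hAU a ha) (hBU b hb) hab.symm

section side

open Subgroup
variable {G : Type*} [Group G] {F : Type*} [Field F] [Fintype F]

theorem two_ne_zero_of_odd (hF : Odd (Fintype.card F)) : (2 : F) ≠ 0 := by
  intro h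
  have h3 : ringChar F = 2 := CharP.ringChar_of_prime_eq_zero Nat.prime_two (by exact_mod_cast h)
  have h4 := FiniteField.even_card_of_char_two h3
  obtain ⟨k, hk⟩ := hF
  omega

theorem side_a (hF : Odd (Fintype.card F)) (L : Subgroup G) (e : ↥L ≃* Matrix.SpecialLinearGroup (Fin 2) F)
    (j : G) (hjL : j ∈ L) (hj : orderOf j = 2) : e ⟨j, hjL⟩ = mI := by
  have h2 := two_ne_zero_of_odd hF
  have hjj : (⟨j, hjL⟩ : L) * ⟨j, hjL⟩ = 1 := by
    apply Subtype.ext
    change j * j = 1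
    rw [← pow_two, ← hj]; exact pow_orderOf_eq_one j
  have h3 : e ⟨j, hjL⟩ * e ⟨j, hjL⟩ = 1 := by rw [← map_mul, hjj, map_one]
  rcases eq_or_of_mul_self h2 _ h3 with h | h
  · exfalso
    have h4 : (⟨j, hjL⟩ : L) = 1 := e.injective (by rw [h, map_one])
    have h5 : j = 1 := congrArg Subtype.val h4
    rw [h5, orderOf_one] at hj
    omega
  · exact h

theorem side_b (hF : Odd (Fintype.card F)) (L : Subgroup G) (e : ↥L ≃* Matrix.SpecialLinearGroup (Fin 2) F)
    (j : G) (hjL : j ∈ L) (hj : orderOf j = 2) (x : G) (hx : x ∈ L) (hxx : x * x = 1) : x = 1 ∨ x = j := by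
  have h2 := two_ne_zero_of_odd hF
  have h3 : e ⟨x, hx⟩ * e ⟨x, hx⟩ = 1 := by
    rw [← map_mul]
    have : (⟨x, hx⟩ : L) * ⟨x, hx⟩ = 1 := Subtype.ext hxx
    rw [this, map_one]
  rcases eq_or_of_mul_self h2 _ h3 with h | h
  · left
    have h4 : (⟨x, hx⟩ : L) = 1 := e.injective (by rw [h, map_one])
    exact congrArg Subtype.val h4
  · right
    have h4 : (⟨x, hx⟩ : L) = ⟨j, hjL⟩ := e.injective (by rw [h, side_a hF L e j hjL hj])
    exact congrArg Subtype.val h4

theorem side_c (hF : Odd (Fintype.card F)) (L : Subgroup G) (e : ↥L ≃* Matrix.SpecialLinearGroup (Fin 2) F)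
    (j : G) (hjL : j ∈ L) (hj : orderOf j = 2) : ∃ l ∈ L, l * l = j := by
  refine ⟨(e.symm w0 : L), (e.symm w0).2, ?_⟩
  have h3 : e.symm w0 * e.symm w0 = ⟨j, hjL⟩ := by
    apply e.injective
    rw [map_mul, e.apply_symm_apply, w0_sq, side_a hF L e j hjL hj]
  exact congrArg Subtype.val h3

theorem side_d (hF : Odd (Fintype.card F)) (L : Subgroup G) (e : ↥L ≃* Matrix.SpecialLinearGroup (Fin 2) F)
    (j : G) (hjL : j ∈ L) (hj : orderOf j = 2) (l l' : G) (hl : l ∈ L) (hl' : l' ∈ L) (h1 : l * l = j) (h3 : l' * l' = j) :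
    ∃ c ∈ L, c * l * c⁻¹ = l' := by
  have h2 := two_ne_zero_of_odd hF
  have h4 : e ⟨l, hl⟩ * e ⟨l, hl⟩ = mI := by
    rw [← map_mul, ← side_a hF L e j hjL hj]
    congr 1
    exact Subtype.ext h1
  have h5 : e ⟨l', hl'⟩ * e ⟨l', hl'⟩ = mI := by
    rw [← map_mul, ← side_a hF L e j hjL hj]
    congr 1
    exact Subtype.ext h3
  obtain ⟨c, hc⟩ := exists_conj_of_sq hF h2 _ _ h4 h5
  refine ⟨(e.symm c : L), (e.symm c).2, ?_⟩
  have h6 : e.symm c * ⟨l, hl⟩ * (e.symm c)⁻¹ = ⟨l', hl'⟩ := by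
    apply e.injective
    rw [map_mul, map_mul, map_inv, e.apply_symm_apply, hc]
  exact congrArg Subtype.val h6

theorem mem_zpowers_invol {j z : G} (hj : orderOf j = 2) (hz : z ∈ zpowers j) : z = 1 ∨ z = j := by
  obtain ⟨k, rfl⟩ := mem_zpowers_iff.1 hz
  have hjj : j ^ 2 = 1 := by rw [← hj]; exact pow_orderOf_eq_one j
  rcases Int.even_or_odd' k with ⟨m, rfl | rfl⟩
  · left
    rw [_root_.zpow_mul]
    have : j ^ (2 : ℤ) = 1 := by exact_mod_cast hjj
    rw [this, _root_.one_zpow]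
  · right
    rw [_root_.zpow_add, _root_.zpow_mul]
    have : j ^ (2 : ℤ) = 1 := by exact_mod_cast hjj
    rw [this, _root_.one_zpow]; simp

end side

end Cfsg.Agent.Lib.Components.SL2
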