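import Mathlib
import Cfsg.Agent.Lib.Components.SU3
import Cfsg.Agent.Lib.Basic.Core
import Cfsg.Prelude.Def_Transfer

/-!
# The automorphism group of a Sylow `2`-subgroup of `SU₃(2ⁿ)`
-/

set_option autoImplicit false
set_option linter.unusedSimpArgs false
set_option linter.unusedVariables false
set_option linter.unusedSectionVars false
set_option linter.style.haveILetI false

namespace Cfsg.Agent.Lib.Components.SU3

open Cfsg Cfsg.Agent.Lib.Classical Cfsg.Agent.Lib.Basic

section field

variable {F : Type*} [Field F] [Fintype F] {q : ℕ}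

/-- Semisimilarities of the norm form normalized at `1` are ring endomorphisms. -/
theorem semi_ring (hF : Fintype.card F = q ^ 2) (h2 : (2 : F) = 0)
    (A B : F → F) (hA : ∀ x y, A (x + y) = A x + A y) (hA1 : A 1 = 1)
    (hAs : Function.Surjective A)
    (hB : ∀ x y, x ^ q = x → y ^ q = y → B (x + y) = B x + B y)
    (hN : ∀ x, A x ^ (q + 1) = B (x ^ (q + 1))) (x y : F) : A (x * y) = A x * A y := by
  have hq2 : 2 ≤ q := two_le_q hF
  have hq0 : q ≠ 0 := by omega
  have hB1 : B 1 = 1 := by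
    have := hN 1
    rw [hA1, one_pow] at this
    exact this.symm
  have hNadd : ∀ a b : F, (a + b) ^ (q + 1) = a ^ (q + 1) + b ^ (q + 1) + (a * b ^ q + b * a ^ q) := by
    intro a b
    rw [pow_succ (a + b) q, add_pow_q hF, pow_succ a q, pow_succ b q]
    ring
  have hf_fix : ∀ a b : F, (a * b ^ q + b * a ^ q) ^ q = a * b ^ q + b * a ^ q := by
    intro a b
    rw [add_pow_q hF, mul_pow, mul_pow, pow_q_pow_q hF, pow_q_pow_q hF]
    ring
  have hA0 : A 0 = 0 := by
    have h := hA 0 0
    rw [add_zero] at h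
    linear_combination -h
  have hB0 : B 0 = 0 := by
    have h := hB 0 0 (zero_pow hq0) (zero_pow hq0)
    rw [add_zero] at h
    linear_combination -h
  -- the polar form
  have hpolar : ∀ a b : F, A a * A b ^ q + A b * A a ^ q = B (a * b ^ q + b * a ^ q) := by
    intro a b
    have h1 := hN (a + b)
    rw [hA, hNadd, hNadd, hB _ _ (by
        rw [add_pow_q hF, norm_pow_fixed hF, norm_pow_fixed hF]) (hf_fix a b),
      hB _ _ (norm_pow_fixed hF a) (norm_pow_fixed hF b), ← hN, ← hN] at h1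
    linear_combination h1
  have htr : ∀ a : F, A a + A a ^ q = B (a + a ^ q) := by
    intro a
    have h1 := hpolar a 1
    rw [hA1, one_pow, mul_one, one_mul, mul_one, one_mul] at h1
    exact h1
  have hAq : ∀ z : F, z ^ q = z → A z ^ q = A z := by
    intro z hz
    have h1 := htr z
    rw [hz] at h1
    have h3 : z + z = 0 := by linear_combination z * h2
    rw [h3, hB0] at h1
    linear_combination h1 - (A z) * h2
  have hBz : ∀ z t : F, z ^ q = z → t ^ q = t → B (z * t) = A z * B t := by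
    intro z t hz ht
    obtain ⟨a, ha⟩ := exists_trace_eq' hF t ht
    have h1 := hpolar a z
    rw [hAq z hz, hz] at h1
    have h3 : a * z + z * a ^ q = z * t := by
      rw [← ha]
      ring
    rw [h3] at h1
    rw [← h1, ← ha, ← htr a]
    ring
  have hBA : ∀ z : F, z ^ q = z → B z = A z := by
    intro z hz
    have h1 := hBz z 1 hz (one_pow _)
    rw [mul_one, hB1, mul_one] at h1
    exact h1
  have hAmulq : ∀ z t : F, z ^ q = z → t ^ q = t → A (z * t) = A z * A t := by
    intro z t hz ht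
    have hzt : (z * t) ^ q = z * t := by rw [mul_pow, hz, ht]
    rw [← hBA _ hzt, hBz z t hz ht, hBA t ht]
  -- semilinearity
  have hsemi : ∀ z w : F, z ^ q = z → A (z * w) = A z * A w := by
    intro z w hz
    by_contra hne
    have hv : A (z * w) - A z * A w ≠ 0 := sub_ne_zero.mpr hne
    obtain ⟨v, hvdef⟩ : ∃ v, v = A (z * w) - A z * A w := ⟨_, rfl⟩
    rw [← hvdef] at hv
    obtain ⟨t, ht⟩ := exists_trace_eq' hF (1 : F) (one_pow _)
    obtain ⟨u, hu⟩ := hAs ((t / v) ^ q)
    have h1 := hpolar (z * w) u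
    have h3 : z * w * u ^ q + u * (z * w) ^ q = z * (w * u ^ q + u * w ^ q) := by
      rw [mul_pow, hz]
      ring
    rw [h3, hBz z _ hz (hf_fix w u), ← hpolar w u] at h1
    have h4 : A (z * w) = v + A z * A w := by
      rw [hvdef]
      ring
    rw [h4, hu, add_pow_q hF, mul_pow, hAq z hz, pow_q_pow_q hF] at h1
    have h5 : v * (t / v) = t := by
      field_simp
    have h6 : (t / v) ^ q * v ^ q = t ^ q := by
      rw [← mul_pow, div_mul_cancel₀ _ hv]
    have h7 : (1 : F) = 0 := by
      rw [← ht]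
      have h9 : v * (t / v) + (t / v) ^ q * v ^ q = 0 := by
        linear_combination h1
      rw [h5, h6] at h9
      exact h9
    exact one_ne_zero h7
  -- the basis
  obtain ⟨e, he⟩ := exists_trace_eq' hF (1 : F) (one_pow _)
  have heq : e ^ q = 1 + e := by linear_combination he - e * h2
  obtain ⟨d, hd⟩ : ∃ d, d = e ^ (q + 1) := ⟨_, rfl⟩
  have hdq : d ^ q = d := by
    rw [hd]
    exact norm_pow_fixed hF e
  have hee : e * e = e + d := by
    rw [hd, pow_succ', heq]
    linear_combination (-e) * h2 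
  have hE : A e + A e ^ q = 1 := by
    rw [htr, he, hB1]
  have hEq : A e ^ q = 1 + A e := by linear_combination hE - (A e) * h2
  have hEE : A e * A e = A e + A d := by
    have h1 := hN e
    rw [← hd, hBA d hdq, pow_succ', hEq] at h1
    linear_combination h1 - (A e) * h2
  -- decomposition
  have hdec : ∀ a : F, ∃ r s : F, r ^ q = r ∧ s ^ q = s ∧ a = r + s * e := by
    intro a
    refine ⟨a + (a + a ^ q) * e, a + a ^ q, ?_, ?_, ?_⟩
    · rw [add_pow_q hF, mul_pow, add_pow_q hF, pow_q_pow_q hF, heq]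
      linear_combination (a ^ q) * h2
    · rw [add_pow_q hF, pow_q_pow_q hF]
      ring
    · linear_combination ((a + a ^ q) * e) * (-h2)
  obtain ⟨r, s, hr, hs, rfl⟩ := hdec x
  obtain ⟨r', s', hr', hs', rfl⟩ := hdec y
  have hfix1 : (r * r') ^ q = r * r' := by rw [mul_pow, hr, hr']
  have hfix2 : (s * s' * d) ^ q = s * s' * d := by rw [mul_pow, mul_pow, hs, hs', hdq]
  have hfix3 : (r * s' + r' * s + s * s') ^ q = r * s' + r' * s + s * s' := by
    rw [add_pow_q hF, add_pow_q hF, mul_pow, mul_pow, mul_pow, hr, hr', hs, hs']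
  have hprod : (r + s * e) * (r' + s' * e) = r * r' + s * s' * d + (r * s' + r' * s + s * s') * e := by
    linear_combination (s * s') * hee
  have e1 : A (r * r' + s * s' * d + (r * s' + r' * s + s * s') * e) =
      A r * A r' + A s * A s' * A d + (A r * A s' + A r' * A s + A s * A s') * A e := by
    rw [hA, hA, hsemi _ _ hfix3, hA, hA, hAmulq r r' hr hr',
      hAmulq (s * s') d (by rw [mul_pow, hs, hs']) hdq, hAmulq s s' hs hs', hAmulq r s' hr hs',
      hAmulq r' s hr' hs]
  have e2 : A (r + s * e) = A r + A s * A e := by rw [hA, hsemi _ _ hs]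
  have e3 : A (r' + s' * e) = A r' + A s' * A e := by rw [hA, hsemi _ _ hs']
  rw [hprod, e1, e2, e3]
  linear_combination (-(A s * A s')) * hEE

theorem zmod2_cases : ∀ r : ZMod 2, r = 0 ∨ r = 1 := by decide

/-- Bijective ring maps are powers of the Frobenius. -/
theorem frob_classify {m : ℕ} (hm : Fintype.card F = 2 ^ m) (h2 : (2 : F) = 0) (A : F → F)
    (hA : ∀ x y, A (x + y) = A x + A y) (hA1 : A 1 = 1) (hAm : ∀ x y, A (x * y) = A x * A y)
    (hAb : Function.Bijective A) : ∃ k, k < m ∧ ∀ x, A x = x ^ (2 ^ k) := by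
  classical
  haveI : Fact (Nat.Prime 2) := ⟨Nat.prime_two⟩
  haveI : CharP F 2 := CharTwo.of_one_ne_zero_of_two_eq_zero one_ne_zero h2
  letI : Algebra (ZMod 2) F := ZMod.algebra F 2
  have hfr : Module.finrank (ZMod 2) F = m := by
    have h1 := Module.card_eq_pow_finrank (K := ZMod 2) (V := F)
    rw [hm, ZMod.card] at h1
    exact (Nat.pow_right_injective (le_refl 2) h1).symm
  have hA0 : A 0 = 0 := by
    have h := hA 0 0
    rw [add_zero] at h
    linear_combination -h
  let τ₀ : F →ₐ[ZMod 2] F :=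
    { toFun := A
      map_one' := hA1
      map_mul' := hAm
      map_zero' := hA0
      map_add' := hA
      commutes' := fun r => by
        rcases zmod2_cases r with rfl | rfl
        · simp [hA0]
        · simp [hA1] }
  let τ : F ≃ₐ[ZMod 2] F := AlgEquiv.ofBijective τ₀ hAb
  obtain ⟨⟨k, hk⟩, hτ⟩ := (FiniteField.bijective_frobeniusAlgEquivOfAlgebraic_pow (ZMod 2) F).2 τ
  refine ⟨k, by rwa [hfr] at hk, fun x => ?_⟩
  have h1 : τ x = A x := rfl
  rw [← h1, ← hτ]
  simp only
  rw [AlgEquiv.coe_pow, FiniteField.coe_frobeniusAlgEquivOfAlgebraic_iterate, ZMod.card]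

theorem frob_inj {m : ℕ} (hm : Fintype.card F = 2 ^ m) (h2 : (2 : F) = 0) {k l : ℕ} (hk : k < m) (hl : l < m)
    (h : ∀ x : F, x ^ (2 ^ k) = x ^ (2 ^ l)) : k = l := by
  classical
  haveI : Fact (Nat.Prime 2) := ⟨Nat.prime_two⟩
  haveI : CharP F 2 := CharTwo.of_one_ne_zero_of_two_eq_zero one_ne_zero h2
  letI : Algebra (ZMod 2) F := ZMod.algebra F 2
  have hfr : Module.finrank (ZMod 2) F = m := by
    have h1 := Module.card_eq_pow_finrank (K := ZMod 2) (V := F)
    rw [hm, ZMod.card] at h1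
    exact (Nat.pow_right_injective (le_refl 2) h1).symm
  have hinj := (FiniteField.bijective_frobeniusAlgEquivOfAlgebraic_pow (ZMod 2) F).1
  have h1 : (⟨k, by rwa [hfr]⟩ : Fin (Module.finrank (ZMod 2) F)) = ⟨l, by rwa [hfr]⟩ := by
    apply hinj
    ext x
    simp only
    rw [AlgEquiv.coe_pow, AlgEquiv.coe_pow, FiniteField.coe_frobeniusAlgEquivOfAlgebraic_iterate,
      FiniteField.coe_frobeniusAlgEquivOfAlgebraic_iterate, ZMod.card]
    exact h x
  exact congrArg Fin.val h1

/-- Counting additive maps of elementary abelian `2`-groups. -/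
theorem card_addHom {U W : Type*} [AddCommGroup U] [AddCommGroup W] [Finite U] [Finite W] {m : ℕ}
    (hU : Nat.card U = 2 ^ m) (hU2 : ∀ u : U, 2 • u = 0) (hW2 : ∀ w : W, 2 • w = 0) :
    Nat.card (U →+ W) = Nat.card W ^ m := by
  classical
  haveI : Fact (Nat.Prime 2) := ⟨Nat.prime_two⟩
  letI : Module (ZMod 2) U := AddCommGroup.zmodModule (n := 2) hU2
  letI : Module (ZMod 2) W := AddCommGroup.zmodModule (n := 2) hW2
  haveI : Fintype U := Fintype.ofFinite U
  have hfr : Module.finrank (ZMod 2) U = m := by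
    have h1 := Module.card_eq_pow_finrank (K := ZMod 2) (V := U)
    rw [← Nat.card_eq_fintype_card, hU, ZMod.card] at h1
    exact (Nat.pow_right_injective (le_refl 2) h1).symm
  let b := Module.finBasis (ZMod 2) U
  have e1 : (U →+ W) ≃ (U →ₗ[ZMod 2] W) :=
    { toFun := fun f => f.toZModLinearMap 2
      invFun := fun f => f.toAddMonoidHom
      left_inv := fun f => rfl
      right_inv := fun f => rfl }
  have e2 : (Fin (Module.finrank (ZMod 2) U) → W) ≃ (U →ₗ[ZMod 2] W) :=
    (b.constr (ZMod 2)).toEquiv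
  rw [Nat.card_congr e1, ← Nat.card_congr e2, Nat.card_fun, Nat.card_eq_fintype_card (α := Fin _),
    Fintype.card_fin, hfr]

end field

section aut

variable {F : Type*} [Field F] [Fintype F] {q : ℕ} {X : Type*} [Group X] {aa cc : X → F}

/-- The action on the quotient by the centre. -/
theorem exists_theta (h : SU3Coords q X aa cc) (h2 : (2 : F) = 0) (hF : Fintype.card F = q ^ 2) :
    ∃ Θ : MulAut X →* Equiv.Perm F, ∀ (φ : MulAut X) (x : X), aa (φ x) = Θ φ (aa x) := by
  choose ξ hξ using h.exists_aa h2 hF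
  have hφ0 : ∀ (φ : MulAut X) (x : X), aa x = 0 → aa (φ x) = 0 := by
    intro φ x hx
    rw [← h.sq_one_iff h2 hF, ← map_mul, (h.sq_one_iff h2 hF x).2 hx, map_one]
  have hφa : ∀ (φ : MulAut X) (x y : X), aa x = aa y → aa (φ x) = aa (φ y) := by
    intro φ x y hxy
    have h1 : aa (x * y⁻¹) = 0 := by
      rw [h.aa_mul, h.aa_inv h2, hxy]
      linear_combination (aa y) * h2
    have h3 := hφ0 φ _ h1
    rw [map_mul, h.aa_mul, map_inv, h.aa_inv h2] at h3
    linear_combination h3 - (aa (φ y)) * h2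
  have hfn : ∀ (φ : MulAut X) (x : X), aa (φ (ξ (aa x))) = aa (φ x) := fun φ x =>
    hφa φ _ _ (hξ _)
  have hmul : ∀ (φ ψ : MulAut X) (α : F), aa ((φ * ψ) (ξ α)) = aa (φ (ξ (aa (ψ (ξ α))))) := by
    intro φ ψ α
    rw [hfn]
    rfl
  let Θ : MulAut X →* Equiv.Perm F :=
    { toFun := fun φ =>
        { toFun := fun α => aa (φ (ξ α))
          invFun := fun α => aa (φ⁻¹ (ξ α))
          left_inv := fun α => by
            show aa (φ⁻¹ (ξ (aa (φ (ξ α))))) = α
            rw [← hmul]
            simp [hξ]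
          right_inv := fun α => by
            show aa (φ (ξ (aa (φ⁻¹ (ξ α))))) = α
            rw [← hmul]
            simp [hξ] }
      map_one' := by
        ext α
        show aa (ξ α) = α
        exact hξ α
      map_mul' := fun φ ψ => by
        ext α
        exact hmul φ ψ α }
  refine ⟨Θ, fun φ x => ?_⟩
  show aa (φ x) = aa (φ (ξ (aa x)))
  rw [hfn]

variable (h : SU3Coords q X aa cc) (h2 : (2 : F) = 0) (hF : Fintype.card F = q ^ 2)
include h h2 hF

/-- Properties of the action. -/
theorem theta_add {A : F → F} {φ : MulAut X} (hA : ∀ x : X, aa (φ x) = A (aa x)) (a b : F) :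
    A (a + b) = A a + A b := by
  obtain ⟨x, rfl⟩ := h.exists_aa h2 hF a
  obtain ⟨y, rfl⟩ := h.exists_aa h2 hF b
  rw [← h.aa_mul, ← hA, ← hA, ← hA, map_mul, h.aa_mul]

/-- The map on the centre. -/
theorem exists_center_map {A : F → F} (φ : MulAut X) (hA : ∀ x : X, aa (φ x) = A (aa x)) :
    ∃ B : F → F, (∀ x y, x ^ q = x → y ^ q = y → B (x + y) = B x + B y) ∧
      (∀ x, A x ^ (q + 1) = B (x ^ (q + 1))) ∧ ∀ z : X, aa z = 0 → cc (φ z) = B (cc z) := by
  classical
  have hq2 : 2 ≤ q := two_le_q hF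
  have hq0 : q ≠ 0 := by omega
  have hζ : ∀ z : F, ∃ x : X, z ^ q = z → aa x = 0 ∧ cc x = z := by
    intro z
    by_cases hz : z ^ q = z
    · obtain ⟨x, h1, h3⟩ := h.ex 0 z (by
        rw [zero_pow (by omega), hz]
        linear_combination z * h2)
      exact ⟨x, fun _ => ⟨h1, h3⟩⟩
    · exact ⟨1, fun h1 => absurd h1 hz⟩
  choose ζ hζ using hζ
  have hφ0 : ∀ x : X, aa x = 0 → aa (φ x) = 0 := by
    intro x hx
    rw [← h.sq_one_iff h2 hF, ← map_mul, (h.sq_one_iff h2 hF x).2 hx, map_one]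
  refine ⟨fun z => cc (φ (ζ z)), ?_, ?_, ?_⟩
  · intro x y hx hy
    have h1 : ζ (x + y) = ζ x * ζ y := by
      apply h.ext
      · rw [h.aa_mul, (hζ _ hx).1, (hζ _ hy).1, (hζ (x + y) (by rw [add_pow_q hF, hx, hy])).1]
        ring
      · rw [h.cc_mul, (hζ _ hx).1, (hζ _ hx).2, (hζ _ hy).2, (hζ (x + y) (by rw [add_pow_q hF, hx, hy])).2]
        ring
    show cc (φ (ζ (x + y))) = cc (φ (ζ x)) + cc (φ (ζ y))
    rw [h1, map_mul, h.cc_mul, hφ0 _ (hζ _ hx).1]
    ring
  · intro a
    obtain ⟨x, rfl⟩ := h.exists_aa h2 hF a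
    have hfix := norm_pow_fixed hF (aa x)
    have h1 : ζ (aa x ^ (q + 1)) = x * x := by
      apply h.ext
      · rw [(hζ _ hfix).1, h.aa_sq h2]
      · rw [(hζ _ hfix).2, h.cc_sq h2]
    show A (aa x) ^ (q + 1) = cc (φ (ζ (aa x ^ (q + 1))))
    rw [h1, map_mul, h.cc_sq h2, hA]
  · intro z hz
    have hcz : cc z ^ q = cc z := by
      have h1 := h.rel z
      rw [hz, zero_pow (by omega)] at h1
      linear_combination h1 - (cc z) * h2
    have hzz : ζ (cc z) = z := by
      apply h.ext
      · rw [(hζ _ hcz).1, hz]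
      · rw [(hζ _ hcz).2]
    show cc (φ z) = cc (φ (ζ (cc z)))
    rw [hzz]

/-- The image consists of semilinear scalars. -/
theorem theta_form [Finite X] {m : ℕ} (hm : Fintype.card F = 2 ^ m) (φ : MulAut X) {A : Equiv.Perm F}
    (hA : ∀ x : X, aa (φ x) = A (aa x)) : ∃ c : F, c ≠ 0 ∧ ∃ k, k < m ∧ ∀ a, A a = c * a ^ (2 ^ k) := by
  have hadd := theta_add h h2 hF (A := A) hA
  obtain ⟨B, hB, hN, -⟩ := exists_center_map h h2 hF (A := A) φ hA
  have hA0 : A 0 = 0 := by
    have h3 := hadd 0 0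
    rw [add_zero] at h3
    linear_combination -h3
  have hc : A 1 ≠ 0 := by
    intro h0
    have : A 1 = A 0 := by rw [h0, hA0]
    exact one_ne_zero (A.injective this)
  have hcN : A 1 ^ (q + 1) ≠ 0 := pow_ne_zero _ hc
  have hring := semi_ring hF h2 (fun a => A a / A 1) (fun z => B z / A 1 ^ (q + 1))
    (fun x y => by
      show A (x + y) / A 1 = _
      rw [hadd, add_div])
    (div_self hc)
    (fun y => ⟨A.symm (y * A 1), by
      show A (A.symm _) / A 1 = y
      rw [Equiv.apply_symm_apply]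
      field_simp⟩)
    (fun x y hx hy => by
      show B (x + y) / _ = _
      rw [hB x y hx hy, add_div])
    (fun x => by
      show (A x / A 1) ^ (q + 1) = B _ / _
      rw [div_pow, hN])
  have hbij : Function.Bijective (fun a => A a / A 1) := by
    apply Finite.injective_iff_bijective.mp
    intro x y hxy
    have h3 : A x / A 1 = A y / A 1 := hxy
    exact A.injective ((div_left_inj' hc).mp h3)
  obtain ⟨k, hk, hk2⟩ := frob_classify hm h2 (fun a => A a / A 1)
    (fun x y => by
      show A (x + y) / A 1 = _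
      rw [hadd, add_div])
    (div_self hc) hring hbij
  refine ⟨A 1, hc, k, hk, fun a => ?_⟩
  have h3 : A a / A 1 = a ^ (2 ^ k) := hk2 a
  rw [← h3]
  field_simp

/-- The scalar automorphisms. -/
theorem exists_scalar_auto [Finite X] {c : F} (hc : c ≠ 0) (k : ℕ) :
    ∃ φ : MulAut X, ∀ x, aa (φ x) = c * aa x ^ (2 ^ k) ∧ cc (φ x) = c ^ (q + 1) * cc x ^ (2 ^ k) := by
  classical
  haveI : Fact (Nat.Prime 2) := ⟨Nat.prime_two⟩
  haveI : CharP F 2 := CharTwo.of_one_ne_zero_of_two_eq_zero one_ne_zero h2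
  have hex : ∀ x : X, ∃ y : X, aa y = c * aa x ^ (2 ^ k) ∧ cc y = c ^ (q + 1) * cc x ^ (2 ^ k) := by
    intro x
    apply h.ex
    have h1 := h.rel x
    have h3 : (cc x + cc x ^ q) ^ (2 ^ k) = (aa x ^ (q + 1)) ^ (2 ^ k) := by rw [h1]
    rw [add_pow_char_pow, ← pow_mul, mul_comm q, pow_mul, ← pow_mul (aa x), mul_comm (q + 1), pow_mul] at h3
    rw [mul_pow, mul_pow, norm_pow_fixed hF, ← pow_mul (cc x), mul_comm (2 ^ k), pow_mul (cc x)]
    linear_combination (c ^ (q + 1)) * h3
  choose g hg using hex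
  have hmul : ∀ x y, g (x * y) = g x * g y := by
    intro x y
    apply h.ext
    · rw [h.aa_mul, (hg _).1, (hg _).1, (hg _).1, h.aa_mul, add_pow_char_pow]
      ring
    · rw [h.cc_mul, (hg _).2, (hg _).2, (hg _).2, h.cc_mul, (hg _).1, (hg _).1, add_pow_char_pow,
        add_pow_char_pow, mul_pow, mul_pow, ← pow_mul (aa y), mul_comm q, pow_mul (aa y)]
      rw [pow_succ' c q]
      ring
  have hpowinj : ∀ a b : F, a ^ (2 ^ k) = b ^ (2 ^ k) → a = b := by
    intro a b hab
    have h1 : (a - b) ^ (2 ^ k) = 0 := by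
      rw [sub_pow_char_pow, hab, sub_self]
    exact sub_eq_zero.mp (pow_eq_zero_iff (by positivity) |>.mp h1)
  have hinj : Function.Injective g := by
    intro x y hxy
    apply h.ext
    · have h1 := congrArg aa hxy
      rw [(hg _).1, (hg _).1] at h1
      exact hpowinj _ _ (mul_left_cancel₀ hc h1)
    · have h1 := congrArg cc hxy
      rw [(hg _).2, (hg _).2] at h1
      exact hpowinj _ _ (mul_left_cancel₀ (pow_ne_zero _ hc) h1)
  have hbij : Function.Bijective g := Finite.injective_iff_bijective.mp hinj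
  exact ⟨MulEquiv.ofBijective (MonoidHom.mk' g hmul) hbij, fun x => hg x⟩

/-- **The structure of the automorphism group.** -/
theorem aut_structure [Finite X] {n : ℕ} (hq : q = 2 ^ n) :
    IsElementaryAbelian 2 (pCore 2 (MulAut X)) ∧ Nat.card (pCore 2 (MulAut X)) = 2 ^ (2 * n ^ 2) ∧
      Nat.card (MulAut X) = 2 ^ (2 * n ^ 2) * (2 * n * (q ^ 2 - 1)) := by
  classical
  have hq2 : 2 ≤ q := two_le_q hF
  have hq0 : q ≠ 0 := by omega
  have hn0 : n ≠ 0 := by
    rintro rfl
    simp at hq
    omega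
  have hm : Fintype.card F = 2 ^ (2 * n) := by
    rw [hF, hq, ← pow_mul, mul_comm]
  obtain ⟨Θ, hΘ⟩ := exists_theta h h2 hF
  have hcentral : ∀ x : X, aa x = 0 → ∀ y, x * y = y * x := fun x hx y =>
    h.central_of_aa h2 hq0 hx y
  have hKaa : ∀ φ : MulAut X, φ ∈ Θ.ker → ∀ x, aa (φ x) = aa x := by
    intro φ hφ x
    rw [hΘ, MonoidHom.mem_ker.mp hφ]
    rfl
  have hcfix : ∀ z : X, aa z = 0 → cc z ^ q = cc z := by
    intro z hz
    have h1 := h.rel z
    rw [hz, zero_pow (by omega)] at h1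
    linear_combination h1 - (cc z) * h2
  have hKz : ∀ φ : MulAut X, φ ∈ Θ.ker → ∀ z, aa z = 0 → φ z = z := by
    intro φ hφ z hz
    obtain ⟨B, hB, hN, hcc⟩ := exists_center_map h h2 hF (A := Θ φ) φ (fun x => hΘ φ x)
    obtain ⟨t, ht⟩ := exists_norm_eq' hF (cc z) (hcfix z hz)
    have h1 := hN t
    rw [MonoidHom.mem_ker.mp hφ] at h1
    have h3 : t ^ (q + 1) = cc z := by rw [pow_succ', ht]
    rw [show ((1 : Equiv.Perm F) t) = t from rfl, h3] at h1
    apply h.ext
    · rw [hKaa φ hφ]
    · rw [hcc z hz, ← h1]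
  have hc0 : ∀ φ : MulAut X, φ ∈ Θ.ker → ∀ x, aa (x⁻¹ * φ x) = 0 := by
    intro φ hφ x
    rw [h.aa_mul, h.aa_inv h2, hKaa φ hφ]
    linear_combination (aa x) * h2
  have hK2 : ∀ φ : MulAut X, φ ∈ Θ.ker → φ * φ = 1 := by
    intro φ hφ
    ext x
    show φ (φ x) = x
    obtain ⟨c, hc⟩ : ∃ c, c = x⁻¹ * φ x := ⟨_, rfl⟩
    have hc' : aa c = 0 := by
      rw [hc]
      exact hc0 φ hφ x
    have hx : φ x = x * c := by
      rw [hc]
      group
    rw [hx, map_mul, hKz φ hφ c hc', hx, mul_assoc, (h.sq_one_iff h2 hF c).2 hc', mul_one]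
  have hKcomm : ∀ φ ψ : MulAut X, φ ∈ Θ.ker → ψ ∈ Θ.ker → φ * ψ = ψ * φ := by
    intro φ ψ hφ hψ
    ext x
    show φ (ψ x) = ψ (φ x)
    obtain ⟨c, hc⟩ : ∃ c, c = x⁻¹ * φ x := ⟨_, rfl⟩
    have hc' : aa c = 0 := by
      rw [hc]
      exact hc0 φ hφ x
    have hx : φ x = x * c := by
      rw [hc]
      group
    obtain ⟨d, hd⟩ : ∃ d, d = x⁻¹ * ψ x := ⟨_, rfl⟩
    have hd' : aa d = 0 := by
      rw [hd]
      exact hc0 ψ hψ x
    have hy : ψ x = x * d := by
      rw [hd]
      group
    rw [hy, map_mul, hKz φ hφ d hd', hx, map_mul, hKz ψ hψ c hc', hy, mul_assoc, mul_assoc, hcentral c hc' d]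
  -- the core
  have hcore : pCore 2 (MulAut X) = Θ.ker := by
    apply le_antisymm
    · intro φ hφ
      obtain ⟨d, hd, k, hk, hE⟩ := theta_form h h2 hF hm φ (A := Θ φ) (fun x => hΘ φ x)
      have hodd : Odd (q ^ 2 - 1) := by
        have heven : Even q := by
          rw [hq]
          exact Even.pow_of_ne_zero even_two hn0
        have h3 : Even (q ^ 2) := Even.pow_of_ne_zero heven (by norm_num)
        have h4 : 1 ≤ q ^ 2 := Nat.one_le_pow _ _ (by omega)
        exact Nat.Even.sub_odd h4 h3 odd_one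
      have hone : ∀ (e : F) (t : ℕ), e ≠ 0 → e ^ (2 ^ t) = 1 → e = 1 := by
        intro e t he ht
        have h3 : e ^ (q ^ 2 - 1) = 1 := by
          have := FiniteField.pow_card_sub_one_eq_one e he
          rwa [hF] at this
        have h4 : orderOf e ∣ 2 ^ t := orderOf_dvd_of_pow_eq_one ht
        have h5 : orderOf e ∣ q ^ 2 - 1 := orderOf_dvd_of_pow_eq_one h3
        have h6 : Nat.Coprime (2 ^ t) (q ^ 2 - 1) := by
          apply Nat.Coprime.pow_left
          rwa [Nat.coprime_two_left]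
        have h7 := Nat.dvd_gcd h4 h5
        rw [h6] at h7
        exact orderOf_eq_one_iff.mp (Nat.dvd_one.mp h7)
      have hpowmul : ∀ (p : Equiv.Perm F) (e : F), (∀ y, p y = e * y) → ∀ (t : ℕ) (y : F),
          (p ^ t) y = e ^ t * y := by
        intro p e hp t y
        induction t with
        | zero => simp
        | succ t ih =>
          rw [pow_succ', Equiv.Perm.mul_apply, ih, hp]
          ring
      have hscal : ∀ c : F, c ≠ 0 → c ^ (2 ^ k) = c := by
        intro c hc
        obtain ⟨μ, hμ⟩ := exists_scalar_auto h h2 hF hc 0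
        have hμa : ∀ a, Θ μ a = c * a := by
          intro a
          obtain ⟨x, rfl⟩ := h.exists_aa h2 hF a
          rw [← hΘ, (hμ x).1]
          simp
        haveI hnorm : (pCore 2 (MulAut X)).Normal := pCore_normal (G := MulAut X) 2
        have hψmem : φ * (μ * φ⁻¹ * μ⁻¹) ∈ pCore 2 (MulAut X) :=
          (pCore 2 (MulAut X)).mul_mem hφ (hnorm.conj_mem _ ((pCore 2 (MulAut X)).inv_mem hφ) μ)
        obtain ⟨t, ht⟩ := (pCore_isPGroup 2 : IsPGroup 2 (pCore 2 (MulAut X))) ⟨_, hψmem⟩
        have ht' : (φ * (μ * φ⁻¹ * μ⁻¹)) ^ (2 ^ t) = 1 := congrArg Subtype.val ht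
        have hrel : (φ * (μ * φ⁻¹ * μ⁻¹)) * μ * φ = φ * μ := by group
        have hrel' : Θ (φ * (μ * φ⁻¹ * μ⁻¹)) * Θ μ * Θ φ = Θ φ * Θ μ := by
          rw [← map_mul, ← map_mul, hrel, map_mul]
        have hψ : ∀ y, Θ (φ * (μ * φ⁻¹ * μ⁻¹)) y = (c ^ (2 ^ k) / c) * y := by
          intro y
          obtain ⟨β, hβ⟩ := (Θ φ).surjective (y / c)
          have h3 := Equiv.congr_fun hrel' β
          simp only [Equiv.Perm.mul_apply] at h3
          rw [hβ, hμa, hμa, hE (c * β), mul_pow] at h3
          have h4 : d * β ^ (2 ^ k) = y / c := by rw [← hE, hβ]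
          have h5 : c * (y / c) = y := by field_simp
          rw [h5] at h3
          rw [h3]
          have h6 : d * (c ^ 2 ^ k * β ^ 2 ^ k) = c ^ 2 ^ k * (d * β ^ 2 ^ k) := by ring
          rw [h6, h4]
          field_simp
        have h3 := hpowmul _ _ hψ (2 ^ t) 1
        rw [← map_pow, ht', Θ.map_one] at h3
        have h4 : (c ^ (2 ^ k) / c) ^ (2 ^ t) = 1 := by
          have h5 : (1 : Equiv.Perm F) 1 = (1 : F) := rfl
          rw [h5, mul_one] at h3
          exact h3.symm
        have h5 := hone _ t (div_ne_zero (pow_ne_zero _ hc) hc) h4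
        exact (div_eq_one_iff_eq hc).mp h5
      have hEd : ∀ a, Θ φ a = d * a := by
        intro a
        rw [hE]
        by_cases ha : a = 0
        · rw [ha, zero_pow (by positivity)]
        · rw [hscal a ha]
      obtain ⟨t, ht⟩ := (pCore_isPGroup 2 : IsPGroup 2 (pCore 2 (MulAut X))) ⟨_, hφ⟩
      have ht' : φ ^ (2 ^ t) = 1 := congrArg Subtype.val ht
      have h3 := hpowmul _ _ hEd (2 ^ t) 1
      rw [← map_pow, ht', Θ.map_one] at h3
      have h4 : d ^ (2 ^ t) = 1 := by
        have h5 : (1 : Equiv.Perm F) 1 = (1 : F) := rfl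
        rw [h5, mul_one] at h3
        exact h3.symm
      have h5 := hone d t hd h4
      rw [MonoidHom.mem_ker]
      ext a
      rw [hEd, h5, one_mul]
      rfl
    · apply le_pCore (MonoidHom.normal_ker Θ)
      rintro ⟨φ, hφ⟩
      refine ⟨1, ?_⟩
      apply Subtype.ext
      show φ ^ 2 ^ 1 = 1
      rw [pow_one, pow_two]
      exact hK2 φ hφ
  -- the kernel is elementary abelian
  have hEA : IsElementaryAbelian 2 (pCore 2 (MulAut X)) := by
    rw [hcore]
    refine ⟨⟨⟨fun a b => Subtype.ext (hKcomm a.1 b.1 a.2 b.2)⟩⟩, fun a ha => ?_⟩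
    rw [pow_two]
    exact hK2 a ha
  -- the size of the kernel
  have hcardK : Nat.card Θ.ker = 2 ^ (2 * n ^ 2) := by
    obtain ⟨Fq, hFq⟩ : ∃ Fq : AddSubgroup F, ∀ z, z ∈ Fq ↔ z ^ q = z :=
      ⟨{ carrier := {z | z ^ q = z}
         add_mem' := fun {a b} ha hb => by
          have ha' : a ^ q = a := ha
          have hb' : b ^ q = b := hb
          show (a + b) ^ q = a + b
          rw [add_pow_q hF, ha', hb']
         zero_mem' := by
          show (0 : F) ^ q = 0
          exact zero_pow hq0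
         neg_mem' := fun {a} ha => by
          have e : -a = a := by linear_combination (-a) * h2
          rw [e]
          exact ha }, fun z => Iff.rfl⟩
    have hcardFq : Nat.card Fq = q := by
      rw [← card_fixed hF h2]
      exact Nat.card_congr (Equiv.subtypeEquivRight hFq)
    have hcardHom : Nat.card (F →+ Fq) = 2 ^ (2 * n ^ 2) := by
      rw [card_addHom (m := 2 * n) (by rw [Nat.card_eq_fintype_card, hm])
        (fun u => by
          rw [two_nsmul]
          linear_combination u * h2)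
        (fun w => by
          apply Subtype.ext
          show 2 • (w : F) = 0
          rw [two_nsmul]
          linear_combination (w : F) * h2), hcardFq, hq, ← pow_mul]
      congr 1
      ring
    rw [← hcardHom]
    -- the central elements
    have hζex : ∀ z : Fq, ∃ x : X, aa x = 0 ∧ cc x = z.1 := by
      intro z
      obtain ⟨x, h1, h3⟩ := h.ex 0 z.1 (by
        rw [zero_pow (by omega), (hFq _).1 z.2]
        linear_combination z.1 * h2)
      exact ⟨x, h1, h3⟩
    choose ζ hζ using hζex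
    have hζadd : ∀ a b : Fq, ζ (a + b) = ζ a * ζ b := by
      intro a b
      apply h.ext
      · rw [h.aa_mul, (hζ _).1, (hζ _).1, (hζ _).1]
        ring
      · rw [h.cc_mul, (hζ _).2, (hζ _).2, (hζ _).2, (hζ a).1]
        push_cast
        ring
    -- from additive maps to automorphisms
    have hg : ∀ f : F →+ Fq, ∃ φ : MulAut X, φ ∈ Θ.ker ∧ ∀ x, φ x = x * ζ (f (aa x)) := by
      intro f
      have hmul : ∀ x y, (x * y) * ζ (f (aa (x * y))) = (x * ζ (f (aa x))) * (y * ζ (f (aa y))) := by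
        intro x y
        rw [h.aa_mul, map_add, hζadd, mul_assoc x, mul_assoc x, ← mul_assoc y, ← mul_assoc _ y,
          hcentral (ζ (f (aa x))) (hζ _).1 y, mul_assoc y]
      have hinj : Function.Injective (fun x => x * ζ (f (aa x))) := by
        intro x y hxy
        have hxy' : x * ζ (f (aa x)) = y * ζ (f (aa y)) := hxy
        have h3 := congrArg aa hxy'
        rw [h.aa_mul, h.aa_mul, (hζ _).1, (hζ _).1, add_zero, add_zero] at h3
        rw [h3] at hxy'
        exact mul_right_cancel hxy'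
      refine ⟨MulEquiv.ofBijective (MonoidHom.mk' _ hmul) (Finite.injective_iff_bijective.mp hinj), ?_, fun x => rfl⟩
      rw [MonoidHom.mem_ker]
      ext a
      obtain ⟨x, rfl⟩ := h.exists_aa h2 hF a
      rw [← hΘ]
      show aa (x * ζ (f (aa x))) = aa x
      rw [h.aa_mul, (hζ _).1, add_zero]
    choose g hgK hgx using hg
    apply Nat.card_congr
    symm
    refine Equiv.ofBijective (fun f => ⟨g f, hgK f⟩) ⟨?_, ?_⟩
    · intro f f' hff
      ext a
      obtain ⟨x, rfl⟩ := h.exists_aa h2 hF a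
      have h1 : g f x = g f' x := by
        have := congrArg Subtype.val hff
        simp only at this
        rw [this]
      rw [hgx, hgx] at h1
      have h3 := mul_left_cancel h1
      have h4 := congrArg cc h3
      rw [(hζ _).2, (hζ _).2] at h4
      exact h4
    · rintro ⟨φ, hφ⟩
      choose ξ hξ using h.exists_aa h2 hF
      -- the cocycle
      have hdep : ∀ x y, aa x = aa y → x⁻¹ * φ x = y⁻¹ * φ y := by
        intro x y hxy
        have hz : aa (x⁻¹ * y) = 0 := by
          rw [h.aa_mul, h.aa_inv h2, hxy]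
          linear_combination (aa y) * h2
        have hy : y = x * (x⁻¹ * y) := by group
        have h3 : φ y = φ x * (x⁻¹ * y) := by
          conv_lhs => rw [hy]
          rw [map_mul, hKz φ hφ _ hz]
        rw [h3]
        have h4 := hcentral _ hz (x⁻¹ * φ x)
        calc x⁻¹ * φ x = (x⁻¹ * y)⁻¹ * ((x⁻¹ * φ x) * (x⁻¹ * y)) := by
              rw [← h4]
              group
          _ = y⁻¹ * (φ x * (x⁻¹ * y)) := by group
      have hcmul : ∀ x y, (x * y)⁻¹ * φ (x * y) = (x⁻¹ * φ x) * (y⁻¹ * φ y) := by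
        intro x y
        have h3 := hcentral _ (hc0 φ hφ x) y⁻¹
        rw [map_mul]
        calc (x * y)⁻¹ * (φ x * φ y) = y⁻¹ * (x⁻¹ * φ x) * φ y := by group
          _ = (x⁻¹ * φ x) * (y⁻¹ * φ y) := by
            rw [← h3]
            group
      have hfmem : ∀ a, cc ((ξ a)⁻¹ * φ (ξ a)) ∈ Fq := fun a =>
        (hFq _).2 (hcfix _ (hc0 φ hφ _))
      let f : F →+ Fq :=
        { toFun := fun a => ⟨cc ((ξ a)⁻¹ * φ (ξ a)), hfmem a⟩
          map_zero' := by
            apply Subtype.ext
            show cc ((ξ 0)⁻¹ * φ (ξ 0)) = 0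
            rw [hdep (ξ 0) 1 (by rw [hξ, h.aa_one])]
            simp [h.cc_one]
          map_add' := fun a b => by
            apply Subtype.ext
            show cc ((ξ (a + b))⁻¹ * φ (ξ (a + b))) = cc ((ξ a)⁻¹ * φ (ξ a)) + cc ((ξ b)⁻¹ * φ (ξ b))
            rw [hdep (ξ (a + b)) (ξ a * ξ b) (by rw [hξ, h.aa_mul, hξ, hξ]), hcmul, h.cc_mul,
              hc0 φ hφ (ξ a)]
            ring }
      refine ⟨f, ?_⟩
      apply Subtype.ext
      ext x
      show g f x = φ x
      rw [hgx]
      have h3 : ζ (f (aa x)) = x⁻¹ * φ x := by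
        apply h.ext
        · rw [(hζ _).1, hc0 φ hφ x]
        · rw [(hζ _).2, hdep x (ξ (aa x)) (hξ _).symm]
          rfl
      rw [h3]
      group
  -- the size of the image
  have hcardR : Nat.card Θ.range = (q ^ 2 - 1) * (2 * n) := by
    have hex : ∀ p : Fˣ × Fin (2 * n), ∃ r : Θ.range, ∀ a, r.1 a = (p.1 : F) * a ^ (2 ^ p.2.1) := by
      rintro ⟨c, k⟩
      obtain ⟨μ, hμ⟩ := exists_scalar_auto h h2 hF c.ne_zero k.1
      refine ⟨⟨Θ μ, ⟨μ, rfl⟩⟩, fun a => ?_⟩
      obtain ⟨x, rfl⟩ := h.exists_aa h2 hF a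
      show Θ μ (aa x) = _
      rw [← hΘ, (hμ x).1]
    choose G hG using hex
    have hbij : Function.Bijective G := by
      constructor
      · rintro ⟨c, k⟩ ⟨c', k'⟩ hcc
        have h1 := hG (c, k)
        have h3 := hG (c', k')
        rw [hcc] at h1
        have h4 : (c : F) = c' := by
          have h5 := h1 1
          rw [h3 1] at h5
          simpa using h5.symm
        have h5 : k.1 = k'.1 := by
          apply frob_inj hm h2 k.2 k'.2
          intro a
          have h6 := h1 a
          rw [h3 a, h4] at h6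
          exact (mul_left_cancel₀ c'.ne_zero h6).symm
        exact Prod.ext (Units.ext h4) (Fin.ext h5)
      · rintro ⟨r, ⟨φ, rfl⟩⟩
        obtain ⟨d, hd, k, hk, hE⟩ := theta_form h h2 hF hm φ (A := Θ φ) (fun x => hΘ φ x)
        refine ⟨(Units.mk0 d hd, ⟨k, hk⟩), ?_⟩
        apply Subtype.ext
        ext a
        rw [hG]
        exact (hE a).symm
    rw [← Nat.card_congr (Equiv.ofBijective G hbij), Nat.card_prod, Nat.card_eq_fintype_card (α := Fˣ),
      Fintype.card_units, hF, Nat.card_eq_fintype_card (α := Fin _), Fintype.card_fin]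
  refine ⟨hEA, by rw [hcore, hcardK], ?_⟩
  have h1 := Subgroup.card_mul_index Θ.ker
  rw [Subgroup.index_ker, hcardK, hcardR] at h1
  rw [← h1]
  ring

end aut

end Cfsg.Agent.Lib.Components.SU3
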