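import Cfsg.Agent.Lib.Components.Core2

/-!
# Components library, part 14: coprime generation and `O_{q'}`.
-/

set_option autoImplicit false
set_option linter.unusedSectionVars false
set_option linter.style.haveILetI false

namespace Cfsg.Agent.Lib.Components

open Subgroup
open scoped commutatorElement Pointwise
open Cfsg.Agent.Lib.Coprime
open Cfsg

variable {G : Type*} [Group G] [Finite G]

local notation "c_[" g "]" => Subgroup.map (MulEquiv.toMonoidHom (MulAut.conj g))

section equiv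

variable {p : ℕ} [Fact p.Prime]

theorem map_pPrimePCore_equiv {X Y : Type*} [Group X] [Group Y] [Finite X] [Finite Y] (e : X ≃* Y) :
    (pPrimePCore p X).map e.toMonoidHom = pPrimePCore p Y := by
  have hO := map_pPrimeCore_equiv (p := p) e
  let e' : (X ⧸ pPrimeCore p X) ≃* (Y ⧸ pPrimeCore p Y) :=
    QuotientGroup.congr _ _ e hO
  have hR := map_pCore_equiv (p := p) e'
  ext y
  obtain ⟨x, rfl⟩ := e.surjective y
  have h1 : e' (QuotientGroup.mk' (pPrimeCore p X) x) = QuotientGroup.mk' (pPrimeCore p Y) (e x) := rfl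
  constructor
  · rintro ⟨x', hx', hxx⟩
    have hxx' : x' = x := e.injective hxx
    subst hxx'
    change QuotientGroup.mk' (pPrimeCore p Y) (e x') ∈ pCore p (Y ⧸ pPrimeCore p Y)
    rw [← h1, ← hR]
    exact ⟨_, hx', rfl⟩
  · intro hy
    refine ⟨x, ?_, rfl⟩
    change QuotientGroup.mk' (pPrimeCore p Y) (e x) ∈ pCore p (Y ⧸ pPrimeCore p Y) at hy
    rw [← h1, ← hR] at hy
    obtain ⟨w, hw, hw2⟩ := hy
    have := e'.injective hw2
    change QuotientGroup.mk' (pPrimeCore p X) x ∈ pCore p (X ⧸ pPrimeCore p X)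
    rw [← this]
    exact hw

/-- `O_{p',p}` of a subgroup, inside `G`. -/
def subPPCore (p : ℕ) (C : Subgroup G) : Subgroup G := (pPrimePCore p C).map C.subtype

theorem subPPCore_le (C : Subgroup G) : subPPCore p C ≤ C := map_subtype_le _

theorem subPPCore_conj (C : Subgroup G) (g : G) :
    subPPCore p (c_[g] C) = c_[g] (subPPCore p C) := by
  let e : C ≃* (c_[g] C : Subgroup G) := C.equivMapOfInjective _ (MulEquiv.injective _)
  have h := map_pPrimePCore_equiv (p := p) e
  unfold subPPCore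
  rw [← h, Subgroup.map_map, Subgroup.map_map]
  rfl

theorem le_normalizer_subPPCore {C : Subgroup G} {A : Subgroup G} (hA : A ≤ normalizer (C : Set G)) :
    A ≤ normalizer ((subPPCore p C : Subgroup G) : Set G) := by
  intro g hg
  apply mem_normalizer_of_conj_eq'
  rw [← subPPCore_conj, conj_eq_of_mem_normalizer (hA hg)]

/-- Ambient Sylow subgroups of `O_{p',p}(K)` map onto `O_p(K/O_{p'}(K))`. -/
theorem map_isSylowOf_subPPCore {K Q : Subgroup G} (hQ : IsSylowOf p Q (subPPCore p K)) :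
    (Q.subgroupOf K).map (QuotientGroup.mk' (pPrimeCore p K)) = pCore p (K ⧸ pPrimeCore p K) := by
  have hQK : Q ≤ K := hQ.le.trans (subPPCore_le K)
  have hW : (subPPCore p K).subgroupOf K = pPrimePCore p K := map_subtype_subgroupOf _
  have h1 : IsSylowOf p (Q.subgroupOf K) (pPrimePCore p K) := by
    rw [← hW]
    refine ⟨fun x hx => hQ.le hx, isPGroup_subgroupOf hQ.isP, ?_⟩
    rw [relIndex_subgroupOf (subPPCore_le K)]
    exact hQ.not_dvd
  obtain ⟨S, hS⟩ := exists_sylow_of_isSylowOf h1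
  rw [← hS]
  exact map_sylow_pPrimePCore S

end equiv

variable {p : ℕ} [Fact p.Prime]

/-- **S1288**. -/
theorem le_subCore_of_commutators {A K U : Subgroup G} (hA : IsElementaryAbelian p A)
    (hA2 : p ≤ Nat.card A) (hK : ¬ p ∣ Nat.card K) (hKs : Group.IsSolvable K)
    (hAK : A ≤ normalizer (K : Set G)) (q : ℕ) [Fact q.Prime] (hU : U ≤ K) (hUq : ¬ q ∣ Nat.card U)
    (hcomm : ∀ B : Subgroup G, B ≤ A → B.relIndex A = p →
      ¬ q ∣ Nat.card ↥⁅U, K ⊓ centralizer (B : Set G)⁆) :
    U ≤ (pPrimeCore q K).map K.subtype := by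
  have hq : q.Prime := Fact.out
  set O := pPrimeCore q K with hO
  set π := QuotientGroup.mk' O with hπ
  set R := pCore q (K ⧸ O) with hR
  have hRp : IsPGroup q R := pCore_isPGroup
  haveI hRn : R.Normal := inferInstance
  have hC : centralizer (R : Set (K ⧸ O)) ≤ R :=
    isPConstrained_iff_quotient.mp (isPConstrained_of_solvable hKs)
  set W := subPPCore q K with hW
  have hWK : W ≤ K := subPPCore_le K
  have hAW : A ≤ normalizer (W : Set G) := le_normalizer_subPPCore hAK
  have hWp : ¬ p ∣ Nat.card W := fun h => hK (h.trans (card_dvd_of_le hWK))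
  obtain ⟨Q, hQ, hAQ⟩ := (ea_coprimeAction hA hAW hWp).exists_invariant_sylow q
  have hQK : Q ≤ K := hQ.le.trans hWK
  have hQR : (Q.subgroupOf K).map π = R := map_isSylowOf_subPPCore hQ
  have hQp : ¬ p ∣ Nat.card Q := fun h => hK (h.trans (card_dvd_of_le hQK))
  have hQgen := le_iSup_centralizer_hyperplane hA hQp hAQ
  have hAp := ea_isPGroup hA
  obtain ⟨B₀, hB₀A, hB₀i⟩ := exists_hyperplane hAp hA2
  intro u hu
  have huK : u ∈ K := hU hu
  set u' : K := ⟨u, huK⟩ with hu'
  -- the element `π u'` centralizes `R`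
  have hcent : π u' ∈ centralizer (R : Set (K ⧸ O)) := by
    set T : Subgroup G := ((centralizer ({π u'} : Set (K ⧸ O))).comap π).map K.subtype with hT
    have hQT : Q ≤ T := by
      refine hQgen.trans (iSup_le ?_)
      rintro ⟨B, hBA, hBi⟩
      -- a hyperplane contained in `B`
      obtain ⟨B', hB'A, hB'i, hB'B⟩ : ∃ B' : Subgroup G, B' ≤ A ∧ B'.relIndex A = p ∧ B' ≤ B := by
        have hdvd : B.relIndex A ∣ Nat.card A := relIndex_dvd_card _ _
        obtain ⟨k, hk⟩ := IsPGroup.iff_card.mp hAp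
        rw [hk] at hdvd
        obtain ⟨j, -, hj⟩ := (Nat.dvd_prime_pow Fact.out).mp hdvd
        rcases j with _ | j
        · rw [pow_zero] at hj
          exact ⟨B₀, hB₀A, hB₀i, hB₀A.trans (relIndex_eq_one.mp hj)⟩
        · have hp : p.Prime := Fact.out
          have hjp : j = 0 := by
            by_contra hj0
            have h1 : p ^ (j + 1) ≤ p := hj ▸ hBi
            have h2 : p ^ 2 ≤ p ^ (j + 1) := Nat.pow_le_pow_right hp.pos (by omega)
            nlinarith [hp.two_le]
          rw [hjp, zero_add, pow_one] at hj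
          exact ⟨B, hBA, hj, le_rfl⟩
      rintro x hx
      obtain ⟨hxQ, hxC⟩ := Subgroup.mem_inf.mp hx
      have hxK : x ∈ K := hQK hxQ
      refine ⟨⟨x, hxK⟩, ?_, rfl⟩
      change π ⟨x, hxK⟩ ∈ centralizer ({π u'} : Set (K ⧸ O))
      rw [mem_centralizer_singleton_iff]
      have hx2 : x ∈ K ⊓ centralizer (B' : Set G) :=
        Subgroup.mem_inf.mpr ⟨hxK, centralizer_le hB'B hxC⟩
      set Tc := ⁅U, K ⊓ centralizer (B' : Set G)⁆ with hTc
      have hTcK : Tc ≤ K := by
        rw [hTc, commutator_le]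
        intro a ha b hb
        have hbK : b ∈ K := (Subgroup.mem_inf.mp hb).1
        rw [commutatorElement_def]
        exact mul_mem (mul_mem (mul_mem (hU ha) hbK) (inv_mem (hU ha))) (inv_mem hbK)
      have hc1 : ⁅u, x⁆ ∈ Tc := commutator_mem_commutator hu hx2
      set c' : K := ⟨⁅u, x⁆, hTcK hc1⟩ with hc'
      have hcR : π c' ∈ R := by
        have hxR : π ⟨x, hxK⟩ ∈ R := by
          rw [← hQR]
          exact ⟨⟨x, hxK⟩, hxQ, rfl⟩
        have h2 : c' = u' * ⟨x, hxK⟩ * u'⁻¹ * (⟨x, hxK⟩ : K)⁻¹ := by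
          apply Subtype.ext
          rfl
        rw [h2, map_mul, map_mul, map_mul, map_inv, map_inv]
        exact mul_mem (hRn.conj_mem _ hxR _) (inv_mem hxR)
      have hcT : π c' ∈ (Tc.subgroupOf K).map π := ⟨c', hc1, rfl⟩
      have hTcq : (Nat.card ((Tc.subgroupOf K).map π)).Coprime q := by
        apply coprime_card_map
        rw [Nat.card_congr (subgroupOfEquivOfLe hTcK).toEquiv]
        exact ((Nat.Prime.coprime_iff_not_dvd hq).mpr (hcomm B' hB'A hB'i)).symm
      have h3 := inf_eq_bot_of_isPGroup_of_coprime hRp hTcq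
      have h4 : π c' ∈ R ⊓ (Tc.subgroupOf K).map π := Subgroup.mem_inf.mpr ⟨hcR, hcT⟩
      rw [h3, mem_bot] at h4
      have h5 : c' = u' * ⟨x, hxK⟩ * u'⁻¹ * (⟨x, hxK⟩ : K)⁻¹ := by
        apply Subtype.ext
        rfl
      rw [h5, map_mul, map_mul, map_mul, map_inv, map_inv] at h4
      calc π ⟨x, hxK⟩ * π u' = (π u' * π ⟨x, hxK⟩ * (π u')⁻¹ * (π ⟨x, hxK⟩)⁻¹)⁻¹ * (π u' * π ⟨x, hxK⟩) := by group
        _ = π u' * π ⟨x, hxK⟩ := by rw [h4]; group
    rw [mem_centralizer_iff]
    intro r hr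
    rw [SetLike.mem_coe, ← hQR] at hr
    obtain ⟨x, hx, rfl⟩ := hr
    have h1 : (x : G) ∈ T := hQT hx
    obtain ⟨y, hy, hyx⟩ := h1
    have hyx' : y = x := Subtype.ext hyx
    subst hyx'
    have h2 := mem_centralizer_singleton_iff.mp hy
    exact h2
  have huR : π u' ∈ R := hC hcent
  obtain ⟨k, hk⟩ := hRp ⟨π u', huR⟩
  have h1 : (π u') ^ q ^ k = 1 := congrArg Subtype.val hk
  have h2 : (orderOf (π u')).Coprime q := by
    have h3 : orderOf (π u') ∣ orderOf u := by
      have h4 : orderOf (π u') ∣ orderOf u' := orderOf_map_dvd π u'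
      rwa [hu', Subgroup.orderOf_mk] at h4
    exact Nat.Coprime.coprime_dvd_left h3 (orderOf_coprime_of_mem
      ((Nat.Prime.coprime_iff_not_dvd hq).mpr hUq).symm hu)
  have h3 := eq_one_of_pow_of_coprime h1 h2
  have h4 : u' ∈ π.ker := h3
  rw [hπ, QuotientGroup.ker_mk'] at h4
  exact ⟨u', h4, rfl⟩

end Cfsg.Agent.Lib.Components
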