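import Cfsg.Agent.Lib.Char.FrobeniusSchur

/-! # Symmetric and alternating squares of a coordinate representation. -/

set_option autoImplicit false

namespace Cfsg.Agent.Lib.Components.U33Sym

open Cfsg Cfsg.Agent.Lib.Char Module Matrix

universe u

variable {G : Type u} [Group G] {m : ℕ} (ρ : Representation ℂ G (Fin m → ℂ))

/-- The symmetric matrices, as a subrepresentation. -/
noncomputable def symSub : Subrepresentation (congRep ρ) where
  toSubmodule := LinearMap.ker (transposeL - LinearMap.id)
  apply_mem_toSubmodule g X hX := by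
    rw [LinearMap.mem_ker, LinearMap.sub_apply, LinearMap.id_apply, sub_eq_zero] at hX ⊢
    rw [transpose_congRep, hX]

/-- The alternating matrices, as a subrepresentation. -/
noncomputable def altSub : Subrepresentation (congRep ρ) where
  toSubmodule := LinearMap.ker (transposeL + LinearMap.id)
  apply_mem_toSubmodule g X hX := by
    rw [LinearMap.mem_ker, LinearMap.add_apply, LinearMap.id_apply, add_eq_zero_iff_eq_neg] at hX ⊢
    rw [transpose_congRep, hX, map_neg]

theorem isCompl_sym_alt : IsCompl (symSub ρ).toSubmodule (altSub ρ).toSubmodule := by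
  constructor
  · rw [Submodule.disjoint_def]
    intro X h1 h2
    have h1' : Xᵀ = X := by
      have := h1
      simp only [symSub, LinearMap.mem_ker, LinearMap.sub_apply, LinearMap.id_apply, sub_eq_zero,
        transposeL_apply] at this
      exact this
    have h2' : Xᵀ = -X := by
      have := h2
      simp only [altSub, LinearMap.mem_ker, LinearMap.add_apply, LinearMap.id_apply,
        add_eq_zero_iff_eq_neg, transposeL_apply] at this
      exact this
    have h3 : (2 : ℂ) • X = 0 := by
      rw [two_smul]
      nth_rewrite 1 [← h1']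
      rw [h2']
      simp
    exact (smul_eq_zero.mp h3).resolve_left (by norm_num)
  · rw [codisjoint_iff, eq_top_iff]
    intro X _
    have hs : ((1 / 2 : ℂ) • (Xᵀ + X)) ∈ (symSub ρ).toSubmodule := by
      simp only [symSub, LinearMap.mem_ker, LinearMap.sub_apply, LinearMap.id_apply, sub_eq_zero,
        transposeL_apply, Matrix.transpose_smul, Matrix.transpose_add, Matrix.transpose_transpose]
      rw [add_comm]
    have ha : ((1 / 2 : ℂ) • (X - Xᵀ)) ∈ (altSub ρ).toSubmodule := by
      simp only [altSub, LinearMap.mem_ker, LinearMap.add_apply, LinearMap.id_apply,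
        add_eq_zero_iff_eq_neg, transposeL_apply, Matrix.transpose_smul, Matrix.transpose_sub,
        Matrix.transpose_transpose]
      rw [← smul_neg, neg_sub]
    have hX : X = (1 / 2 : ℂ) • (Xᵀ + X) + (1 / 2 : ℂ) • (X - Xᵀ) := by
      rw [← smul_add]
      have : Xᵀ + X + (X - Xᵀ) = (2 : ℂ) • X := by
        rw [two_smul]; abel
      rw [this, smul_smul]
      norm_num
    rw [hX]
    exact Submodule.add_mem_sup hs ha

theorem trace_congRep_split (g : G) :
    ρ.character g ^ 2 =
      (symSub ρ).toRepresentation.character g + (altSub ρ).toRepresentation.character g := by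
  rw [← trace_congRep]
  have := character_eq_add_of_isCompl (symSub ρ) (altSub ρ) (isCompl_sym_alt ρ)
  exact congrFun this g

theorem trace_transpose_split (g : G) :
    ρ.character (g * g) =
      (symSub ρ).toRepresentation.character g - (altSub ρ).toRepresentation.character g := by
  rw [← trace_transpose_congRep]
  let e := Submodule.prodEquivOfIsCompl (symSub ρ).toSubmodule (altSub ρ).toSubmodule
    (isCompl_sym_alt ρ)
  have key : e.symm.toLinearMap ∘ₗ (transposeL ∘ₗ congRep ρ g) ∘ₗ e.toLinearMap =
      LinearMap.prodMap ((symSub ρ).toRepresentation g) (-(altSub ρ).toRepresentation g) := by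
    apply LinearMap.ext
    rintro ⟨⟨x, hx⟩, ⟨y, hy⟩⟩
    have hx' : transposeL x = x := by
      simpa [symSub, sub_eq_zero] using hx
    have hy' : transposeL y = -y := by
      simpa [altSub, add_eq_zero_iff_eq_neg] using hy
    have he : ∀ p : (symSub ρ).toSubmodule × (altSub ρ).toSubmodule,
        e p = (p.1 : Matrix (Fin m) (Fin m) ℂ) + (p.2 : Matrix (Fin m) (Fin m) ℂ) := fun p => rfl
    rw [LinearMap.comp_apply, LinearMap.comp_apply, LinearMap.comp_apply]
    change e.symm _ = _
    rw [LinearEquiv.symm_apply_eq, he]
    change transposeL (congRep ρ g (e ((⟨x, hx⟩, ⟨y, hy⟩) :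
      (symSub ρ).toSubmodule × (altSub ρ).toSubmodule))) = _
    rw [he]
    change transposeL (congRep ρ g (x + y)) = congRep ρ g x + -(congRep ρ g y)
    rw [map_add, map_add, transpose_congRep, transpose_congRep, hx', hy', map_neg]
  have h1 : LinearMap.trace ℂ _ (transposeL ∘ₗ congRep ρ g) =
      LinearMap.trace ℂ _ (e.symm.toLinearMap ∘ₗ (transposeL ∘ₗ congRep ρ g) ∘ₗ e.toLinearMap) := by
    exact (LinearMap.trace_conj' _ e.symm).symm
  rw [h1, key, LinearMap.trace_prodMap', sub_eq_add_neg]
  have h2 : ∀ f : Module.End ℂ (altSub ρ).toSubmodule,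
      LinearMap.trace ℂ (altSub ρ).toSubmodule (-f) = -LinearMap.trace ℂ (altSub ρ).toSubmodule f :=
    fun f => map_neg (LinearMap.trace ℂ (altSub ρ).toSubmodule) f
  rw [h2]
  rfl

/-- The symmetric and alternating squares of a representation are characters. -/
theorem exists_sym_alt :
    ∃ A B : G → ℂ, IsCharacter G A ∧ IsCharacter G B ∧
      (∀ g, A g = (ρ.character g ^ 2 + ρ.character (g * g)) / 2) ∧
      (∀ g, B g = (ρ.character g ^ 2 - ρ.character (g * g)) / 2) := by
  refine ⟨_, _, isCharacter_character (symSub ρ).toRepresentation,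
    isCharacter_character (altSub ρ).toRepresentation, fun g => ?_, fun g => ?_⟩
  · rw [trace_congRep_split, trace_transpose_split]; ring
  · rw [trace_congRep_split, trace_transpose_split]; ring

end Cfsg.Agent.Lib.Components.U33Sym
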