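import Cfsg.Agent.Lib.Components.U33Mx
import Cfsg.Agent.Lib.Components.U33Sym
import Cfsg.Agent.Lib.Char.Coherent

/-! The representation of degree six, abstractly: a group with a labelling of its elements. -/

set_option autoImplicit false
set_option maxRecDepth 100000

namespace Cfsg.Agent.Lib.Components.U33

open Cfsg Cfsg.Agent.Lib.Char Cfsg.Agent.Lib.KnownSimple.Lab Cfsg.Agent.Lib.KnownSimple.LabMat
open Cfsg.Agent.Lib.KnownSimple.LabField Cfsg.Agent.Lib.KnownSimple.LabSU
open scoped ComplexConjugate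

/-- The generators on the codes of the representation. -/
def Rk (k : ℕ) : ℕ := bif Nat.beq k 0 then R0 else R1

theorem c_bnd0 : bnd R0 = true := by decide +kernel
theorem c_bnd1 : bnd R1 = true := by decide +kernel

theorem Sm_Rk (k : ℕ) : Sm (Rk k) := by
  cases k with
  | zero => exact Sm_of_bnd c_bnd0
  | succ k => exact Sm_of_bnd c_bnd1

theorem c_Mx1 : ∀ a < 6, ∀ b < 6, eRe (RM i0) a b = (if a = b then 1 else 0) ∧ eIm (RM i0) a b = 0 := by
  decide +kernel

theorem Mx_i0 : Mx (RM i0) = 1 := by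
  ext a b
  obtain ⟨h1, h2⟩ := c_Mx1 a a.2 b b.2
  simp only [Mx, Matrix.of_apply, h1, h2, Matrix.one_apply, Fin.ext_iff]
  by_cases h : (a : ℕ) = b <;> simp [h]

theorem chkC_spec {i : ℕ} (h : chkC i = true) :
    nx 0 i < N ∧ nx 1 i < N ∧ mulC add9 mul9 3 L0 (cd i) = cd (nx 0 i) ∧
      mulC add9 mul9 3 L1 (cd i) = cd (nx 1 i) ∧ enc i < 387420489 ∧
      (i + 1 = N ∨ enc i < enc (i + 1)) ∧
      (i = i0 ∨ (par i < N ∧ gn i < 2 ∧ nx (gn i) (par i) = i ∧ dep (par i) < dep i)) := by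
  simp only [chkC, Bool.and_eq_true, Bool.or_eq_true, decide_eq_true_eq, Nat.blt_eq, Nat.beq_eq] at h
  obtain ⟨⟨⟨⟨⟨h1, h2⟩, h3, h4⟩, h5⟩, h6⟩, h7⟩ := h
  refine ⟨h1, h2, h3, h4, h5, h6, ?_⟩
  rcases h7 with h7 | ⟨⟨⟨h7, h8⟩, h9⟩, h10⟩
  · exact Or.inl h7
  · exact Or.inr ⟨h7, h8, h9, h10⟩

theorem chkR_spec {i : ℕ} (h : chkR i = true) :
    opOK R0 (RM i) (RM (nx 0 i)) = true ∧ opOK R1 (RM i) (RM (nx 1 i)) = true ∧ bnd (RM i) = true := by
  simp only [chkR, frc_eq, Bool.and_eq_true] at h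
  exact ⟨h.1.1, h.1.2, h.2⟩

theorem opOK_Rk {i k : ℕ} (hk : k < 2) (h : chkR i = true) : opOK (Rk k) (RM i) (RM (nx k i)) = true := by
  obtain ⟨h1, h2, _⟩ := chkR_spec h
  interval_cases k
  · exact h1
  · exact h2

theorem nx_lt {i k : ℕ} (hk : k < 2) (h : chkC i = true) : nx k i < N := by
  obtain ⟨h1, h2, _⟩ := chkC_spec h
  interval_cases k
  · exact h1
  · exact h2

/-- Induction along the tree of the table. -/
theorem tree_ind (hC : ∀ i < N, chkC i = true) (P : ℕ → Prop) (h0 : P i0)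
    (hs : ∀ j < N, ∀ k < 2, P j → P (nx k j)) : ∀ i < N, P i := by
  have key : ∀ n i, dep i = n → i < N → P i := by
    intro n
    induction n using Nat.strong_induction_on with
    | _ n ih =>
      intro i hd hi
      obtain ⟨-, -, -, -, -, -, h⟩ := chkC_spec (hC i hi)
      rcases h with rfl | ⟨h1, h2, h3, h4⟩
      · exact h0
      · rw [← h3]
        exact hs _ h1 _ h2 (ih _ (by omega) _ rfl h1)
  exact fun i hi => key _ i rfl hi

section Abstract

variable {G : Type*} [Group G] (e : ℕ → G) (idx : G → ℕ) (γ : ℕ → G)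

/-- The matrix of an element. -/
noncomputable def rf (g : G) : Matrix (Fin 6) (Fin 6) ℂ := Mx (RM (idx g))

variable (hidx : ∀ i < N, idx (e i) = i) (hidx' : ∀ g, idx g < N ∧ e (idx g) = g)
  (hC : ∀ i < N, chkC i = true) (hR : ∀ i < N, chkR i = true)
  (he0 : e i0 = 1) (hγ : ∀ k < 2, ∀ i < N, γ k * e i = e (nx k i))

include hidx hidx' hC hR hγ in
theorem rf_gen {k : ℕ} (hk : k < 2) (g : G) : rf idx (γ k * g) = Mx (Rk k) * rf idx g := by
  obtain ⟨h1, h2⟩ := hidx' g
  set i := idx g with hi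
  have h3 : idx (γ k * g) = nx k i := by
    rw [← h2, hγ k hk i h1, hidx _ (nx_lt hk (hC i h1))]
  have hS : ∀ j < N, Sm (RM j) := fun j hj => Sm_of_bnd (chkR_spec (hR j hj)).2.2
  rw [rf, rf, h3, ← hi]
  exact (Mx_mul_of_ok (Sm_Rk k) (hS _ h1) (hS _ (nx_lt hk (hC i h1))) (opOK_Rk hk (hR i h1))).symm

include hidx he0 in
theorem rf_one : rf idx (1 : G) = 1 := by
  rw [rf, ← he0, hidx i0 (by decide), Mx_i0]

include hidx hidx' hC hR he0 hγ in
theorem rf_mul (g x : G) : rf idx (g * x) = rf idx g * rf idx x := by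
  have key : ∀ i < N, ∀ x, rf idx (e i * x) = rf idx (e i) * rf idx x := by
    apply tree_ind hC
    · intro x
      rw [he0, one_mul, rf_one e idx hidx he0, one_mul]
    · intro j hj k hk ih x
      rw [← hγ k hk j hj, mul_assoc, rf_gen e idx γ hidx hidx' hC hR hγ hk, ih x,
        rf_gen e idx γ hidx hidx' hC hR hγ hk, mul_assoc]
  obtain ⟨h1, h2⟩ := hidx' g
  rw [← h2]
  exact key _ h1 x

/-- The representation of degree six. -/
noncomputable def rep6 (h1 : rf idx (1 : G) = 1)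
    (hm : ∀ g x : G, rf idx (g * x) = rf idx g * rf idx x) : Representation ℂ G (Fin 6 → ℂ) where
  toFun g := Matrix.toLin' (rf idx g)
  map_one' := by rw [h1, Matrix.toLin'_one]; rfl
  map_mul' g x := by rw [hm, Matrix.toLin'_mul]; rfl

theorem rep6_char (h1 : rf idx (1 : G) = 1)
    (hm : ∀ g x : G, rf idx (g * x) = rf idx g * rf idx x) (g : G) :
    (rep6 idx h1 hm).character g = (rf idx g).trace := by
  change LinearMap.trace ℂ _ (Matrix.toLin' (rf idx g)) = _
  exact Matrix.trace_toLin'_eq _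

include hidx in
/-- Sums over the group are sums over the table. -/
theorem sum_group [Fintype G] (hbij : Function.Bijective (fun i : Fin N => e i))
    (f : ℕ → ℤ) : ∑ g : G, ((f (idx g) : ℤ) : ℂ) = ((∑ i ∈ Finset.range N, f i : ℤ) : ℂ) := by
  rw [← hbij.sum_comp (fun g => ((f (idx g) : ℤ) : ℂ))]
  have h : ∀ i : Fin N, ((f (idx (e i)) : ℤ) : ℂ) = ((f i : ℤ) : ℂ) := fun i => by
    rw [hidx i i.2]
  simp only [h]
  rw [Int.cast_sum, Fin.sum_univ_eq_sum_range (fun i => ((f i : ℤ) : ℂ)) N]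

theorem fA_eq (i : ℕ) : fA i = tRe (RM i) * tRe (RM i) := by
  simp only [fA, frcZ_eq, frcI_eq]

theorem fB_eq (i : ℕ) : fB i = (tRe (RM i) * tRe (RM i) + qRe (RM i)) * (tRe (RM i) * tRe (RM i) + qRe (RM i)) := by
  simp only [fB, frcZ_eq, frcI_eq]

theorem fC_eq (i : ℕ) :
    fC i = (tRe (RM i) * tRe (RM i) - qRe (RM i) - 2) * (tRe (RM i) * tRe (RM i) - qRe (RM i) - 2) := by
  simp only [fC, frcZ_eq, frcI_eq]

theorem chkT_spec {i : ℕ} (h : chkT i = true) : tIm (RM i) = 0 ∧ qIm (RM i) = 0 := by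
  simpa only [chkT, frc_eq, Bool.and_eq_true, decide_eq_true_eq] using h

include hidx hidx' hC hR he0 hγ in
/-- Three irreducible characters, from the tables. -/
theorem abstract_main [Fintype G] (hcard : Nat.card G = 6048)
    (hbij : Function.Bijective (fun i : Fin N => e i)) (hT : ∀ i < N, chkT i = true)
    (hA : sumB (cutN fA) 0 13 = 6048) (hB : sumB (cutN fB) 0 13 = 24192)
    (hD : sumB (cutN fC) 0 13 = 24192) :
    ∃ a b c : G → ℂ, IsIrrCharacter G a ∧ a 1 = 6 ∧ IsIrrCharacter G b ∧ b 1 = 14 ∧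
      IsIrrCharacter G c ∧ c 1 = 21 := by
  have h1 := rf_one e idx hidx he0
  have hm := rf_mul e idx γ hidx hidx' hC hR he0 hγ
  set ρ := rep6 idx h1 hm with hρ
  have hχ := rep6_char idx h1 hm
  rw [← hρ] at hχ
  have ht : ∀ g, ρ.character g = ((tRe (RM (idx g)) : ℤ) : ℂ) := by
    intro g
    rw [hχ, rf, Mx_trace, (chkT_spec (hT _ (hidx' g).1)).1]
    simp
  have hs : ∀ g, ρ.character (g * g) = ((qRe (RM (idx g)) : ℤ) : ℂ) := by
    intro g
    rw [hχ, hm, rf, Mx_sq_trace, (chkT_spec (hT _ (hidx' g).1)).2]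
    simp
  have hone : ρ.character 1 = 6 := by
    rw [hχ, h1, Matrix.trace_one]
    simp
  have hone2 : ρ.character (1 * 1) = 6 := by rw [mul_one, hone]
  have hc : ((Nat.card G : ℕ) : ℂ) = 6048 := by rw [hcard]; norm_num
  have hsum := sum_group e idx hidx hbij
  rw [sum_cutN] at hA hB hD
  obtain ⟨A, B, hAc, hBc, hAe, hBe⟩ := U33Sym.exists_sym_alt ρ
  refine ⟨ρ.character, fun g => B g - 1, A, ?_, hone, ?_, ?_, ?_, ?_⟩
  · apply isIrrCharacter_of_classInner_self (isCharacter_character ρ)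
    have e1 : ∀ g, ρ.character g * conj (ρ.character g) = ((fA (idx g) : ℤ) : ℂ) := by
      intro g
      rw [ht, map_intCast, fA_eq]
      push_cast
      ring
    rw [classInner]
    simp only [e1]
    rw [hsum, hA, hc]
    norm_num
  · have hθ : IsGeneralizedCharacter G (fun g => B g - 1) :=
      ⟨B, fun _ => 1, hBc, IsIrrCharacter.isCharacter isIrrCharacter_one, rfl⟩
    have e2 : ∀ g, (B g - 1) = ((tRe (RM (idx g)) * tRe (RM (idx g)) - qRe (RM (idx g)) - 2 : ℤ) : ℂ) / 2 := by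
      intro g
      rw [hBe, ht, hs]
      push_cast
      ring
    have e3 : ∀ g, (B g - 1) * conj (B g - 1) = ((fC (idx g) : ℤ) : ℂ) / 4 := by
      intro g
      rw [e2, map_div₀, map_intCast, fC_eq]
      simp only [map_ofNat]
      push_cast
      ring
    have hnorm : classInner (fun g => B g - 1) (fun g => B g - 1) = 1 := by
      rw [classInner]
      simp only [e3]
      rw [← Finset.sum_div, hsum, hD, hc]
      norm_num
    obtain ⟨a, ha | ha⟩ := eq_irr_of_norm_one hθ hnorm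
    · rw [ha]
      exact a.2
    · exfalso
      have h14 : B 1 - 1 = 14 := by
        rw [hBe]
        simp only [hone, hone2]
        norm_num
      have h2 := congrFun ha 1
      simp only [Pi.neg_apply] at h2
      rw [h14, apply_one_eq_charDegree (IsIrrCharacter.isCharacter a.2)] at h2
      have h3 := congrArg Complex.re h2
      simp only [Complex.neg_re, Complex.natCast_re] at h3
      have h4 : (0 : ℝ) ≤ (charDegree a.1 : ℝ) := Nat.cast_nonneg _
      norm_num at h3
      linarith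
  · show B 1 - 1 = 14
    rw [hBe]
    simp only [hone, hone2]
    norm_num
  · apply isIrrCharacter_of_classInner_self hAc
    have e2 : ∀ g, A g = ((tRe (RM (idx g)) * tRe (RM (idx g)) + qRe (RM (idx g)) : ℤ) : ℂ) / 2 := by
      intro g
      rw [hAe, ht, hs]
      push_cast
      ring
    have e3 : ∀ g, A g * conj (A g) = ((fB (idx g) : ℤ) : ℂ) / 4 := by
      intro g
      rw [e2, map_div₀, map_intCast, fB_eq]
      simp only [map_ofNat]
      push_cast
      ring
    rw [classInner]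
    simp only [e3]
    rw [← Finset.sum_div, hsum, hB, hc]
    norm_num
  · rw [hAe]
    simp only [hone, hone2]
    norm_num

end Abstract

end Cfsg.Agent.Lib.Components.U33
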