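import Cfsg.Agent.Lib.Components.U33Kit
import Cfsg.Agent.Lib.KnownSimple.LabKit

/-! A part of the check of the representing matrices. -/

set_option autoImplicit false
set_option maxRecDepth 100000

namespace Cfsg.Agent.Lib.Components.U33

/-- The check on the indices from 3024 on. -/
theorem chkR_part3 : Cfsg.Agent.Lib.KnownSimple.Lab.allI chkR 3024 1512 = true := by decide +kernel

end Cfsg.Agent.Lib.Components.U33
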