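import Cfsg.Agent.Lib.Components.U33KitS

/-! Sums of the traces. -/

set_option autoImplicit false
set_option maxRecDepth 100000

namespace Cfsg.Agent.Lib.Components.U33

theorem sumB_val : sumB (cutN fB) 0 13 = 24192 := by decide +kernel

end Cfsg.Agent.Lib.Components.U33
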