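import Cfsg.Agent.Lib.Components.U33Abs

/-! The group `SU₃(3)`: labelling its elements by the tables. -/

set_option autoImplicit false
set_option maxRecDepth 100000

namespace Cfsg.Agent.Lib.Components.U33

open Cfsg Cfsg.Agent.Lib.Char Cfsg.Agent.Lib.KnownSimple.Lab Cfsg.Agent.Lib.KnownSimple.LabMat
open Cfsg.Agent.Lib.KnownSimple.LabField Cfsg.Agent.Lib.KnownSimple.LabVec Cfsg.Agent.Lib.KnownSimple.LabSU

theorem c_RL : ∀ p ∈ RL, uvOK add9 mul9 fr 3 p.1 p.2 = true := by decide +kernel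

theorem c_LW : ∀ a < 2, (∀ c ∈ LW a, c < RL.length) ∧
    wordC add9 mul9 3 (rootL add9 mul9 fr 3 RL) (LW a) = Ls.getD a [] := by decide +kernel

theorem c_id : cd i0 = idC 3 := by decide +kernel

theorem digits_inj {F : Type*} [Field F] (R : Rep F 9 add9 mul9) {x y : ℕ} (hx : x < 387420489)
    (hy : y < 387420489) (h : toM R.φ 3 (dgC 9 9 x) = toM R.φ 3 (dgC 9 9 y)) : x = y := by
  have hd : ∀ l < 9, x / 9 ^ l % 9 = y / 9 ^ l % 9 := by
    intro l hl
    have h1 := congrFun (congrFun h ⟨l / 3, by omega⟩) ⟨l % 3, by omega⟩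
    simp only [toM, Matrix.of_apply] at h1
    have h2 : l / 3 * 3 + l % 3 = l := Nat.div_add_mod' l 3
    rw [h2, dgC, dgC, getD_range_map' _ hl, getD_range_map' _ hl] at h1
    exact R.hinj _ _ (Nat.mod_lt _ (by norm_num)) (Nat.mod_lt _ (by norm_num)) h1
  have d0 := hd 0 (by norm_num)
  have d1 := hd 1 (by norm_num)
  have d2 := hd 2 (by norm_num)
  have d3 := hd 3 (by norm_num)
  have d4 := hd 4 (by norm_num)
  have d5 := hd 5 (by norm_num)
  have d6 := hd 6 (by norm_num)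
  have d7 := hd 7 (by norm_num)
  have d8 := hd 8 (by norm_num)
  norm_num at d0 d1 d2 d3 d4 d5 d6 d7 d8
  omega

theorem enc_mono (hC : ∀ i < N, chkC i = true) : ∀ j i, i < j → j < N → enc i < enc j := by
  intro j
  induction j with
  | zero => intro i hi; omega
  | succ j ih =>
    intro i hi hj
    obtain ⟨-, -, -, -, -, h, -⟩ := chkC_spec (hC j (by omega))
    have h1 : enc j < enc (j + 1) := by
      rcases h with h | h
      · omega
      · exact h
    rcases Nat.lt_succ_iff_lt_or_eq.mp hi with h2 | rfl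
    · exact (ih i h2 (by omega)).trans h1
    · exact h1

theorem enc_inj (hC : ∀ i < N, chkC i = true) {i j : ℕ} (hi : i < N) (hj : j < N)
    (h : enc i = enc j) : i = j := by
  rcases Nat.lt_trichotomy i j with h1 | h1 | h1
  · have := enc_mono hC j i h1 hj
    omega
  · exact h1
  · have := enc_mono hC i j h1 hi
    omega

section SU

variable {F : Type*} [Field F] [Fintype F] (hF' : Fintype.card F = 3 ^ 2) (R : Rep F 9 add9 mul9)

theorem hfr (c : ℕ) : R.φ (fr c) = R.φ c ^ 3 := by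
  simp only [fr, R.hmul]
  ring

/-- The generators of the group. -/
noncomputable def gam (k : ℕ) : Cfsg.SU 3 F 3 := suLetter hF' R.φ RL LW k

theorem gam_val {k : ℕ} (hk : k < 2) :
    suHom 3 F 3 (gam hF' R k) = toM R.φ 3 (Ls.getD k []) := by
  have h := suLetter_val R (hfr R) hF' c_RL (LW := LW) (a := k) (c_LW k hk).1
  rw [(c_LW k hk).2] at h
  exact h

theorem step (hC : ∀ i < N, chkC i = true) {k : ℕ} (hk : k < 2) {j : ℕ} (hj : j < N) :
    suHom 3 F 3 (gam hF' R k) * toM R.φ 3 (cd j) = toM R.φ 3 (cd (nx k j)) := by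
  rw [gam_val hF' R hk]
  obtain ⟨-, -, h0, h1, -⟩ := chkC_spec (hC j hj)
  interval_cases k
  · show toM R.φ 3 L0 * _ = _
    rw [← h0, toM_mulC R.hadd R.hmul R.h0]
  · show toM R.φ 3 L1 * _ = _
    rw [← h1, toM_mulC R.hadd R.hmul R.h0]

include hF' in
theorem exists_lab (hC : ∀ i < N, chkC i = true) :
    ∀ i < N, ∃ g : Cfsg.SU 3 F 3, suHom 3 F 3 g = toM R.φ 3 (cd i) := by
  apply tree_ind hC
  · refine ⟨1, ?_⟩
    rw [map_one, c_id, toM_idC R.h0 R.h1]
  · rintro j hj k hk ⟨g, hg⟩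
    refine ⟨gam hF' R k * g, ?_⟩
    rw [map_mul, hg, step hF' R hC hk hj]

include hF' in
theorem card_su33 : Nat.card (Cfsg.SU 3 F 3) = 6048 := by
  have h := Cfsg.Agent.Lib.Classical.card_su (n := 3) hF' (by norm_num)
  norm_num [Finset.prod_range_succ, Nat.even_iff] at h
  omega

include hF' R in
theorem su_irr (hC : ∀ i < N, chkC i = true) (hR : ∀ i < N, chkR i = true)
    (hT : ∀ i < N, chkT i = true)
    (hA : sumB (cutN fA) 0 13 = 6048) (hB : sumB (cutN fB) 0 13 = 24192)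
    (hD : sumB (cutN fC) 0 13 = 24192) :
    ∃ (_ : Fintype (Cfsg.SU 3 F 3)) (a b c : Cfsg.SU 3 F 3 → ℂ), IsIrrCharacter (Cfsg.SU 3 F 3) a ∧ a 1 = 6 ∧
      IsIrrCharacter (Cfsg.SU 3 F 3) b ∧ b 1 = 14 ∧ IsIrrCharacter (Cfsg.SU 3 F 3) c ∧ c 1 = 21 := by
  classical
  have hcard := card_su33 (F := F) hF'
  have hfin : Finite (Cfsg.SU 3 F 3) := Nat.finite_of_card_ne_zero (by rw [hcard]; norm_num)
  let hft : Fintype (Cfsg.SU 3 F 3) := Fintype.ofFinite _
  refine ⟨hft, ?_⟩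
  have hlab : ∀ i : ℕ, ∃ g : Cfsg.SU 3 F 3, i < N → suHom 3 F 3 g = toM R.φ 3 (cd i) := by
    intro i
    by_cases hi : i < N
    · obtain ⟨g, hg⟩ := exists_lab hF' R hC i hi
      exact ⟨g, fun _ => hg⟩
    · exact ⟨1, fun h => absurd h hi⟩
  choose e he using hlab
  have hinj : Function.Injective (fun i : Fin N => e i) := by
    intro i j hij
    have h1 : toM R.φ 3 (cd i) = toM R.φ 3 (cd j) := by
      rw [← he i i.2, ← he j j.2]
      exact congrArg _ hij
    obtain ⟨-, -, -, -, h2, -⟩ := chkC_spec (hC i i.2)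
    obtain ⟨-, -, -, -, h3, -⟩ := chkC_spec (hC j j.2)
    exact Fin.ext (enc_inj hC i.2 j.2 (digits_inj R h2 h3 h1))
  have hbij : Function.Bijective (fun i : Fin N => e i) := by
    rw [Fintype.bijective_iff_injective_and_card]
    refine ⟨hinj, ?_⟩
    rw [Fintype.card_fin, ← Nat.card_eq_fintype_card, hcard]
    rfl
  choose idf hidf using hbij.2
  let idx : Cfsg.SU 3 F 3 → ℕ := fun g => (idf g : ℕ)
  have hidx : ∀ i < N, idx (e i) = i := by
    intro i hi
    have h1 := hinj (a₁ := idf (e i)) (a₂ := ⟨i, hi⟩) (hidf (e i))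
    show ((idf (e i) : Fin N) : ℕ) = i
    rw [h1]
  have hidx' : ∀ g, idx g < N ∧ e (idx g) = g := fun g => ⟨(idf g).2, hidf g⟩
  have he0 : e i0 = 1 := by
    apply suHom_inj
    rw [he i0 (by decide), map_one, c_id, toM_idC R.h0 R.h1]
  have hγ : ∀ k < 2, ∀ i < N, gam hF' R k * e i = e (nx k i) := by
    intro k hk i hi
    apply suHom_inj
    rw [map_mul, he i hi, step hF' R hC hk hi, he _ (nx_lt hk (hC i hi))]
  exact abstract_main e idx (gam hF' R) hidx hidx' hC hR he0 hγ hcard hbij hT hA hB hD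

end SU

/-- Irreducible characters of degrees `6`, `14` and `21` of `PSU₃(3)`. -/
theorem psu_irr {F : Type*} [Field F] [Fintype F] (hF : Fintype.card F = 9)
    (hC : ∀ i < N, chkC i = true) (hR : ∀ i < N, chkR i = true)
    (hT : ∀ i < N, chkT i = true)
    (hA : sumB (cutN fA) 0 13 = 6048) (hB : sumB (cutN fB) 0 13 = 24192)
    (hD : sumB (cutN fC) 0 13 = 24192) :
    ∃ a b c : Cfsg.PSU 3 F 3 → ℂ, IsIrrCharacter (Cfsg.PSU 3 F 3) a ∧ a 1 = 6 ∧
      IsIrrCharacter (Cfsg.PSU 3 F 3) b ∧ b 1 = 14 ∧ IsIrrCharacter (Cfsg.PSU 3 F 3) c ∧ c 1 = 21 := by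
  classical
  have hF' : Fintype.card F = 3 ^ 2 := by rw [hF]; norm_num
  obtain ⟨R⟩ := exists_rep9 hF
  obtain ⟨hft, a, b, c, ha, ha1, hb, hb1, hc, hc1⟩ := su_irr hF' R hC hR hT hA hB hD
  have hz : Subgroup.center (Cfsg.SU 3 F 3) = ⊥ := by
    apply Subgroup.eq_bot_of_card_eq
    rw [Cfsg.Agent.Lib.Classical.card_center_su hF' (by norm_num)]
    norm_num
  let π : Cfsg.SU 3 F 3 →* Cfsg.PSU 3 F 3 := QuotientGroup.mk' _
  have hbij : Function.Bijective π := by
    refine ⟨?_, QuotientGroup.mk'_surjective _⟩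
    rw [← MonoidHom.ker_eq_bot_iff, QuotientGroup.ker_mk', hz]
  let E : Cfsg.SU 3 F 3 ≃* Cfsg.PSU 3 F 3 := MulEquiv.ofBijective π hbij
  let hfp : Fintype (Cfsg.PSU 3 F 3) := Fintype.ofEquiv _ E.toEquiv
  refine ⟨a ∘ E.symm, b ∘ E.symm, c ∘ E.symm, isIrrCharacter_comp_mulEquiv E.symm ha, ?_,
    isIrrCharacter_comp_mulEquiv E.symm hb, ?_, isIrrCharacter_comp_mulEquiv E.symm hc, ?_⟩
  · simp [ha1]
  · simp [hb1]
  · simp [hc1]

end Cfsg.Agent.Lib.Components.U33
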