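import Cfsg.Agent.Lib.Char.Coherent
import Cfsg.Agent.Lib.Char.PermChar
import Cfsg.Agent.Lib.Char.DirectProduct
import Cfsg.Agent.Lib.Char.Burnside
import Cfsg.Agent.Lib.Char.Degree
import Cfsg.Prelude.Def_DegreeGraph

/-! A solvable group of order `6048` with an irreducible character of degree `42`. -/

set_option autoImplicit false
set_option maxRecDepth 100000

namespace Cfsg.Agent.Lib.Components.U33H

open Cfsg Cfsg.Agent.Lib.Char MulAction
open scoped ComplexConjugate

universe u v w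

/-- A difference of two permutation characters of norm one. -/
theorem exists_irr_of_two_actions {K : Type u} {X : Type v} {Y : Type w} [Group K] [Fintype K]
    [MulAction K X] [MulAction K Y] [Finite X] [Finite Y] (d : ℕ) (hd : 0 < d)
    (hdeg : Nat.card X = Nat.card Y + d)
    (h : ∑ g : K, (((Nat.card (fixedBy X g) : ℕ) : ℤ) - ((Nat.card (fixedBy Y g) : ℕ) : ℤ)) ^ 2 =
      ((Nat.card K : ℕ) : ℤ)) :
    ∃ χ : K → ℂ, IsIrrCharacter K χ ∧ χ 1 = d := by
  set θ : K → ℂ := fun g => (Nat.card (fixedBy X g) : ℂ) - (Nat.card (fixedBy Y g) : ℂ) with hθ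
  have hgen : IsGeneralizedCharacter K θ := ⟨_, _, isCharacter_permChar, isCharacter_permChar, rfl⟩
  have hnorm : classInner θ θ = 1 := by
    have hne : ((Nat.card K : ℕ) : ℂ) ≠ 0 := Nat.cast_ne_zero.mpr Nat.card_pos.ne'
    rw [classInner]
    have e : ∀ g, θ g * conj (θ g) =
        (((((Nat.card (fixedBy X g) : ℕ) : ℤ) - ((Nat.card (fixedBy Y g) : ℕ) : ℤ)) ^ 2 : ℤ) : ℂ) := by
      intro g
      simp only [hθ, map_sub, map_natCast]
      push_cast
      ring
    simp only [e]
    rw [← Int.cast_sum, h]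
    push_cast
    exact inv_mul_cancel₀ hne
  have h1 : θ 1 = d := by
    simp only [hθ]
    have hX : Nat.card (fixedBy X (1 : K)) = Nat.card X := by
      rw [fixedBy_one_eq_univ]
      exact Nat.card_univ
    have hY : Nat.card (fixedBy Y (1 : K)) = Nat.card Y := by
      rw [fixedBy_one_eq_univ]
      exact Nat.card_univ
    rw [hX, hY, hdeg]
    push_cast
    ring
  obtain ⟨a, ha | ha⟩ := eq_irr_of_norm_one hgen hnorm
  · refine ⟨a, a.2, ?_⟩
    rw [← ha, h1]
  · exfalso
    have h2 := congrFun ha 1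
    simp only [Pi.neg_apply] at h2
    rw [h1, apply_one_eq_charDegree (IsIrrCharacter.isCharacter a.2)] at h2
    have h3 := congrArg Complex.re h2
    simp only [Complex.neg_re, Complex.natCast_re] at h3
    have h4 : (0 : ℝ) ≤ (charDegree a.1 : ℝ) := Nat.cast_nonneg _
    have h5 : (0 : ℝ) < (d : ℝ) := by exact_mod_cast hd
    linarith

/-! ### The group of order 108 -/

/-- The sign. -/
def sg : Bool → ZMod 3
  | false => 1
  | true => -1

theorem sg_xor (a b : Bool) : sg (xor a b) = sg a * sg b := by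
  revert a b
  decide

theorem sg_sq (a : Bool) : sg a * sg a = 1 := by
  revert a
  decide

/-- Triangular affine maps of the plane over the field with three elements. -/
def K2 : Type := Bool × ZMod 3 × Bool × ZMod 3 × ZMod 3

instance : Fintype K2 := inferInstanceAs (Fintype (Bool × ZMod 3 × Bool × ZMod 3 × ZMod 3))
instance : DecidableEq K2 := inferInstanceAs (DecidableEq (Bool × ZMod 3 × Bool × ZMod 3 × ZMod 3))

@[ext] theorem K2.ext {x y : K2} (h1 : x.1 = y.1) (h2 : x.2.1 = y.2.1) (h3 : x.2.2.1 = y.2.2.1)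
    (h4 : x.2.2.2.1 = y.2.2.2.1) (h5 : x.2.2.2.2 = y.2.2.2.2) : x = y :=
  Prod.ext h1 (Prod.ext h2 (Prod.ext h3 (Prod.ext h4 h5)))

/-- The product of two maps. -/
def K2.mul (x y : K2) : K2 :=
  (xor x.1 y.1, sg x.1 * y.2.1 + x.2.1, xor x.2.2.1 y.2.2.1,
    sg x.2.2.1 * y.2.2.2.1 + x.2.2.2.1 * sg y.1,
    sg x.2.2.1 * y.2.2.2.2 + x.2.2.2.1 * y.2.1 + x.2.2.2.2)

/-- The inverse of a map. -/
def K2.inv (x : K2) : K2 :=
  (x.1, -(sg x.1 * x.2.1), x.2.2.1, -(sg x.2.2.1 * x.2.2.2.1 * sg x.1),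
    -(sg x.2.2.1 * (x.2.2.2.1 * -(sg x.1 * x.2.1) + x.2.2.2.2)))

/-- The identity. -/
def K2.e : K2 := (false, 0, false, 0, 0)

instance : Mul K2 := ⟨K2.mul⟩
instance : One K2 := ⟨K2.e⟩
instance : Inv K2 := ⟨K2.inv⟩

theorem K2.mul_def (x y : K2) : x * y = K2.mul x y := rfl
theorem K2.one_def : (1 : K2) = K2.e := rfl

theorem K2.e_mul : ∀ x : K2, K2.mul K2.e x = x := by decide +kernel
theorem K2.inv_mul : ∀ x : K2, K2.mul (K2.inv x) x = K2.e := by decide +kernel

instance : Group K2 := Group.ofLeftAxioms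
  (by
    intro x y z
    change K2.mul (K2.mul x y) z = K2.mul x (K2.mul y z)
    apply K2.ext
    · exact Bool.xor_assoc _ _ _
    · simp only [K2.mul, sg_xor]; ring
    · exact Bool.xor_assoc _ _ _
    · simp only [K2.mul, sg_xor]; ring
    · simp only [K2.mul, sg_xor]; ring)
  K2.e_mul K2.inv_mul

theorem K2_card : Nat.card K2 = 108 := by
  rw [Nat.card_eq_fintype_card]
  rfl

/-- The plane on which the group acts. -/
abbrev X2 : Type := ZMod 3 × ZMod 3

/-- The action on the plane. -/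
def K2.actX (g : K2) (p : X2) : X2 :=
  (sg g.1 * p.1 + g.2.1, sg g.2.2.1 * p.2 + g.2.2.2.1 * p.1 + g.2.2.2.2)

theorem K2.actX_one : ∀ p : X2, K2.actX K2.e p = p := by decide +kernel

instance : MulAction K2 X2 where
  smul := K2.actX
  one_smul := K2.actX_one
  mul_smul g h p := by
    change K2.actX (K2.mul g h) p = K2.actX g (K2.actX h p)
    refine Prod.ext ?_ ?_
    · simp only [K2.actX, K2.mul, sg_xor]; ring
    · simp only [K2.actX, K2.mul, sg_xor]; ring

/-- The line on which the group acts. -/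
def Y2 : Type := ZMod 3

instance : Fintype Y2 := inferInstanceAs (Fintype (ZMod 3))
instance : DecidableEq Y2 := inferInstanceAs (DecidableEq (ZMod 3))

/-- The action on the line. -/
def K2.actY (g : K2) (p : ZMod 3) : ZMod 3 := sg g.1 * p + g.2.1

theorem K2.actY_one : ∀ p : ZMod 3, K2.actY K2.e p = p := by decide +kernel

instance : MulAction K2 Y2 where
  smul := K2.actY
  one_smul := K2.actY_one
  mul_smul g h p := by
    have key : ∀ p : ZMod 3, K2.actY (K2.mul g h) p = K2.actY g (K2.actY h p) := by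
      intro p
      simp only [K2.actY, K2.mul, sg_xor]
      ring
    exact key p

theorem fix_count {K X : Type} [Group K] [MulAction K X] [Fintype X] [DecidableEq X] (g : K) :
    Nat.card (fixedBy X g) = (Finset.univ.filter (fun x : X => g • x = x)).card :=
  Nat.subtype_card _ (fun x => by simp [mem_fixedBy])

theorem K2_sum : ∑ g : K2, (((Finset.univ.filter (fun x : X2 => g • x = x)).card : ℤ) -
    ((Finset.univ.filter (fun x : Y2 => g • x = x)).card : ℤ)) ^ 2 = 108 := by
  decide +kernel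

theorem K2_irr : ∃ χ : K2 → ℂ, IsIrrCharacter K2 χ ∧ χ 1 = (6 : ℕ) := by
  apply exists_irr_of_two_actions (X := X2) (Y := Y2) 6 (by norm_num)
  · rw [Nat.card_eq_fintype_card, Nat.card_eq_fintype_card]
    rfl
  · simp only [fix_count]
    rw [K2_sum, K2_card]
    rfl

theorem K2_solvable : Group.IsSolvable K2 :=
  isSolvable_of_card_eq_aux Nat.prime_two Nat.prime_three _ K2 rfl ⟨2, 3, by rw [K2_card]; norm_num⟩

/-! ### The group of order 56 -/

/-- Addition in the field with eight elements. -/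
def xr (a b : Fin 8) : Fin 8 := ⟨Nat.xor a b % 8, Nat.mod_lt _ (by norm_num)⟩

/-- Multiplication by a generator in the field with eight elements. -/
def mulA : Fin 8 → Fin 8 := ![0, 2, 4, 6, 3, 1, 7, 5]

/-- Multiplication by a power of the generator. -/
def rt (k : Fin 7) (a : Fin 8) : Fin 8 := mulA^[k.val] a

theorem xr_assoc : ∀ a b c : Fin 8, xr (xr a b) c = xr a (xr b c) := by decide +kernel
theorem xr_zero : ∀ a : Fin 8, xr 0 a = a := by decide +kernel
theorem xr_self : ∀ a : Fin 8, xr a a = 0 := by decide +kernel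
theorem rt_xr : ∀ (k : Fin 7) (a b : Fin 8), rt k (xr a b) = xr (rt k a) (rt k b) := by decide +kernel
theorem rt_add : ∀ (k l : Fin 7) (a : Fin 8), rt (k + l) a = rt k (rt l a) := by decide +kernel
theorem rt_zero : ∀ a : Fin 8, rt 0 a = a := by decide +kernel

/-- The affine group of the field with eight elements, less the field automorphisms. -/
def K1 : Type := Fin 8 × Fin 7

instance : Fintype K1 := inferInstanceAs (Fintype (Fin 8 × Fin 7))
instance : DecidableEq K1 := inferInstanceAs (DecidableEq (Fin 8 × Fin 7))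

/-- The product. -/
def K1.mul (x y : K1) : K1 := (xr x.1 (rt x.2 y.1), x.2 + y.2)

instance : Mul K1 := ⟨K1.mul⟩
instance : One K1 := ⟨(0, 0)⟩
instance : Inv K1 := ⟨fun x => (rt (-x.2) x.1, -x.2)⟩

instance : Group K1 := Group.ofLeftAxioms
  (by
    intro x y z
    refine Prod.ext ?_ ?_
    · change xr (xr x.1 (rt x.2 y.1)) (rt (x.2 + y.2) z.1) = xr x.1 (rt x.2 (xr y.1 (rt y.2 z.1)))
      rw [xr_assoc, rt_xr, rt_add]
    · exact add_assoc _ _ _)
  (by
    intro x
    refine Prod.ext ?_ ?_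
    · change xr 0 (rt 0 x.1) = x.1
      rw [rt_zero, xr_zero]
    · exact zero_add _)
  (by
    intro x
    refine Prod.ext ?_ ?_
    · change xr (rt (-x.2) x.1) (rt (-x.2) x.1) = 0
      rw [xr_self]
    · exact neg_add_cancel _)

theorem K1_card : Nat.card K1 = 56 := by
  rw [Nat.card_eq_fintype_card]
  rfl

instance : MulAction K1 (Fin 8) where
  smul g x := xr g.1 (rt g.2 x)
  one_smul x := by
    change xr 0 (rt 0 x) = x
    rw [rt_zero, xr_zero]
  mul_smul g h x := by
    change xr (xr g.1 (rt g.2 h.1)) (rt (g.2 + h.2) x) = xr g.1 (rt g.2 (xr h.1 (rt h.2 x)))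
    rw [xr_assoc, rt_xr, rt_add]

theorem K1_sum : ∑ g : K1, (((Finset.univ.filter (fun x : Fin 8 => g • x = x)).card : ℤ) - 1) ^ 2 = 56 := by
  decide +kernel

theorem K1_irr : ∃ χ : K1 → ℂ, IsIrrCharacter K1 χ ∧ χ 1 = (7 : ℕ) := by
  apply exists_irr_of_two_actions (X := Fin 8) (Y := Unit) 7 (by norm_num)
  · simp
  · have h1 : ∀ g : K1, Nat.card (fixedBy Unit g) = 1 := by
      intro g
      rw [fix_count]
      rfl
    simp only [fix_count, h1]
    have h2 := K1_sum
    rw [K1_card]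
    exact_mod_cast h2

theorem K1_solvable : Group.IsSolvable K1 :=
  isSolvable_of_card_eq_aux Nat.prime_two (p := 2) (q := 7) (by norm_num) _ K1 rfl
    ⟨3, 1, by rw [K1_card]; norm_num⟩

/-- The solvable group. -/
abbrev HH : Type := K1 × K2

theorem HH_card : Nat.card HH = 6048 := by
  rw [Nat.card_prod, K1_card, K2_card]

theorem HH_solvable : Group.IsSolvable HH := by
  have := K1_solvable
  have := K2_solvable
  infer_instance

theorem HH_irr : ∃ χ : HH → ℂ, IsIrrCharacter HH χ ∧ χ 1 = (42 : ℕ) := by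
  obtain ⟨a, ha, ha1⟩ := K1_irr
  obtain ⟨b, hb, hb1⟩ := K2_irr
  refine ⟨prodFun a b, isIrrCharacter_prodFun ha hb, ?_⟩
  change a 1 * b 1 = _
  rw [ha1, hb1]
  norm_num

/-! ### The degree graph -/

/-- The degree graph of a group of order `6048`, with all three joins. -/
theorem degree_data {X : Type*} [Group X] (hc : Nat.card X = 6048)
    (h23 : ∃ d ∈ charDegrees X, 2 * 3 ∣ d) (h27 : ∃ d ∈ charDegrees X, 2 * 7 ∣ d)
    (h37 : ∃ d ∈ charDegrees X, 3 * 7 ∣ d) :
    degreePrimes X = {2, 3, 7} ∧ ∀ p q, (degreeGraph X).Adj p q ↔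
      p ≠ q ∧ p ∈ ({2, 3, 7} : Set ℕ) ∧ q ∈ ({2, 3, 7} : Set ℕ) := by
  have hfin : Finite X := Nat.finite_of_card_ne_zero (by rw [hc]; norm_num)
  let _ : Fintype X := Fintype.ofFinite X
  have hp : ∀ p : ℕ, p.Prime → (∃ d ∈ charDegrees X, p ∣ d) → p = 2 ∨ p = 3 ∨ p = 7 := by
    rintro p hp ⟨d, ⟨χ, rfl⟩, hd⟩
    have h1 : p ∣ 6048 := by
      rw [← hc]
      exact hd.trans (charDegree_dvd_card χ.2)
    have h2 : (6048 : ℕ) = 2 ^ 5 * (3 ^ 3 * 7) := by norm_num
    rw [h2] at h1
    rcases (Nat.Prime.dvd_mul hp).mp h1 with h3 | h3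
    · exact Or.inl ((Nat.prime_dvd_prime_iff_eq hp Nat.prime_two).mp (hp.dvd_of_dvd_pow h3))
    · rcases (Nat.Prime.dvd_mul hp).mp h3 with h4 | h4
      · exact Or.inr (Or.inl ((Nat.prime_dvd_prime_iff_eq hp Nat.prime_three).mp (hp.dvd_of_dvd_pow h4)))
      · exact Or.inr (Or.inr ((Nat.prime_dvd_prime_iff_eq hp (by norm_num)).mp h4))
  have h2' : ∃ d ∈ charDegrees X, 2 ∣ d := by
    obtain ⟨d, hd, h⟩ := h23
    exact ⟨d, hd, (Dvd.intro _ rfl).trans h⟩
  have h3' : ∃ d ∈ charDegrees X, 3 ∣ d := by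
    obtain ⟨d, hd, h⟩ := h37
    exact ⟨d, hd, (Dvd.intro _ rfl).trans h⟩
  have h7' : ∃ d ∈ charDegrees X, 7 ∣ d := by
    obtain ⟨d, hd, h⟩ := h37
    exact ⟨d, hd, (Dvd.intro_left _ rfl).trans h⟩
  constructor
  · ext p
    simp only [degreePrimes, Set.mem_ofPred_eq, Set.mem_insert_iff, Set.mem_singleton_iff]
    constructor
    · rintro ⟨h1, h2⟩
      exact hp p h1 h2
    · rintro (rfl | rfl | rfl)
      · exact ⟨by norm_num, h2'⟩
      · exact ⟨by norm_num, h3'⟩
      · exact ⟨by norm_num, h7'⟩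
  · intro p q
    simp only [degreeGraph, Set.mem_insert_iff, Set.mem_singleton_iff]
    constructor
    · rintro ⟨h1, h2, h3, d, hd, h4⟩
      refine ⟨h1, hp p h2 ⟨d, hd, (Dvd.intro _ rfl).trans h4⟩, hp q h3 ⟨d, hd, (Dvd.intro_left _ rfl).trans h4⟩⟩
    · rintro ⟨h1, (rfl | rfl | rfl), (rfl | rfl | rfl)⟩
      · exact absurd rfl h1
      · exact ⟨h1, by norm_num, by norm_num, h23⟩
      · exact ⟨h1, by norm_num, by norm_num, h27⟩
      · obtain ⟨d, hd, h⟩ := h23
        exact ⟨h1, by norm_num, by norm_num, d, hd, by rwa [mul_comm]⟩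
      · exact absurd rfl h1
      · exact ⟨h1, by norm_num, by norm_num, h37⟩
      · obtain ⟨d, hd, h⟩ := h27
        exact ⟨h1, by norm_num, by norm_num, d, hd, by rwa [mul_comm]⟩
      · obtain ⟨d, hd, h⟩ := h37
        exact ⟨h1, by norm_num, by norm_num, d, hd, by rwa [mul_comm]⟩
      · exact absurd rfl h1

end Cfsg.Agent.Lib.Components.U33H
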