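import Cfsg.Agent.Lib.Components.U33Kit
import Cfsg.Agent.Lib.KnownSimple.LabKit

/-! The sums over the group of the traces. -/

set_option autoImplicit false
set_option maxRecDepth 100000

namespace Cfsg.Agent.Lib.Components.U33

/-- Forcing a number before using it. -/
def frcZ (n : ℕ) (f : ℕ → ℤ) : ℤ := Nat.rec (f 0) (fun k _ => f (k + 1)) n

theorem frcZ_eq (n : ℕ) (f : ℕ → ℤ) : frcZ n f = f n := by
  cases n <;> rfl

/-- Forcing an integer before using it. -/
noncomputable def frcI (x : ℤ) (f : ℤ → ℤ) : ℤ :=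
  Int.rec (fun n => frcZ n fun m => f (Int.ofNat m)) (fun n => frcZ n fun m => f (Int.negSucc m)) x

theorem frcI_eq (x : ℤ) (f : ℤ → ℤ) : frcI x f = f x := by
  cases x <;> simp [frcI, frcZ_eq]

/-- The real part of a trace. -/
def tRe (c : ℕ) : ℤ := s6 fun a => eRe c a a
/-- The imaginary part of a trace. -/
def tIm (c : ℕ) : ℤ := s6 fun a => eIm c a a
/-- The real part of the trace of a square. -/
def qRe (c : ℕ) : ℤ := s6 fun a => mRe c c a a
/-- The imaginary part of the trace of a square. -/
def qIm (c : ℕ) : ℤ := s6 fun a => mIm c c a a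

/-- The traces are real. -/
def chkT (i : ℕ) : Bool :=
  frc (RM i) fun b => decide (tIm b = 0) && decide (qIm b = 0)

/-- A sum by halves. -/
def sumB (f : ℕ → ℤ) (lo : ℕ) : ℕ → ℤ
  | 0 => f lo
  | k + 1 => sumB f lo k + sumB f (lo + 2 ^ k) k

theorem sumB_eq (f : ℕ → ℤ) (k lo : ℕ) : sumB f lo k = ∑ i ∈ Finset.range (2 ^ k), f (lo + i) := by
  induction k generalizing lo with
  | zero => simp [sumB]
  | succ k ih =>
    rw [sumB, ih, ih, pow_succ, mul_two, Finset.sum_range_add]
    simp only [add_assoc]

/-- Cutting off at the order of the group. -/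
def cutN (f : ℕ → ℤ) (i : ℕ) : ℤ := bif Nat.blt i N then f i else 0

theorem sum_cutN (f : ℕ → ℤ) : sumB (cutN f) 0 13 = ∑ i ∈ Finset.range N, f i := by
  rw [sumB_eq]
  have h : (2 : ℕ) ^ 13 = N + 2144 := by norm_num [N]
  rw [h, Finset.sum_range_add]
  have h1 : ∑ x ∈ Finset.range 2144, cutN f (0 + (N + x)) = 0 := by
    apply Finset.sum_eq_zero
    intro x _
    have h2 : Nat.blt (0 + (N + x)) N = false := by
      rw [zero_add]
      cases h3 : Nat.blt (N + x) N with
      | false => rfl
      | true =>
        have h4 : N + x + 1 ≤ N := Nat.le_of_ble_eq_true h3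
        omega
    rw [cutN, h2]
    rfl
  rw [h1, add_zero]
  apply Finset.sum_congr rfl
  intro x hx
  have hx' : x < N := Finset.mem_range.mp hx
  have h2 : Nat.blt (0 + x) N = true := by
    rw [zero_add]
    exact Nat.ble_eq_true_of_le hx'
  rw [cutN, h2, zero_add]
  rfl

/-- The square of the trace. -/
noncomputable def fA (i : ℕ) : ℤ := frcZ (RM i) fun b => frcI (tRe b) fun t => t * t
/-- The square of twice the symmetric square. -/
noncomputable def fB (i : ℕ) : ℤ :=
  frcZ (RM i) fun b => frcI (tRe b) fun t => frcI (qRe b) fun s => (t * t + s) * (t * t + s)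
/-- The square of twice the exterior square less the trivial character. -/
noncomputable def fC (i : ℕ) : ℤ :=
  frcZ (RM i) fun b => frcI (tRe b) fun t => frcI (qRe b) fun s => (t * t - s - 2) * (t * t - s - 2)

end Cfsg.Agent.Lib.Components.U33
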