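import Cfsg.Agent.Lib.Components.U33KitS

/-! Matrices over the Gaussian integers given by the codes of `U33Kit`. -/

set_option autoImplicit false
set_option maxRecDepth 100000

namespace Cfsg.Agent.Lib.Components.U33

/-- The matrix of a code. -/
noncomputable def Mx (c : ℕ) : Matrix (Fin 6) (Fin 6) ℂ :=
  Matrix.of fun a b => ((eRe c a b : ℤ) : ℂ) + ((eIm c a b : ℤ) : ℂ) * Complex.I

theorem s6_fin (f : ℕ → ℂ) : ∑ k : Fin 6, f k = f 0 + f 1 + f 2 + f 3 + f 4 + f 5 := by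
  rw [Fin.sum_univ_six]
  rfl

theorem Mx_mul_apply (A B : ℕ) (a b : Fin 6) :
    (Mx A * Mx B) a b = ((mRe A B a b : ℤ) : ℂ) + ((mIm A B a b : ℤ) : ℂ) * Complex.I := by
  rw [Matrix.mul_apply]
  have h := s6_fin (fun k => (((eRe A a k : ℤ) : ℂ) + ((eIm A a k : ℤ) : ℂ) * Complex.I) *
    (((eRe B k b : ℤ) : ℂ) + ((eIm B k b : ℤ) : ℂ) * Complex.I))
  simp only [Mx, Matrix.of_apply]
  rw [h]
  simp only [mRe, mIm, s6]
  push_cast
  linear_combination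
    (-(((eIm A a 0 : ℤ) : ℂ) * ((eIm B 0 b : ℤ) : ℂ) + ((eIm A a 1 : ℤ) : ℂ) * ((eIm B 1 b : ℤ) : ℂ) +
      ((eIm A a 2 : ℤ) : ℂ) * ((eIm B 2 b : ℤ) : ℂ) + ((eIm A a 3 : ℤ) : ℂ) * ((eIm B 3 b : ℤ) : ℂ) +
      ((eIm A a 4 : ℤ) : ℂ) * ((eIm B 4 b : ℤ) : ℂ) + ((eIm A a 5 : ℤ) : ℂ) * ((eIm B 5 b : ℤ) : ℂ))) * (-Complex.I_sq)

theorem Mx_trace (c : ℕ) :
    (Mx c).trace = ((tRe c : ℤ) : ℂ) + ((tIm c : ℤ) : ℂ) * Complex.I := by
  rw [Matrix.trace]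
  have h := s6_fin (fun k => ((eRe c k k : ℤ) : ℂ) + ((eIm c k k : ℤ) : ℂ) * Complex.I)
  simp only [Matrix.diag_apply, Mx, Matrix.of_apply]
  rw [h]
  simp only [tRe, tIm, s6]
  push_cast
  ring

theorem Mx_sq_trace (c : ℕ) :
    (Mx c * Mx c).trace = ((qRe c : ℤ) : ℂ) + ((qIm c : ℤ) : ℂ) * Complex.I := by
  rw [Matrix.trace]
  have h := s6_fin (fun k => ((mRe c c k k : ℤ) : ℂ) + ((mIm c c k k : ℤ) : ℂ) * Complex.I)
  simp only [Matrix.diag_apply, Mx_mul_apply]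
  rw [h]
  simp only [qRe, qIm, s6]
  push_cast
  ring

theorem lane_sum {w : ℕ} (hw : w < 2 ^ 48) :
    ((w : ℕ) : ℤ) - 2207646876162 = s6 fun b => (((lane w b : ℕ) : ℤ) - 2) * 256 ^ b := by
  simp only [s6, lane]
  norm_num at hw ⊢
  omega

theorem get_lt (T w i : ℕ) : get T w i < 2 ^ w := Nat.mod_lt _ (by positivity)

theorem PRe_eq (c a : ℕ) : PRe c a = s6 fun b => eRe c a b * 256 ^ b := by
  simpa [PRe, eRe, fR] using lane_sum (get_lt c 48 (2 * a))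

theorem PIm_eq (c a : ℕ) : PIm c a = s6 fun b => eIm c a b * 256 ^ b := by
  simpa [PIm, eIm, fI] using lane_sum (get_lt c 48 (2 * a + 1))

/-- The entries of a code lie between `-2` and `2`. -/
def Sm (c : ℕ) : Prop :=
  ∀ a < 6, ∀ b < 6, (-2 ≤ eRe c a b ∧ eRe c a b ≤ 2) ∧ (-2 ≤ eIm c a b ∧ eIm c a b ≤ 2)

theorem Sm_of_bnd {c : ℕ} (h : bnd c = true) : Sm c := by
  intro a ha b hb
  simp only [bnd, List.all_eq_true, List.mem_range, Bool.and_eq_true, Nat.blt_eq] at h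
  obtain ⟨h1, h2⟩ := h a ha b hb
  have h1' : lane (fR c a) b < 5 := h1
  have h2' : lane (fI c a) b < 5 := h2
  simp only [eRe, eIm]
  omega

theorem prod_bd {x y : ℤ} (hx : -2 ≤ x ∧ x ≤ 2) (hy : -2 ≤ y ∧ y ≤ 2) : -4 ≤ x * y ∧ x * y ≤ 4 := by
  obtain ⟨h1, h2⟩ := hx
  obtain ⟨h3, h4⟩ := hy
  constructor <;> nlinarith

theorem digit_zero {d0 d1 d2 d3 d4 d5 : ℤ} (h0 : -60 ≤ d0 ∧ d0 ≤ 60) (h1 : -60 ≤ d1 ∧ d1 ≤ 60)
    (h2 : -60 ≤ d2 ∧ d2 ≤ 60) (h3 : -60 ≤ d3 ∧ d3 ≤ 60) (h4 : -60 ≤ d4 ∧ d4 ≤ 60)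
    (h5 : -60 ≤ d5 ∧ d5 ≤ 60)
    (h : d0 + d1 * 256 + d2 * 65536 + d3 * 16777216 + d4 * 4294967296 + d5 * 1099511627776 = 0) :
    d0 = 0 ∧ d1 = 0 ∧ d2 = 0 ∧ d3 = 0 ∧ d4 = 0 ∧ d5 = 0 := by
  omega

theorem mRe_bd {A B : ℕ} (hA : Sm A) (hB : Sm B) {a b : ℕ} (ha : a < 6) (hb : b < 6) :
    -48 ≤ mRe A B a b ∧ mRe A B a b ≤ 48 := by
  have h : ∀ k < 6, -8 ≤ eRe A a k * eRe B k b - eIm A a k * eIm B k b ∧
      eRe A a k * eRe B k b - eIm A a k * eIm B k b ≤ 8 := by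
    intro k hk
    have h1 := prod_bd (hA a ha k hk).1 (hB k hk b hb).1
    have h2 := prod_bd (hA a ha k hk).2 (hB k hk b hb).2
    omega
  have h0 := h 0 (by norm_num)
  have h1 := h 1 (by norm_num)
  have h2 := h 2 (by norm_num)
  have h3 := h 3 (by norm_num)
  have h4 := h 4 (by norm_num)
  have h5 := h 5 (by norm_num)
  simp only [mRe, s6]
  omega

theorem mIm_bd {A B : ℕ} (hA : Sm A) (hB : Sm B) {a b : ℕ} (ha : a < 6) (hb : b < 6) :
    -48 ≤ mIm A B a b ∧ mIm A B a b ≤ 48 := by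
  have h : ∀ k < 6, -8 ≤ eRe A a k * eIm B k b + eIm A a k * eRe B k b ∧
      eRe A a k * eIm B k b + eIm A a k * eRe B k b ≤ 8 := by
    intro k hk
    have h1 := prod_bd (hA a ha k hk).1 (hB k hk b hb).2
    have h2 := prod_bd (hA a ha k hk).2 (hB k hk b hb).1
    omega
  have h0 := h 0 (by norm_num)
  have h1 := h 1 (by norm_num)
  have h2 := h 2 (by norm_num)
  have h3 := h 3 (by norm_num)
  have h4 := h 4 (by norm_num)
  have h5 := h 5 (by norm_num)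
  simp only [mIm, s6]
  omega

theorem mul_entries {g B C : ℕ} (hg : Sm g) (hB : Sm B) (hC : Sm C) (h : opOK g B C = true)
    {a b : ℕ} (ha : a < 6) (hb : b < 6) : mRe g B a b = eRe C a b ∧ mIm g B a b = eIm C a b := by
  simp only [opOK, List.all_eq_true, List.mem_range, Bool.and_eq_true, decide_eq_true_eq] at h
  obtain ⟨h1, h2⟩ := h a ha
  rw [PRe_eq] at h1
  rw [PIm_eq] at h2
  simp only [PRe_eq, PIm_eq] at h1 h2
  have hre : ∀ b < 6, -60 ≤ mRe g B a b - eRe C a b ∧ mRe g B a b - eRe C a b ≤ 60 := by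
    intro b hb
    have h3 := mRe_bd hg hB ha hb
    have h4 := (hC a ha b hb).1
    omega
  have him : ∀ b < 6, -60 ≤ mIm g B a b - eIm C a b ∧ mIm g B a b - eIm C a b ≤ 60 := by
    intro b hb
    have h3 := mIm_bd hg hB ha hb
    have h4 := (hC a ha b hb).2
    omega
  have hR := digit_zero (hre 0 (by norm_num)) (hre 1 (by norm_num)) (hre 2 (by norm_num))
    (hre 3 (by norm_num)) (hre 4 (by norm_num)) (hre 5 (by norm_num)) (by
      simp only [mRe, s6] at h1 ⊢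
      linear_combination h1)
  have hI := digit_zero (him 0 (by norm_num)) (him 1 (by norm_num)) (him 2 (by norm_num))
    (him 3 (by norm_num)) (him 4 (by norm_num)) (him 5 (by norm_num)) (by
      simp only [mIm, s6] at h2 ⊢
      linear_combination h2)
  obtain ⟨r0, r1, r2, r3, r4, r5⟩ := hR
  obtain ⟨i0, i1, i2, i3, i4, i5⟩ := hI
  interval_cases b
  · omega
  · omega
  · omega
  · omega
  · omega
  · omega

/-- The products read row by row are products of matrices. -/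
theorem Mx_mul_of_ok {g B C : ℕ} (hg : Sm g) (hB : Sm B) (hC : Sm C) (h : opOK g B C = true) :
    Mx g * Mx B = Mx C := by
  ext a b
  rw [Mx_mul_apply]
  obtain ⟨h1, h2⟩ := mul_entries hg hB hC h a.2 b.2
  rw [h1, h2]
  rfl

end Cfsg.Agent.Lib.Components.U33
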